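import Mathlib
import Cfsg.Prelude.Def_Classical
import Cfsg.Prelude.Def_ClassicalGeometry
import Cfsg.Agent.H49.Basic
import Cfsg.Agent.H49.Refl

set_option autoImplicit false

namespace Cfsg.Agent.H49

open Matrix

section
variable {ι : Type} [Fintype ι] [DecidableEq ι] {F : Type*} [Field F]

omit [Fintype ι] in
/-- For a hyperbolic pair of coordinates `a, b`, the norms of `e_a ± e_b`. -/
theorem hyp_pair_Q_add (Q : QuadraticForm F (ι → F)) (a b : ι)
    (hQa : Q (Pi.single a 1) = 0) (hQb : Q (Pi.single b 1) = 0)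
    (hpb : ∀ x, QuadraticMap.polar (⇑Q) (Pi.single b 1) x = x a) :
    Q (Pi.single a 1 + Pi.single b 1) = 1 := by
  have h := hpb (Pi.single a 1)
  rw [QuadraticMap.polar_comm] at h
  simp only [QuadraticMap.polar, Pi.single_eq_same] at h
  rw [hQa, hQb] at h
  linear_combination h

omit [Fintype ι] in
theorem hyp_pair_Q_sub (Q : QuadraticForm F (ι → F)) (a b : ι)
    (hQa : Q (Pi.single a 1) = 0) (hQb : Q (Pi.single b 1) = 0)
    (hpb : ∀ x, QuadraticMap.polar (⇑Q) (Pi.single b 1) x = x a) :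
    Q (Pi.single a 1 - Pi.single b 1) = -1 := by
  have e := Q_sub_smul Q (Pi.single a 1) (Pi.single b 1) 1
  simp only [one_smul, one_mul] at e
  rw [e, hQa, hQb, hpb]
  simp

/-- The product of the reflections in `e_a + e_b` and `e_a - e_b` negates the coordinates
`a` and `b`. -/
theorem hyp_pair_refl (Q : QuadraticForm F (ι → F)) (a b : ι) (hab : a ≠ b)
    (hQa : Q (Pi.single a 1) = 0) (hQb : Q (Pi.single b 1) = 0)
    (hpa : ∀ x, QuadraticMap.polar (⇑Q) (Pi.single a 1) x = x b)
    (hpb : ∀ x, QuadraticMap.polar (⇑Q) (Pi.single b 1) x = x a) :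
    Cfsg.reflectionMatrix (⇑Q) (Pi.single a 1 + Pi.single b 1)
        * Cfsg.reflectionMatrix (⇑Q) (Pi.single a 1 - Pi.single b 1)
      = Matrix.diagonal (fun k => if k = a ∨ k = b then (-1 : F) else 1) := by
  apply matrix_ext_mulVec
  intro x
  rw [← Matrix.mulVec_mulVec, reflectionMatrix_mulVec Q (Pi.single a 1 - Pi.single b 1),
    reflectionMatrix_mulVec, hyp_pair_Q_add Q a b hQa hQb hpb, hyp_pair_Q_sub Q a b hQa hQb hpb,
    QuadraticMap.polar_add_left, QuadraticMap.polar_sub_left, hpa, hpb, hpa, hpb]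
  funext k
  rw [Matrix.mulVec_diagonal]
  by_cases hka : k = a
  · subst hka
    simp [hab, hab.symm]
  · by_cases hkb : k = b
    · subst hkb
      simp [hab, hab.symm]
    · simp [Pi.single_apply, hka, hkb]

/-- The involution negating the first `i` hyperbolic pairs is a product of `2i` reflections whose
norms multiply to `(-1)^i`. -/
theorem hyp_involution (Q : QuadraticForm F (ι → F)) {m' : ℕ} (a b : Fin m' → ι)
    (ha : Function.Injective a) (hb : Function.Injective b) (hab : ∀ j j', a j ≠ b j')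
    (hQa : ∀ j, Q (Pi.single (a j) 1) = 0) (hQb : ∀ j, Q (Pi.single (b j) 1) = 0)
    (hpa : ∀ j x, QuadraticMap.polar (⇑Q) (Pi.single (a j) 1) x = x (b j))
    (hpb : ∀ j x, QuadraticMap.polar (⇑Q) (Pi.single (b j) 1) x = x (a j))
    (i : ℕ) (hi : i ≤ m') :
    ∃ vs : List (ι → F), (∀ v ∈ vs, Q v ≠ 0) ∧ vs.length = 2 * i ∧
      (vs.map (fun v => Q v)).prod = (-1) ^ i ∧
      (vs.map (fun v => Cfsg.reflectionMatrix (⇑Q) v)).prod
        = Matrix.diagonal (fun k =>
            if ∃ j : Fin m', (j : ℕ) < i ∧ (k = a j ∨ k = b j) then (-1 : F) else 1) := by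
  induction i with
  | zero =>
    refine ⟨[], by simp, by simp, by simp, ?_⟩
    simp
  | succ i ih =>
    obtain ⟨vs, hvs, hlen, hprod, hmat⟩ := ih (by omega)
    set j₀ : Fin m' := ⟨i, by omega⟩ with hj₀
    have hQ1 := hyp_pair_Q_add Q (a j₀) (b j₀) (hQa j₀) (hQb j₀) (hpb j₀)
    have hQ2 := hyp_pair_Q_sub Q (a j₀) (b j₀) (hQa j₀) (hQb j₀) (hpb j₀)
    refine ⟨(Pi.single (a j₀) 1 + Pi.single (b j₀) 1)
      :: (Pi.single (a j₀) 1 - Pi.single (b j₀) 1) :: vs, ?_, ?_, ?_, ?_⟩
    · intro v hv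
      simp only [List.mem_cons] at hv
      rcases hv with rfl | rfl | hv
      · rw [hQ1]; exact one_ne_zero
      · rw [hQ2]; exact neg_ne_zero.mpr one_ne_zero
      · exact hvs v hv
    · simp only [List.length_cons, hlen]; ring
    · simp only [List.map_cons, List.prod_cons, hprod, hQ1, hQ2, pow_succ]; ring
    · simp only [List.map_cons, List.prod_cons]
      rw [hmat, ← mul_assoc, hyp_pair_refl Q (a j₀) (b j₀) (hab j₀ j₀) (hQa j₀) (hQb j₀) (hpa j₀)
        (hpb j₀), Matrix.diagonal_mul_diagonal]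
      congr 1
      funext k
      by_cases h1 : k = a j₀ ∨ k = b j₀
      · have h2 : ¬ ∃ j : Fin m', (j : ℕ) < i ∧ (k = a j ∨ k = b j) := by
          rintro ⟨j, hj, hk⟩
          have hne : j ≠ j₀ := by
            intro h; rw [h] at hj; simp [hj₀] at hj
          rcases h1 with h1 | h1 <;> rcases hk with hk | hk
          · exact hne (ha (hk.symm.trans h1))
          · exact hab j₀ j (h1.symm.trans hk)
          · exact hab j j₀ (hk.symm.trans h1)
          · exact hne (hb (hk.symm.trans h1))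
        have h3 : ∃ j : Fin m', (j : ℕ) < i + 1 ∧ (k = a j ∨ k = b j) :=
          ⟨j₀, by simp [hj₀], h1⟩
        rw [if_pos h1, if_neg h2, if_pos h3]; ring
      · have h4 : (∃ j : Fin m', (j : ℕ) < i + 1 ∧ (k = a j ∨ k = b j))
            ↔ ∃ j : Fin m', (j : ℕ) < i ∧ (k = a j ∨ k = b j) := by
          constructor
          · rintro ⟨j, hj, hk⟩
            refine ⟨j, ?_, hk⟩
            rcases Nat.lt_succ_iff_lt_or_eq.mp hj with h | h
            · exact h
            · exfalso
              have : j = j₀ := Fin.ext h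
              rw [this] at hk
              exact h1 hk
          · rintro ⟨j, hj, hk⟩
            exact ⟨j, by omega, hk⟩
        rw [if_neg h1, one_mul]
        simp only [h4]

end

end Cfsg.Agent.H49
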