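import Mathlib
import Cfsg.Prelude.Def_Classical
import Cfsg.Prelude.Def_ClassicalGeometry
import Cfsg.Agent.H49.Basic
import Cfsg.Agent.H49.Refl
import Cfsg.Agent.H49.Spinor
import Cfsg.Agent.H49.HypPair
import Cfsg.Agent.H49.Disc

set_option autoImplicit false

namespace Cfsg.Agent.H49

open Matrix

section
variable {ι : Type} [Fintype ι] [DecidableEq ι] {F : Type*} [Field F]

/-- The quadratic form `Σ_j x_{a j} x_{b j} + R x`. -/
def hypSum {m' : ℕ} (a b : Fin m' → ι) (R : QuadraticForm F (ι → F)) : QuadraticForm F (ι → F) :=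
  (∑ j : Fin m', QuadraticMap.proj (a j) (b j)) + R

omit [Fintype ι] [DecidableEq ι] in
theorem hypSum_apply {m' : ℕ} (a b : Fin m' → ι) (R : QuadraticForm F (ι → F)) (x : ι → F) :
    hypSum a b R x = (∑ j : Fin m', x (a j) * x (b j)) + R x := by
  simp [hypSum, QuadraticMap.sum_apply]

omit [Fintype ι] [DecidableEq ι] in
theorem polar_hypSum {m' : ℕ} (a b : Fin m' → ι) (R : QuadraticForm F (ι → F)) (x y : ι → F) :
    QuadraticMap.polar (⇑(hypSum a b R)) x y
      = (∑ j : Fin m', (x (a j) * y (b j) + y (a j) * x (b j))) + QuadraticMap.polar (⇑R) x y := by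
  simp only [QuadraticMap.polar, hypSum_apply, Pi.add_apply]
  have : ∀ j : Fin m', x (a j) * y (b j) + y (a j) * x (b j)
      = (x (a j) + y (a j)) * (x (b j) + y (b j)) - x (a j) * x (b j) - y (a j) * y (b j) := by
    intro j; ring
  simp only [this, Finset.sum_sub_distrib]
  ring

omit [Fintype ι] in
theorem hypSum_single_a {m' : ℕ} (a b : Fin m' → ι) (R : QuadraticForm F (ι → F))
    (hab : ∀ j j', a j ≠ b j') (hRa : ∀ j, R (Pi.single (a j) 1) = 0) (j : Fin m') :
    hypSum a b R (Pi.single (a j) 1) = 0 := by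
  rw [hypSum_apply, hRa, add_zero]
  apply Finset.sum_eq_zero
  intro j' _
  have : (Pi.single (a j) (1 : F) : ι → F) (b j') = 0 := by
    rw [Pi.single_apply, if_neg (hab j j').symm]
  rw [this, mul_zero]

omit [Fintype ι] in
theorem hypSum_single_b {m' : ℕ} (a b : Fin m' → ι) (R : QuadraticForm F (ι → F))
    (hab : ∀ j j', a j ≠ b j') (hRb : ∀ j, R (Pi.single (b j) 1) = 0) (j : Fin m') :
    hypSum a b R (Pi.single (b j) 1) = 0 := by
  rw [hypSum_apply, hRb, add_zero]
  apply Finset.sum_eq_zero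
  intro j' _
  have : (Pi.single (b j) (1 : F) : ι → F) (a j') = 0 := by
    rw [Pi.single_apply, if_neg (hab j' j)]
  rw [this, zero_mul]

omit [Fintype ι] in
theorem polar_hypSum_single_a {m' : ℕ} (a b : Fin m' → ι) (R : QuadraticForm F (ι → F))
    (ha : Function.Injective a) (hab : ∀ j j', a j ≠ b j')
    (hRa : ∀ j y, QuadraticMap.polar (⇑R) (Pi.single (a j) 1) y = 0) (j : Fin m') (y : ι → F) :
    QuadraticMap.polar (⇑(hypSum a b R)) (Pi.single (a j) 1) y = y (b j) := by
  rw [polar_hypSum, hRa, add_zero, Finset.sum_eq_single j]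
  · simp [Pi.single_apply, (hab j j).symm]
  · intro j' _ hne
    have h1 : (Pi.single (a j) (1 : F) : ι → F) (a j') = 0 := by
      rw [Pi.single_apply, if_neg (fun h => hne (ha h))]
    have h2 : (Pi.single (a j) (1 : F) : ι → F) (b j') = 0 := by
      rw [Pi.single_apply, if_neg (hab j j').symm]
    rw [h1, h2]; ring
  · intro h; exact absurd (Finset.mem_univ j) h

omit [Fintype ι] in
theorem polar_hypSum_single_b {m' : ℕ} (a b : Fin m' → ι) (R : QuadraticForm F (ι → F))
    (hb : Function.Injective b) (hab : ∀ j j', a j ≠ b j')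
    (hRb : ∀ j y, QuadraticMap.polar (⇑R) (Pi.single (b j) 1) y = 0) (j : Fin m') (y : ι → F) :
    QuadraticMap.polar (⇑(hypSum a b R)) (Pi.single (b j) 1) y = y (a j) := by
  rw [polar_hypSum, hRb, add_zero, Finset.sum_eq_single j]
  · simp [Pi.single_apply, (hab j j)]
  · intro j' _ hne
    have h1 : (Pi.single (b j) (1 : F) : ι → F) (b j') = 0 := by
      rw [Pi.single_apply, if_neg (fun h => hne (hb h))]
    have h2 : (Pi.single (b j) (1 : F) : ι → F) (a j') = 0 := by
      rw [Pi.single_apply, if_neg (hab j' j)]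
    rw [h1, h2]; ring
  · intro h; exact absurd (Finset.mem_univ j) h

end

theorem pow_mod_four {q : ℕ} (hq : Odd q) (i : ℕ) : q ^ i % 4 = 1 ↔ (Even i ∨ q % 4 ≠ 3) := by
  have h := Nat.odd_iff.mp hq
  have h13 : q % 4 = 1 ∨ q % 4 = 3 := by omega
  rw [Nat.pow_mod]
  rcases h13 with h1 | h3
  · rw [h1]; simp
  · rw [h3]
    rcases Nat.even_or_odd i with ⟨k, hk⟩ | ⟨k, hk⟩
    · have : 3 ^ i % 4 = 1 := by
        rw [hk, ← two_mul, pow_mul, Nat.pow_mod]; norm_num
      rw [this]
      simp [hk]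
    · have : 3 ^ i % 4 = 3 := by
        rw [hk, pow_succ, pow_mul, Nat.mul_mod, Nat.pow_mod]; norm_num
      rw [this]
      have hodd : ¬ Even i := by
        rw [Nat.not_even_iff_odd]; exact ⟨k, hk⟩
      simp [hodd]

section
variable {ι : Type} [Fintype ι] [DecidableEq ι] {F : Type*} [Field F] [Fintype F]

/-- The involution negating the first `i` hyperbolic pairs of a form `Σ x_{a j} x_{b j} + R` lies in
the commutator subgroup of the orthogonal group iff `q^i ≡ 1 (mod 4)` (odd `q`). -/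
theorem hyp_involution_mem_iff (Qf : (ι → F) → F) {m' : ℕ} (a b : Fin m' → ι)
    (R : QuadraticForm F (ι → F)) (hQ : ⇑(hypSum a b R) = Qf)
    (hq : Odd (Fintype.card F))
    (ha : Function.Injective a) (hb : Function.Injective b) (hab : ∀ j j', a j ≠ b j')
    (hRa : ∀ j, R (Pi.single (a j) 1) = 0) (hRb : ∀ j, R (Pi.single (b j) 1) = 0)
    (hRpa : ∀ j y, QuadraticMap.polar (⇑R) (Pi.single (a j) 1) y = 0)
    (hRpb : ∀ j y, QuadraticMap.polar (⇑R) (Pi.single (b j) 1) y = 0)
    (i : ℕ) (hi : i ≤ m') (d : ι → F)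
    (hd : d = fun k => if ∃ j : Fin m', (j : ℕ) < i ∧ (k = a j ∨ k = b j) then (-1 : F) else 1) :
    (∃ g : ↥(Cfsg.isometryGroup F Qf), g ∈ commutator ↥(Cfsg.isometryGroup F Qf) ∧
        ((g : Matrix.GeneralLinearGroup ι F) : Matrix ι ι F) = Matrix.diagonal d)
      ↔ Fintype.card F ^ i % 4 = 1 := by
  classical
  have h2 : (2 : F) ≠ 0 := two_ne_zero_of_odd_card hq
  obtain ⟨vs, hvs, hlen, hprod, hmat⟩ := hyp_involution (hypSum a b R) a b ha hb hab
    (hypSum_single_a a b R hab hRa) (hypSum_single_b a b R hab hRb)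
    (polar_hypSum_single_a a b R ha hab hRpa) (polar_hypSum_single_b a b R hb hab hRpb) i hi
  subst hQ
  rw [exists_mem_commutator_iff_of_prod_refl (⇑(hypSum a b R)) (hypSum a b R) rfl h2
    (Matrix.diagonal d) vs hvs (by rw [hmat, hd]), hlen, hprod, isSquare_neg_one_pow_iff,
    pow_mod_four hq]
  constructor
  · exact fun h => h.2
  · exact fun h => ⟨⟨i, by ring⟩, h⟩

end

end Cfsg.Agent.H49
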