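import Mathlib
import Cfsg.Agent.H49.AutEnd4
import Cfsg.Agent.H49.InvOmega
import Cfsg.Agent.H49.Disc

set_option autoImplicit false
set_option linter.unusedSectionVars false
set_option linter.unusedSimpArgs false
set_option linter.unusedVariables false

/-! Helper lemmas (helper49): the automorphism theorem for the three standard orthogonal
families. -/

namespace Cfsg.Agent.H49

open Module Matrix

section
variable {F : Type*} [Field F] [Fintype F]

/-- Automorphisms of `Ω_{2m+1}(F)`, `m ≥ 3`, `|F|` odd. -/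
theorem gamma_top_odd (hodd : Odd (Fintype.card F)) {m : ℕ} (hm : 3 ≤ m) :
    Cfsg.gammaPOmega F (Cfsg.quadFormOdd m F) = ⊤ := by
  classical
  have h2 : (2 : F) ≠ 0 := two_ne_zero_of_odd_card hodd
  have hQ := QOdd_nondeg (F := F) m h2
  have h3 := hasTS3_QOdd (F := F) m hm
  have hcard : finrank F (Unit ⊕ (Fin m ⊕ Fin m) → F) = 2 * m + 1 := by
    rw [Module.finrank_fintype_fun_eq_card]
    simp
    ring
  have key : ∀ α : MulAut (Cfsg.POmega F (⇑(QOdd m F))),
      α ∈ Cfsg.gammaPOmega F (⇑(QOdd m F)) := by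
    intro α
    apply aut_mem_gamma (QOdd m F) hQ h3
    · rw [hcard]; omega
    · intro h8 U hU
      have := isTS_two_mul_finrank_le hQ hU
      rw [hcard] at this h8
      omega
  rw [QOdd_coe] at key
  exact (Subgroup.eq_top_iff' _).mpr key

/-- Automorphisms of `PΩ⁺_{2m}(F)`, `m ≥ 5`. -/
theorem gamma_top_plus {m : ℕ} (hm : 5 ≤ m) :
    Cfsg.gammaPOmega F (Cfsg.quadFormPlus m F) = ⊤ := by
  classical
  have hQ := QP_nondeg m F
  have h3 := hasTS3_QP (F := F) m (by omega)
  have hcard : finrank F (Fin m ⊕ Fin m → F) = 2 * m := finrank_plus m F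
  have key : ∀ α : MulAut (Cfsg.POmega F (⇑(QP m F))),
      α ∈ Cfsg.gammaPOmega F (⇑(QP m F)) := by
    intro α
    apply aut_mem_gamma (QP m F) hQ h3
    · rw [hcard]; omega
    · intro h8 U hU
      rw [hcard] at h8
      omega
  rw [QP_coe] at key
  exact (Subgroup.eq_top_iff' _).mpr key

/-- Automorphisms of `PΩ⁻_{2m+2}(F)`, `m ≥ 3`. -/
theorem gamma_top_minus {m : ℕ} (hm : 3 ≤ m) (a b : F)
    (hab : ∀ z₁ z₂ : F, z₁ ^ 2 + a * z₁ * z₂ + b * z₂ ^ 2 = 0 → z₁ = 0 ∧ z₂ = 0) :
    Cfsg.gammaPOmega F (Cfsg.quadFormMinus m F a b) = ⊤ := by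
  classical
  have hd := disc_ne_zero_of_aniso a b hab
  have hQ := QMin_nondeg m a b hd
  have h3 := hasTS3_QMin (F := F) m hm a b
  have hcard : finrank F ((Fin m ⊕ Fin m) ⊕ Fin 2 → F) = 2 * m + 2 := by
    rw [Module.finrank_fintype_fun_eq_card]
    simp
    ring
  have key : ∀ α : MulAut (Cfsg.POmega F (⇑(QMin m F a b))),
      α ∈ Cfsg.gammaPOmega F (⇑(QMin m F a b)) := by
    intro α
    apply aut_mem_gamma (QMin m F a b) hQ h3
    · rw [hcard]; omega
    · intro h8 U hU
      have := QMin_ts_le m a b hab hd U hU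
      rw [hcard] at h8
      omega
  rw [QMin_coe] at key
  exact (Subgroup.eq_top_iff' _).mpr key

end

end Cfsg.Agent.H49
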