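import Mathlib
import Cfsg.Agent.H49.SimQuot2
import Cfsg.Agent.H49.AutOut1

set_option autoImplicit false
set_option linter.unusedSectionVars false
set_option linter.unusedSimpArgs false
set_option linter.unusedVariables false

/-! Helper lemmas (helper49): odd dimension, odd characteristic: `PGO = PSO` and `|PSO : PΩ| = 2`
inside `Aut(PΩ)`. -/

namespace Cfsg.Agent.H49

open Module Matrix

section
variable {ι : Type} [Fintype ι] [DecidableEq ι] {F : Type*} [Field F] [Fintype F] [DecidableEq F]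

theorem det_negG_odd (Q : QuadraticForm F (ι → F)) {k : ℕ} (hk : Fintype.card ι = 2 * k + 1) :
    (((negG Q : ↥(Cfsg.isometryGroup F (⇑Q))) : Matrix.GeneralLinearGroup ι F) :
      Matrix ι ι F).det = -1 := by
  have : (((negG Q : ↥(Cfsg.isometryGroup F (⇑Q))) : Matrix.GeneralLinearGroup ι F)
      : Matrix ι ι F) = -1 := rfl
  rw [this, Matrix.det_neg, Matrix.det_one, hk, mul_one, pow_succ, pow_mul]
  simp

/-- In odd dimension the multiplier of a similarity is a square. -/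
theorem simMul_isSquare_odd (Q : QuadraticForm F (ι → F))
    (hQ : (QuadraticMap.polarBilin Q).Nondegenerate) {k : ℕ}
    (hk : Fintype.card ι = 2 * k + 1) (g : ↥(Cfsg.Geo.quadSimilarityGroup (⇑Q))) :
    IsSquare (simMul (⇑Q) g : F) := by
  have h := sim_det_sq Q hQ g
  rw [hk] at h
  have h0 : (simMul (⇑Q) g : F) ≠ 0 := (simMul (⇑Q) g).ne_zero
  refine ⟨((g : Matrix.GeneralLinearGroup ι F) : Matrix ι ι F).det / (simMul (⇑Q) g : F) ^ k, ?_⟩
  field_simp
  rw [h]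
  ring

/-- In odd dimension every similarity-induced automorphism is induced by a special isometry. -/
theorem pgoAut_le_psoAut_odd (Q : QuadraticForm F (ι → F)) (h2 : (2 : F) ≠ 0)
    (hQ : (QuadraticMap.polarBilin Q).Nondegenerate) {k : ℕ}
    (hk : Fintype.card ι = 2 * k + 1) :
    Cfsg.pgoAut F (⇑Q) ≤ Cfsg.psoAut F (⇑Q) := by
  rw [pgoAut_eq, psoAut_eq]
  rintro _ ⟨g, rfl⟩
  obtain ⟨l, g₀, rfl⟩ := exists_scal_mul_of_isSquare Q g (simMul_isSquare_odd Q hQ hk g)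
  rw [map_mul, cHom_scalSim, one_mul]
  rcases det_eq_one_or Q h2 hQ g₀ with hd | hd
  · refine ⟨inclO Q g₀, ⟨g₀.2, ?_⟩, rfl⟩
    exact (Cfsg.Agent.H95.mem_specialLinear_iff _).mpr hd
  · refine ⟨inclO Q (negG Q * g₀), ⟨(negG Q * g₀).2, ?_⟩, ?_⟩
    · apply (Cfsg.Agent.H95.mem_specialLinear_iff _).mpr
      have := det_mul_iso (negG Q) g₀
      rw [det_negG_odd Q hk, hd] at this
      show (((negG Q * g₀ : ↥(Cfsg.isometryGroup F (⇑Q))) : Matrix.GeneralLinearGroup ι F) :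
        Matrix ι ι F).det = 1
      rw [this]
      ring
    · rw [map_mul, inclO_negG, map_mul, cHom_scalSim, one_mul]

/-- In odd dimension `PΩ` has index two in `PSO`. -/
theorem relIndex_inn_psoAut_odd (Q : QuadraticForm F (ι → F)) (h2 : (2 : F) ≠ 0)
    (hQ : (QuadraticMap.polarBilin Q).Nondegenerate) (h3 : HasTS3 Q) {k : ℕ}
    (hk : Fintype.card ι = 2 * k + 1) :
    (Cfsg.Inn (Cfsg.POmega F (⇑Q))).relIndex (Cfsg.psoAut F (⇑Q)) = 2 := by
  have hne : ∃ v, Q v ≠ 0 := by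
    obtain ⟨x, hx⟩ := exists_Q_eq_of_ts3 Q hQ h3 1
    exact ⟨x, by rw [hx]; exact one_ne_zero⟩
  obtain ⟨SO', hSO⟩ : ∃ S : Subgroup ↥(Cfsg.Geo.quadSimilarityGroup (⇑Q)),
      S = (Cfsg.specialIsometryGL F (⇑Q)).comap (Cfsg.Geo.quadSimilarityGroup (⇑Q)).subtype :=
    ⟨_, rfl⟩
  have hmemSO : ∀ x : ↥(Cfsg.Geo.quadSimilarityGroup (⇑Q)), x ∈ SO' ↔
      ((x : Matrix.GeneralLinearGroup ι F) ∈ Cfsg.isometryGroup F (⇑Q) ∧
        ((x : Matrix.GeneralLinearGroup ι F) : Matrix ι ι F).det = 1) := by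
    intro x
    rw [hSO, ← Cfsg.Agent.H95.mem_specialLinear_iff]
    rfl
  have hmemO : ∀ s : ↥SO', (s.1 : Matrix.GeneralLinearGroup ι F) ∈ Cfsg.isometryGroup F (⇑Q) :=
    fun s => ((hmemSO s.1).mp s.2).1
  have hmemS : ∀ s : ↥SO', ((s.1 : Matrix.GeneralLinearGroup ι F) : Matrix ι ι F).det = 1 :=
    fun s => ((hmemSO s.1).mp s.2).2
  obtain ⟨toO, htoO⟩ : ∃ f : ↥SO' →* ↥(Cfsg.isometryGroup F (⇑Q)),
      ∀ s, f s = ⟨s.1, hmemO s⟩ :=
    ⟨MonoidHom.mk' (fun s => ⟨s.1, hmemO s⟩) (fun a b => rfl), fun s => rfl⟩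
  have hincl : ∀ s : ↥SO', (s : ↥(Cfsg.Geo.quadSimilarityGroup (⇑Q))) = inclO Q (toO s) := by
    intro s
    rw [htoO]
    rfl
  have key := relIndex_eq_card_of_hom ((cHom (⇑Q)).comp SO'.subtype) ((spinSign Q).comp toO)
    (((Cfsg.Geo.omegaGL (⇑Q)).comap (Cfsg.Geo.quadSimilarityGroup (⇑Q)).subtype).subgroupOf SO')
    ?_ ?_ ?_ ?_ (Cfsg.psoAut F (⇑Q)) (Cfsg.Inn (Cfsg.POmega F (⇑Q))) ?_ ?_
  · rw [key, Nat.card_eq_fintype_card, Fintype.card_units_int]
  · intro s hs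
    have hs' : cHom (⇑Q) (s : ↥(Cfsg.Geo.quadSimilarityGroup (⇑Q))) = 1 := MonoidHom.mem_ker.mp hs
    obtain ⟨l, hl⟩ := eq_scalSim_of_cHom_eq_one Q hQ h3 hne _ hs'
    rw [MonoidHom.mem_ker]
    show spinSign Q (toO s) = 1
    have h5 : ((toO s : ↥(Cfsg.isometryGroup F (⇑Q))) : Matrix.GeneralLinearGroup ι F)
        = scalGL ι l := by
      rw [htoO]
      exact congrArg Subtype.val hl
    rcases scal_isometry Q hne l (toO s) h5 with h6 | h6
    · rw [h6, map_one]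
    · exfalso
      have hd := hmemS s
      have hd' : (((toO s : ↥(Cfsg.isometryGroup F (⇑Q))) : Matrix.GeneralLinearGroup ι F) :
          Matrix ι ι F).det = 1 := by
        rw [htoO]
        exact hd
      rw [h6, det_negG_odd Q hk] at hd'
      apply h2
      linear_combination -hd'
  · intro a
    obtain ⟨x, hx⟩ := exists_Q_eq_of_ts3 Q hQ h3 1
    obtain ⟨ν, hν⟩ := exists_nonsquare_of_two_ne_zero (F := F) h2
    obtain ⟨y, hy⟩ := exists_Q_eq_of_ts3 Q hQ h3 ν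
    have hx0 : Q x ≠ 0 := by rw [hx]; exact one_ne_zero
    have hy0 : Q y ≠ 0 := by
      rw [hy]
      rintro rfl
      exact hν ⟨0, by simp⟩
    have h1 : spinSign Q (reflG Q x) = -1 := by
      rw [spinSign_reflG Q h2 x hx0, if_pos (by rw [hx]; exact ⟨1, by simp⟩)]
    have h1' : spinSign Q (reflG Q y) = 1 := by
      rw [spinSign_reflG Q h2 y hy0, if_neg (by rw [hy]; exact hν)]
    rcases Int.units_eq_one_or a with rfl | rfl
    · exact ⟨1, map_one _⟩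
    · have hdet : (((reflG Q x * reflG Q y : ↥(Cfsg.isometryGroup F (⇑Q))) :
          Matrix.GeneralLinearGroup ι F) : Matrix ι ι F).det = 1 := by
        rw [det_mul_iso, reflG_coe, reflG_coe, det_reflectionMatrix Q x hx0,
          det_reflectionMatrix Q y hy0]
        ring
      have hmem : inclO Q (reflG Q x * reflG Q y) ∈ SO' :=
        (hmemSO _).mpr ⟨(reflG Q x * reflG Q y).2, hdet⟩
      refine ⟨⟨inclO Q (reflG Q x * reflG Q y), hmem⟩, ?_⟩
      show spinSign Q (toO ⟨inclO Q (reflG Q x * reflG Q y), hmem⟩) = -1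
      rw [htoO]
      show spinSign Q (reflG Q x * reflG Q y) = -1
      rw [map_mul, h1, h1', mul_one]
  · intro s hs
    rw [Subgroup.mem_subgroupOf] at hs
    obtain ⟨t, ht, hts⟩ := hs
    rw [MonoidHom.mem_ker]
    show spinSign Q (toO s) = 1
    have e : toO s = t := by
      rw [htoO]
      apply Subtype.ext
      exact hts.symm
    rw [e]
    exact ((mem_commutator_iff_spinSign_det Q h2 hQ t).mp ht).1
  · intro s hs
    refine ⟨s, ?_, rfl⟩
    rw [Subgroup.mem_subgroupOf]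
    refine ⟨toO s, ?_, ?_⟩
    · rw [SetLike.mem_coe]
      show toO s ∈ commutator ↥(Cfsg.isometryGroup F (⇑Q))
      rw [mem_commutator_iff_spinSign_det Q h2 hQ]
      refine ⟨hs, ?_⟩
      rw [htoO]
      exact hmemS s
    · rw [htoO]
      rfl
  · rw [psoAut_eq, MonoidHom.range_comp, Subgroup.range_subtype, hSO]
  · rw [inn_eq, ← Subgroup.map_map, Subgroup.subgroupOf_map_subtype, inf_of_le_left]
    rw [hSO]
    exact Subgroup.comap_mono (omegaGL_le_special (⇑Q))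

/-- In odd dimension, `|PGO| = 2 |PΩ|`. -/
theorem card_pgoAut_odd (Q : QuadraticForm F (ι → F)) (h2 : (2 : F) ≠ 0)
    (hQ : (QuadraticMap.polarBilin Q).Nondegenerate) (h3 : HasTS3 Q) {k : ℕ}
    (hk : Fintype.card ι = 2 * k + 1) :
    Cfsg.pgoAut F (⇑Q) = Cfsg.psoAut F (⇑Q) ∧
    Nat.card ↥(Cfsg.pgoAut F (⇑Q)) = 2 * Nat.card (Cfsg.POmega F (⇑Q)) := by
  have hle : Cfsg.psoAut F (⇑Q) ≤ Cfsg.pgoAut F (⇑Q) := by
    rw [pgoAut_eq, psoAut_eq, MonoidHom.range_eq_map]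
    exact Subgroup.map_mono le_top
  have heq : Cfsg.pgoAut F (⇑Q) = Cfsg.psoAut F (⇑Q) :=
    le_antisymm (pgoAut_le_psoAut_odd Q h2 hQ hk) hle
  refine ⟨heq, ?_⟩
  have hinn : Cfsg.Inn (Cfsg.POmega F (⇑Q)) ≤ Cfsg.psoAut F (⇑Q) := inn_le_psoAut (⇑Q)
  have h := Subgroup.relIndex_mul_relIndex ⊥ (Cfsg.Inn (Cfsg.POmega F (⇑Q)))
    (Cfsg.psoAut F (⇑Q)) bot_le hinn
  rw [Subgroup.relIndex_bot_left, Subgroup.relIndex_bot_left,
    relIndex_inn_psoAut_odd Q h2 hQ h3 hk, card_inn_pOmega Q hQ h3] at h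
  rw [heq, ← h]
  ring

end

end Cfsg.Agent.H49
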