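import Mathlib
import Cfsg.Agent.H49.OddAut
import Cfsg.Agent.H49.AutInst
import Cfsg.Agent.H49.FieldAutCyc

set_option autoImplicit false
set_option linter.unusedSectionVars false
set_option linter.unusedSimpArgs false
set_option linter.unusedVariables false

/-! Helper lemmas (helper49): the order of `Aut(Ω_{2m+1}(q))`. -/

namespace Cfsg.Agent.H49

open Module Matrix

section
variable {F : Type*} [Field F] [Fintype F]

/-- The field automorphisms are semisimilarities of the odd-dimensional standard form. -/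
theorem pair_odd_sigma (m : ℕ) (σ : F ≃+* F) :
    Cfsg.IsSemisimilarityPair (Cfsg.quadFormOdd m F)
      (1 : Matrix.GeneralLinearGroup (Unit ⊕ (Fin m ⊕ Fin m)) F) σ := by
  classical
  refine ⟨1, fun v => ?_⟩
  rw [Units.val_one, Matrix.one_mulVec, Units.val_one, one_mul]
  unfold Cfsg.quadFormOdd
  rw [map_add, map_pow, map_sum]
  congr 1
  apply Finset.sum_congr rfl
  intro i _
  rw [map_mul]

/-- The field automorphisms are semisimilarities of the plus-type standard form. -/
theorem pair_plus_sigma (m : ℕ) (σ : F ≃+* F) :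
    Cfsg.IsSemisimilarityPair (Cfsg.quadFormPlus m F)
      (1 : Matrix.GeneralLinearGroup (Fin m ⊕ Fin m) F) σ := by
  classical
  refine ⟨1, fun v => ?_⟩
  rw [Units.val_one, Matrix.one_mulVec, Units.val_one, one_mul]
  unfold Cfsg.quadFormPlus
  rw [map_sum]
  apply Finset.sum_congr rfl
  intro i _
  rw [map_mul]

/-- `|Aut(Ω_{2m+1}(q))| = 2 f |Ω_{2m+1}(q)|`. -/
theorem card_aut_odd (p f : ℕ) [Fact p.Prime] (hf : 1 ≤ f) (hF : Fintype.card F = p ^ f)
    (hodd : Odd p) (m : ℕ) (hm : 3 ≤ m) :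
    Nat.card (MulAut (Cfsg.POmega F (Cfsg.quadFormOdd m F)))
      = 2 * f * Nat.card (Cfsg.POmega F (Cfsg.quadFormOdd m F)) := by
  classical
  have hoddF : Odd (Fintype.card F) := by rw [hF]; exact hodd.pow
  have h2 : (2 : F) ≠ 0 := two_ne_zero_of_odd_card hoddF
  have hQ := QOdd_nondeg (F := F) m h2
  have h3 := hasTS3_QOdd (F := F) m hm
  have hcard : Fintype.card (Unit ⊕ (Fin m ⊕ Fin m)) = 2 * m + 1 := by
    simp
    ring
  have htop : ∀ β : MulAut (Cfsg.POmega F (⇑(QOdd m F))),
      β ∈ Cfsg.gammaPOmega F (⇑(QOdd m F)) := by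
    intro β
    have ht : Cfsg.gammaPOmega F (⇑(QOdd m F)) = ⊤ := gamma_top_odd hoddF hm
    rw [ht]
    exact Subgroup.mem_top β
  have key := card_aut_eq (QOdd m F) hQ h3 htop (fun σ => ⟨1, pair_odd_sigma m σ⟩)
  rw [(card_pgoAut_odd (QOdd m F) h2 hQ h3 hcard).2, (ringAut_card p f hf hF).2] at key
  have key' : Nat.card (MulAut (Cfsg.POmega F (Cfsg.quadFormOdd m F)))
      = 2 * Nat.card (Cfsg.POmega F (Cfsg.quadFormOdd m F)) * f := key
  rw [key']
  ring

end

end Cfsg.Agent.H49
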