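import Mathlib
import Cfsg.Agent.H49.FieldDesc
import Cfsg.Agent.H49.Levi

set_option autoImplicit false
set_option linter.unusedSectionVars false
set_option linter.unusedSimpArgs false
set_option linter.unusedVariables false

/-! Helper lemmas (helper49): base change of similarities, isometries and reflections along a
homomorphism of fields. -/

namespace Cfsg.Agent.H49

open Module Matrix

section
variable {ι : Type} [Fintype ι] [DecidableEq ι] {F₀ : Type*} {F : Type*} [Field F₀] [Field F]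

/-- The forms `Q₀` over `F₀` and `Q` over `F` correspond under the field homomorphism `j`. -/
def FormCompat (j : F₀ →+* F) (Q₀ : QuadraticForm F₀ (ι → F₀)) (Q : QuadraticForm F (ι → F)) :
    Prop :=
  ∀ u : ι → F₀, Q (fun i => j (u i)) = j (Q₀ u)

theorem FormCompat.polar {j : F₀ →+* F} {Q₀ : QuadraticForm F₀ (ι → F₀)}
    {Q : QuadraticForm F (ι → F)} (h : FormCompat j Q₀ Q) (u v : ι → F₀) :
    QuadraticMap.polar (⇑Q) (fun i => j (u i)) (fun i => j (v i))
      = j (QuadraticMap.polar (⇑Q₀) u v) := by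
  simp only [QuadraticMap.polar]
  have e : (fun i => j (u i)) + (fun i => j (v i)) = fun i => j ((u + v) i) := by
    funext i
    simp
  rw [e, h, h, h, map_sub, map_sub]

theorem map_mulVec_coe (j : F₀ →+* F) (M : Matrix ι ι F₀) (u : ι → F₀) :
    (M.map j) *ᵥ (fun i => j (u i)) = fun i => j ((M *ᵥ u) i) := by
  funext i
  exact (RingHom.map_mulVec j M u i).symm

theorem coe_single_hom (j : F₀ →+* F) (i : ι) :
    (fun k => j ((Pi.single i (1 : F₀) : ι → F₀) k)) = Pi.single i (1 : F) := by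
  funext k
  by_cases hk : k = i
  · subst hk
    simp
  · simp [Pi.single_apply, hk]

/-- Base change of a matrix scaling the form. -/
theorem bc_form {j : F₀ →+* F} {Q₀ : QuadraticForm F₀ (ι → F₀)} {Q : QuadraticForm F (ι → F)}
    (hc : FormCompat j Q₀ Q) (M : Matrix ι ι F₀) (μ : F₀)
    (hM : ∀ u, Q₀ (M *ᵥ u) = μ * Q₀ u) (v : ι → F) :
    Q ((M.map j) *ᵥ v) = j μ * Q v := by
  apply form_eq_of_basis_images
  · intro i
    rw [← coe_single_hom j i, map_mulVec_coe, hc, hc, hM, map_mul]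
  · intro i k
    rw [← coe_single_hom j i, ← coe_single_hom j k, map_mulVec_coe, map_mulVec_coe, hc.polar,
      hc.polar, ← map_mul]
    congr 1
    simp only [QuadraticMap.polar]
    rw [← Matrix.mulVec_add, hM, hM, hM]
    ring

theorem bc_mem_sim {j : F₀ →+* F} {Q₀ : QuadraticForm F₀ (ι → F₀)} {Q : QuadraticForm F (ι → F)}
    (hc : FormCompat j Q₀ Q) (g₀ : ↥(Cfsg.Geo.quadSimilarityGroup (⇑Q₀))) :
    Matrix.GeneralLinearGroup.map j (g₀ : Matrix.GeneralLinearGroup ι F₀)
      ∈ Cfsg.Geo.quadSimilarityGroup (⇑Q) :=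
  ⟨Units.map (j : F₀ →* F) (simMul (⇑Q₀) g₀), fun v =>
    bc_form hc _ _ (fun u => simMul_spec (⇑Q₀) g₀ u) v⟩

/-- Base change of similarities. -/
def bcSim {j : F₀ →+* F} {Q₀ : QuadraticForm F₀ (ι → F₀)} {Q : QuadraticForm F (ι → F)}
    (hc : FormCompat j Q₀ Q) :
    ↥(Cfsg.Geo.quadSimilarityGroup (⇑Q₀)) →* ↥(Cfsg.Geo.quadSimilarityGroup (⇑Q)) :=
  MonoidHom.mk' (fun g₀ => ⟨Matrix.GeneralLinearGroup.map j g₀.1, bc_mem_sim hc g₀⟩) (by
    intro a b
    apply Subtype.ext
    exact map_mul _ _ _)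

theorem bcSim_coe {j : F₀ →+* F} {Q₀ : QuadraticForm F₀ (ι → F₀)} {Q : QuadraticForm F (ι → F)}
    (hc : FormCompat j Q₀ Q) (g₀ : ↥(Cfsg.Geo.quadSimilarityGroup (⇑Q₀))) :
    ((bcSim hc g₀ : ↥(Cfsg.Geo.quadSimilarityGroup (⇑Q))) : Matrix.GeneralLinearGroup ι F)
      = Matrix.GeneralLinearGroup.map j g₀.1 := rfl

theorem bcSim_val {j : F₀ →+* F} {Q₀ : QuadraticForm F₀ (ι → F₀)} {Q : QuadraticForm F (ι → F)}
    (hc : FormCompat j Q₀ Q) (g₀ : ↥(Cfsg.Geo.quadSimilarityGroup (⇑Q₀))) :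
    (((bcSim hc g₀ : ↥(Cfsg.Geo.quadSimilarityGroup (⇑Q))) : Matrix.GeneralLinearGroup ι F) :
      Matrix ι ι F) = ((g₀ : Matrix.GeneralLinearGroup ι F₀) : Matrix ι ι F₀).map j := rfl

/-- Base change of a reflection. -/
theorem bc_reflectionMatrix {j : F₀ →+* F} {Q₀ : QuadraticForm F₀ (ι → F₀)}
    {Q : QuadraticForm F (ι → F)} (hc : FormCompat j Q₀ Q) (u : ι → F₀) :
    (Cfsg.reflectionMatrix (⇑Q₀) u).map j = Cfsg.reflectionMatrix (⇑Q) (fun i => j (u i)) := by
  ext i k
  have e1 : Cfsg.polarVec (⇑Q) (fun i => j (u i)) k = j (Cfsg.polarVec (⇑Q₀) u k) := by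
    unfold Cfsg.polarVec
    rw [← coe_single_hom j k, hc.polar]
  simp only [Cfsg.reflectionMatrix, Matrix.map_apply, Matrix.sub_apply, Matrix.smul_apply,
    Matrix.vecMulVec_apply, smul_eq_mul, map_sub, map_mul, map_inv₀, e1, hc u, Matrix.one_apply]
  split_ifs <;> simp

theorem bc_prod_refl {j : F₀ →+* F} {Q₀ : QuadraticForm F₀ (ι → F₀)}
    {Q : QuadraticForm F (ι → F)} (hc : FormCompat j Q₀ Q) (vs : List (ι → F₀)) :
    ((vs.map (fun v => Cfsg.reflectionMatrix (⇑Q₀) v)).prod).map j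
      = ((vs.map (fun v : ι → F₀ => fun i => j (v i))).map
          (fun w => Cfsg.reflectionMatrix (⇑Q) w)).prod := by
  induction vs with
  | nil => simp
  | cons v vs ih =>
    rw [List.map_cons, List.prod_cons, Matrix.map_mul, ih, bc_reflectionMatrix hc, List.map_cons,
      List.map_cons, List.prod_cons]

end

section
variable {ι : Type} [Fintype ι] [DecidableEq ι] {F₀ : Type*} {F : Type*} [Field F₀] [Field F]
  [Fintype F₀] [Fintype F]

/-- Base change of an isometry of determinant one lies in `Ω` when every element of the small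
field becomes a square. -/
theorem bc_mem_commutator {j : F₀ →+* F} {Q₀ : QuadraticForm F₀ (ι → F₀)}
    {Q : QuadraticForm F (ι → F)} (hc : FormCompat j Q₀ Q) (h2 : (2 : F₀) ≠ 0)
    (hQ₀ : (QuadraticMap.polarBilin Q₀).Nondegenerate)
    (hsq : ∀ a : F₀, IsSquare (j a))
    (s₀ : ↥(Cfsg.isometryGroup F₀ (⇑Q₀)))
    (hdet : ((s₀ : Matrix.GeneralLinearGroup ι F₀) : Matrix ι ι F₀).det = 1)
    (s : ↥(Cfsg.isometryGroup F (⇑Q)))
    (hs : ((s : Matrix.GeneralLinearGroup ι F) : Matrix ι ι F)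
      = ((s₀ : Matrix.GeneralLinearGroup ι F₀) : Matrix ι ι F₀).map j) :
    s ∈ commutator ↥(Cfsg.isometryGroup F (⇑Q)) := by
  classical
  have h2F : (2 : F) ≠ 0 := by
    intro h
    apply h2
    apply j.injective
    rw [map_ofNat, h, map_zero]
  obtain ⟨l, hl, rfl⟩ := exists_list_of_closure_invol (reflSet Q₀) (reflSet_invol Q₀)
    (closure_reflSet_eq_top Q₀ h2 hQ₀) s₀
  obtain ⟨vs, hvs, rfl⟩ := exists_vectors_of_reflSet Q₀ l hl
  rw [coe_prod_reflG] at hs hdet
  rw [det_prod_refl Q₀ vs hvs] at hdet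
  rw [bc_prod_refl hc] at hs
  have hvs' : ∀ w ∈ vs.map (fun v : ι → F₀ => fun i => j (v i)), Q w ≠ 0 := by
    intro w hw
    obtain ⟨v, hv, rfl⟩ := List.mem_map.mp hw
    rw [hc]
    exact (map_ne_zero j).mpr (hvs v hv)
  rw [mem_commutator_iff_of_prod_refl Q h2F s _ hvs' hs]
  constructor
  · rw [List.length_map]
    by_contra hodd
    rw [Nat.not_even_iff_odd] at hodd
    rw [hodd.neg_one_pow] at hdet
    apply h2
    linear_combination -hdet
  · have e : ((vs.map (fun v : ι → F₀ => fun i => j (v i))).map (fun w => Q w)).prod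
        = j ((vs.map (fun v => Q₀ v)).prod) := by
      rw [map_list_prod, List.map_map, List.map_map]
      congr 1
      apply List.map_congr_left
      intro v _
      exact hc v
    rw [e]
    exact hsq _

end

end Cfsg.Agent.H49
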