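import Mathlib
import Cfsg.Agent.H49.GalDesc

set_option autoImplicit false
set_option linter.unusedSectionVars false
set_option linter.unusedSimpArgs false
set_option linter.unusedVariables false

/-! Helper lemmas (helper49): the fixed field of a field automorphism of a finite field and
centralisers of conjugates (copies of lemmas of helper50, `Cfsg.Agent.H50.FieldAutLang` and
`Cfsg.Agent.H50.FieldAutBase`), plus an abstract isomorphism lemma. -/

namespace Cfsg.Agent.H49.GalDesc

section finite

variable {F : Type*} [Field F] [Finite F]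

theorem card_fixF (σ : RingAut F) {r : ℕ} (hr : orderOf σ = r) :
    Nat.card (fixF σ) ^ r = Nat.card F := by
  classical
  have : Fintype F := Fintype.ofFinite F
  have : Finite (RingAut F) :=
    Finite.of_injective (fun τ : RingAut F => (τ : F → F)) DFunLike.coe_injective
  have : Fintype (Subgroup.zpowers σ) := Fintype.ofFinite _
  have : Fintype (fixF σ) := Fintype.ofFinite _
  have h1 : Module.finrank (fixF σ) F = r := by
    unfold fixF
    rw [FixedPoints.finrank_eq_card, ← Nat.card_eq_fintype_card, Nat.card_zpowers, hr]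
  have h2 := Module.card_eq_pow_finrank (K := fixF σ) (V := F)
  rw [h1] at h2
  rw [Nat.card_eq_fintype_card, Nat.card_eq_fintype_card, h2]

/-- An embedding of a field of order `p ^ (f / r)` onto the fixed field of `σ`. -/
theorem exists_emb_fix [Fintype F] {p f : ℕ} [Fact p.Prime] (hF : Fintype.card F = p ^ f)
    (σ : RingAut F) {r : ℕ} (hr : orderOf σ = r) (hr0 : 0 < r)
    (F₀ : Type*) [Field F₀] [Fintype F₀] (hF₀ : Fintype.card F₀ = p ^ (f / r)) :
    ∃ j : F₀ →+* F, ∀ x : F, σ x = x ↔ ∃ x₀ : F₀, j x₀ = x := by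
  classical
  have hp := (Fact.out : p.Prime)
  have : Fintype (fixF σ) := Fintype.ofFinite _
  have h1 := card_fixF σ hr
  rw [Nat.card_eq_fintype_card, Nat.card_eq_fintype_card, hF] at h1
  have hdvd : Fintype.card (fixF σ) ∣ p ^ f := by
    rw [← h1]
    exact dvd_pow_self _ (by omega)
  obtain ⟨e, -, hce⟩ := (Nat.dvd_prime_pow hp).mp hdvd
  rw [hce, ← pow_mul] at h1
  have h2 : e * r = f := Nat.pow_right_injective hp.two_le h1
  have h3 : e = f / r := by rw [← h2, Nat.mul_div_cancel _ hr0]
  have hc : Fintype.card F₀ = Fintype.card (fixF σ) := by rw [hF₀, hce, h3]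
  let ε : F₀ ≃+* fixF σ := FiniteField.ringEquivOfCardEq hc
  refine ⟨(fixF σ).subtype.comp (ε : F₀ →+* fixF σ), fun x => ?_⟩
  constructor
  · intro hx
    refine ⟨ε.symm ⟨x, (mem_fixF σ x).mpr hx⟩, ?_⟩
    simp
  · rintro ⟨x₀, rfl⟩
    exact (mem_fixF σ _).mp (ε x₀).2

end finite

section abstract

variable {X : Type*} [Group X]

/-- Conjugation carries the centraliser of `x` in a normal subgroup to that of a conjugate. -/
noncomputable def centConj (H : Subgroup X) [hH : H.Normal] (d x : X) :
    ↥(H ⊓ Subgroup.centralizer ({x} : Set X)) ≃*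
      ↥(H ⊓ Subgroup.centralizer ({d * x * d⁻¹} : Set X)) :=
  (MulEquiv.subgroupMap (MulAut.conj d) _).trans (MulEquiv.subgroupCongr (by
    ext y
    rw [Subgroup.mem_map, Subgroup.mem_inf, Subgroup.mem_centralizer_iff]
    constructor
    · rintro ⟨z, hz, rfl⟩
      rw [Subgroup.mem_inf, Subgroup.mem_centralizer_iff] at hz
      refine ⟨hH.conj_mem z hz.1 d, ?_⟩
      intro w hw
      rw [Set.mem_singleton_iff] at hw
      have h1 := hz.2 x rfl
      rw [hw]
      show d * x * d⁻¹ * (d * z * d⁻¹) = d * z * d⁻¹ * (d * x * d⁻¹)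
      have e1 : d * x * d⁻¹ * (d * z * d⁻¹) = d * (x * z) * d⁻¹ := by group
      have e2 : d * z * d⁻¹ * (d * x * d⁻¹) = d * (z * x) * d⁻¹ := by group
      rw [e1, e2, h1]
    · rintro ⟨hy, hc⟩
      refine ⟨d⁻¹ * y * d, ?_, ?_⟩
      · rw [Subgroup.mem_inf, Subgroup.mem_centralizer_iff]
        refine ⟨?_, ?_⟩
        · have := hH.conj_mem y hy d⁻¹
          rwa [inv_inv] at this
        · intro w hw
          rw [Set.mem_singleton_iff] at hw
          have h1 := hc _ rfl
          rw [hw]
          have e1 : x * (d⁻¹ * y * d) = d⁻¹ * (d * x * d⁻¹ * y) * d := by group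
          have e2 : d⁻¹ * y * d * x = d⁻¹ * (y * (d * x * d⁻¹)) * d := by group
          rw [e1, e2, h1]
      · show d * (d⁻¹ * y * d) * d⁻¹ = y
        group))

/-- Two surjective homomorphisms with the same kernel have isomorphic targets. -/
theorem equiv_of_surj_same_ker {G A B : Type*} [Group G] [Group A] [Group B] (f : G →* A)
    (g : G →* B) (hf : Function.Surjective f) (hg : Function.Surjective g)
    (hk : f.ker = g.ker) : Nonempty (A ≃* B) :=
  ⟨(QuotientGroup.quotientKerEquivOfSurjective f hf).symm.trans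
    ((QuotientGroup.quotientMulEquivOfEq hk).trans
      (QuotientGroup.quotientKerEquivOfSurjective g hg))⟩

end abstract

end Cfsg.Agent.H49.GalDesc
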