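import Mathlib
import Cfsg.Agent.H49.FieldBC
import Cfsg.Agent.H49.GalDesc2

set_option autoImplicit false
set_option linter.unusedSectionVars false
set_option linter.unusedSimpArgs false
set_option linter.unusedVariables false

/-! Helper lemmas (helper49): the centraliser of the standard field automorphism in the image
of the conformal orthogonal group is the conformal group over the fixed field. -/

namespace Cfsg.Agent.H49

open Module Matrix GalDesc

section
variable {ι : Type} [Fintype ι] [DecidableEq ι] {F : Type*} [Field F] [Fintype F]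

/-- A similarity with `σ`-fixed matrix induces an automorphism commuting with the standard field
automorphism. -/
theorem cent_phi_of_fixed (Q : QuadraticForm F (ι → F)) (σ : RingAut F)
    (hp1 : Cfsg.IsSemisimilarityPair (⇑Q) (1 : Matrix.GeneralLinearGroup ι F) σ)
    {φ : MulAut (Cfsg.POmega F (⇑Q))}
    (hi1 : Cfsg.IsInducedBySemilinearPOmega (⇑Q) (1 : Matrix.GeneralLinearGroup ι F) σ φ)
    (h : ↥(Cfsg.Geo.quadSimilarityGroup (⇑Q)))
    (hfix : ((h : Matrix.GeneralLinearGroup ι F) : Matrix ι ι F).map σ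
      = ((h : Matrix.GeneralLinearGroup ι F) : Matrix ι ι F)) :
    φ * cHom (⇑Q) h = cHom (⇑Q) h * φ := by
  have hc := conj_cHom Q hp1 hi1 h
  have e : semiConjSim Q hp1 h = h := by
    apply Subtype.ext
    apply Units.ext
    show (((1 : Matrix.GeneralLinearGroup ι F) *
        Matrix.GeneralLinearGroup.map (σ : F →+* F) h.1 * (1 : Matrix.GeneralLinearGroup ι F)⁻¹ :
        Matrix.GeneralLinearGroup ι F) : Matrix ι ι F) = _
    rw [one_mul, inv_one, mul_one, glMap_val]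
    exact hfix
  rw [e] at hc
  exact mul_inv_eq_iff_eq_mul.mp hc

/-- A similarity inducing an automorphism commuting with the standard field automorphism is a
scalar multiple of a similarity with `σ`-fixed matrix. -/
theorem fixed_of_cent [Nonempty ι] (Q : QuadraticForm F (ι → F))
    (hQ : (QuadraticMap.polarBilin Q).Nondegenerate) (h3 : HasTS3 Q) (hne : ∃ v, Q v ≠ 0)
    (σ : RingAut F) {r : ℕ} (hr : orderOf σ = r) (hr0 : 0 < r)
    (hp1 : Cfsg.IsSemisimilarityPair (⇑Q) (1 : Matrix.GeneralLinearGroup ι F) σ)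
    {φ : MulAut (Cfsg.POmega F (⇑Q))}
    (hi1 : Cfsg.IsInducedBySemilinearPOmega (⇑Q) (1 : Matrix.GeneralLinearGroup ι F) σ φ)
    (h : ↥(Cfsg.Geo.quadSimilarityGroup (⇑Q)))
    (hcomm : φ * cHom (⇑Q) h = cHom (⇑Q) h * φ) :
    ∃ e : F, e ≠ 0 ∧ (e • ((h : Matrix.GeneralLinearGroup ι F) : Matrix ι ι F)).map σ
      = e • ((h : Matrix.GeneralLinearGroup ι F) : Matrix ι ι F) := by
  classical
  have hσr : σ ^ r = 1 := by rw [← hr]; exact pow_orderOf_eq_one σ
  have hc := conj_cHom Q hp1 hi1 h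
  rw [hcomm, mul_inv_cancel_right] at hc
  have h1 : cHom (⇑Q) (h⁻¹ * semiConjSim Q hp1 h) = 1 := by
    rw [map_mul, map_inv, ← hc, inv_mul_cancel]
  obtain ⟨l, hl⟩ := eq_scalSim_of_cHom_eq_one Q hQ h3 hne _ h1
  have hl' : semiConjSim Q hp1 h = h * scalSim Q l := by
    rw [← hl]
    group
  have hmap : ((h : Matrix.GeneralLinearGroup ι F) : Matrix ι ι F).map σ
      = (l : F) • ((h : Matrix.GeneralLinearGroup ι F) : Matrix ι ι F) := by
    have h2 := congrArg (fun x : ↥(Cfsg.Geo.quadSimilarityGroup (⇑Q)) =>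
      ((x : Matrix.GeneralLinearGroup ι F) : Matrix ι ι F)) hl'
    have h3' : ((semiConjSim Q hp1 h : ↥(Cfsg.Geo.quadSimilarityGroup (⇑Q))) :
        Matrix.GeneralLinearGroup ι F).1
        = ((h : Matrix.GeneralLinearGroup ι F) : Matrix ι ι F).map σ := by
      show (((1 : Matrix.GeneralLinearGroup ι F) *
        Matrix.GeneralLinearGroup.map (σ : F →+* F) h.1 * (1 : Matrix.GeneralLinearGroup ι F)⁻¹ :
        Matrix.GeneralLinearGroup ι F) : Matrix ι ι F) = _
      rw [one_mul, inv_one, mul_one, glMap_val]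
    have h4 : ((h * scalSim Q l : ↥(Cfsg.Geo.quadSimilarityGroup (⇑Q))) :
        Matrix.GeneralLinearGroup ι F).1
        = (l : F) • ((h : Matrix.GeneralLinearGroup ι F) : Matrix ι ι F) := by
      show ((h : Matrix.GeneralLinearGroup ι F) : Matrix ι ι F)
        * ((scalGL ι l : Matrix.GeneralLinearGroup ι F) : Matrix ι ι F) = _
      rw [scalGL_coe, Matrix.mul_smul, Matrix.mul_one]
    rw [← h3', ← h4]
    exact h2
  have hiter : ∀ k : ℕ, ((h : Matrix.GeneralLinearGroup ι F) : Matrix ι ι F).map (σ ^ k)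
      = nrmF σ k (l : F) • ((h : Matrix.GeneralLinearGroup ι F) : Matrix ι ι F) := by
    intro k
    induction k with
    | zero =>
      rw [nrmF_zero, one_smul]
      ext i j
      rfl
    | succ k ih =>
      have e1 : ((h : Matrix.GeneralLinearGroup ι F) : Matrix ι ι F).map (σ ^ (k + 1))
          = (((h : Matrix.GeneralLinearGroup ι F) : Matrix ι ι F).map (σ ^ k)).map σ := by
        ext i j
        rw [Matrix.map_apply, Matrix.map_apply, Matrix.map_apply, pow_succ']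
        rfl
      rw [e1, ih, nrmF_succ]
      ext i j
      rw [Matrix.map_apply, Matrix.smul_apply, Matrix.smul_apply, smul_eq_mul, smul_eq_mul,
        map_mul]
      have e2 := congrFun (congrFun hmap i) j
      rw [Matrix.map_apply, Matrix.smul_apply, smul_eq_mul] at e2
      rw [e2]
      ring
  have hN : nrmF σ r (l : F) = 1 := by
    have h5 := hiter r
    rw [hσr] at h5
    have h6 : ((h : Matrix.GeneralLinearGroup ι F) : Matrix ι ι F).map (1 : RingAut F)
        = ((h : Matrix.GeneralLinearGroup ι F) : Matrix ι ι F) := by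
      ext i j
      rfl
    rw [h6] at h5
    have h7 : (nrmF σ r (l : F) - 1) • ((h : Matrix.GeneralLinearGroup ι F) : Matrix ι ι F) = 0 := by
      rw [sub_smul, one_smul, ← h5, sub_self]
    have h8 : (nrmF σ r (l : F) - 1) • (1 : Matrix ι ι F) = 0 := by
      have h9 : (1 : Matrix ι ι F) = ((h : Matrix.GeneralLinearGroup ι F) : Matrix ι ι F)
          * (((h : Matrix.GeneralLinearGroup ι F)⁻¹ : Matrix.GeneralLinearGroup ι F) :
            Matrix ι ι F) := by
        rw [← Units.val_mul, mul_inv_cancel, Units.val_one]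
      rw [h9, ← Matrix.smul_mul, h7, Matrix.zero_mul]
    obtain ⟨i⟩ := ‹Nonempty ι›
    have h10 := congrFun (congrFun h8 i) i
    rw [Matrix.smul_apply, Matrix.one_apply_eq, smul_eq_mul, mul_one, Matrix.zero_apply] at h10
    exact sub_eq_zero.mp h10
  obtain ⟨e, he0, he⟩ := exists_h90_cyc σ hr hr0 (l : F) hN
  refine ⟨e, he0, ?_⟩
  ext i j
  show σ (e * ((h : Matrix.GeneralLinearGroup ι F) : Matrix ι ι F) i j)
    = e * ((h : Matrix.GeneralLinearGroup ι F) : Matrix ι ι F) i j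
  rw [map_mul]
  have e2 := congrFun (congrFun hmap i) j
  rw [Matrix.map_apply, Matrix.smul_apply, smul_eq_mul] at e2
  rw [e2, ← mul_assoc, mul_comm (σ e), he]

end

section
variable {ι : Type} [Fintype ι] [DecidableEq ι] {F₀ : Type*} {F : Type*} [Field F₀] [Field F]
  [Fintype F₀] [Fintype F]

/-- A similarity with `σ`-fixed matrix comes from the fixed field. -/
theorem exists_bc_of_fixed {j : F₀ →+* F} {Q₀ : QuadraticForm F₀ (ι → F₀)}
    {Q : QuadraticForm F (ι → F)} (hc : FormCompat j Q₀ Q) (hne : ∃ v, Q v ≠ 0)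
    (σ : RingAut F) (hj : ∀ a : F, σ a = a ↔ ∃ a₀ : F₀, j a₀ = a)
    (hσQ : ∀ v : ι → F, Q (fun i => σ (v i)) = σ (Q v))
    (h : ↥(Cfsg.Geo.quadSimilarityGroup (⇑Q)))
    (hfix : ((h : Matrix.GeneralLinearGroup ι F) : Matrix ι ι F).map σ
      = ((h : Matrix.GeneralLinearGroup ι F) : Matrix ι ι F)) :
    ∃ g₀ : ↥(Cfsg.Geo.quadSimilarityGroup (⇑Q₀)), bcSim hc g₀ = h := by
  classical
  have hent : ∀ i k, ∃ a₀ : F₀, j a₀ = ((h : Matrix.GeneralLinearGroup ι F) : Matrix ι ι F) i k := by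
    intro i k
    apply (hj _).mp
    have := congrFun (congrFun hfix i) k
    rwa [Matrix.map_apply] at this
  choose M₀ hM₀ using hent
  have hMmap : (Matrix.of M₀).map j = ((h : Matrix.GeneralLinearGroup ι F) : Matrix ι ι F) := by
    ext i k
    rw [Matrix.map_apply]
    exact hM₀ i k
  have hdet : (Matrix.of M₀).det ≠ 0 := by
    intro h0
    have h1 : ((Matrix.of M₀).map j).det = 0 := by
      have := RingHom.map_det j (Matrix.of M₀)
      rw [RingHom.mapMatrix_apply] at this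
      rw [← this, h0, map_zero]
    rw [hMmap] at h1
    have h2 := (h : Matrix.GeneralLinearGroup ι F).isUnit
    rw [Matrix.isUnit_iff_isUnit_det] at h2
    exact h2.ne_zero h1
  -- the multiplier lies in the fixed field
  obtain ⟨w, hw⟩ := hne
  have hμσ : σ (simMul (⇑Q) h : F) = (simMul (⇑Q) h : F) := by
    have e1 : Q (((h : Matrix.GeneralLinearGroup ι F) : Matrix ι ι F) *ᵥ (fun i => σ (w i)))
        = (simMul (⇑Q) h : F) * σ (Q w) := by
      rw [simMul_spec (⇑Q) h, hσQ]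
    have e2 : Q (((h : Matrix.GeneralLinearGroup ι F) : Matrix ι ι F) *ᵥ (fun i => σ (w i)))
        = σ (simMul (⇑Q) h : F) * σ (Q w) := by
      conv_lhs => rw [← hfix]
      rw [sigma_mulVec, hσQ, simMul_spec (⇑Q) h, map_mul]
    have e3 : (σ (simMul (⇑Q) h : F) - (simMul (⇑Q) h : F)) * σ (Q w) = 0 := by
      rw [sub_mul, ← e1, ← e2, sub_self]
    rcases mul_eq_zero.mp e3 with h4 | h4
    · exact sub_eq_zero.mp h4
    · exact absurd ((map_eq_zero _).mp h4) hw
  obtain ⟨μ₀, hμ₀⟩ := (hj _).mp hμσ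
  have hμ₀0 : μ₀ ≠ 0 := by
    rintro rfl
    rw [map_zero] at hμ₀
    exact (simMul (⇑Q) h).ne_zero hμ₀.symm
  have hsim : ∀ u : ι → F₀, Q₀ ((Matrix.of M₀) *ᵥ u) = μ₀ * Q₀ u := by
    intro u
    apply j.injective
    rw [← hc, ← map_mulVec_coe, hMmap, simMul_spec (⇑Q) h, hc, map_mul, hμ₀]
  refine ⟨⟨Matrix.GeneralLinearGroup.mkOfDetNeZero (Matrix.of M₀) hdet,
    ⟨Units.mk0 μ₀ hμ₀0, fun u => hsim u⟩⟩, ?_⟩
  apply Subtype.ext
  apply Units.ext
  exact hMmap

/-- The base-change map into the centraliser of the standard field automorphism. -/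
theorem bc_mem_cent {j : F₀ →+* F} {Q₀ : QuadraticForm F₀ (ι → F₀)}
    {Q : QuadraticForm F (ι → F)} (hc : FormCompat j Q₀ Q)
    (σ : RingAut F) (hj : ∀ a : F, σ a = a ↔ ∃ a₀ : F₀, j a₀ = a)
    (hp1 : Cfsg.IsSemisimilarityPair (⇑Q) (1 : Matrix.GeneralLinearGroup ι F) σ)
    {φ : MulAut (Cfsg.POmega F (⇑Q))}
    (hi1 : Cfsg.IsInducedBySemilinearPOmega (⇑Q) (1 : Matrix.GeneralLinearGroup ι F) σ φ)
    (g₀ : ↥(Cfsg.Geo.quadSimilarityGroup (⇑Q₀))) :
    cHom (⇑Q) (bcSim hc g₀) ∈ Cfsg.pgoAut F (⇑Q) ⊓ Subgroup.centralizer {φ} := by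
  rw [Subgroup.mem_inf]
  refine ⟨?_, ?_⟩
  · rw [pgoAut_eq]
    exact ⟨_, rfl⟩
  · rw [Subgroup.mem_centralizer_iff]
    intro y hy
    rw [Set.mem_singleton_iff] at hy
    subst hy
    apply cent_phi_of_fixed Q σ hp1 hi1
    rw [bcSim_val]
    ext i k
    rw [Matrix.map_apply, Matrix.map_apply]
    exact (hj _).mpr ⟨_, rfl⟩

/-- The centraliser of the standard field automorphism in the image of the conformal group is
isomorphic to the image of the conformal group over the fixed field. -/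
theorem cent_phi_equiv [Nonempty ι] {j : F₀ →+* F} {Q₀ : QuadraticForm F₀ (ι → F₀)}
    {Q : QuadraticForm F (ι → F)} (hc : FormCompat j Q₀ Q)
    (hQ : (QuadraticMap.polarBilin Q).Nondegenerate) (h3 : HasTS3 Q) (hne : ∃ v, Q v ≠ 0)
    (hQ₀ : (QuadraticMap.polarBilin Q₀).Nondegenerate) (h3₀ : HasTS3 Q₀) (hne₀ : ∃ v, Q₀ v ≠ 0)
    (σ : RingAut F) {r : ℕ} (hr : orderOf σ = r) (hr0 : 0 < r)
    (hj : ∀ a : F, σ a = a ↔ ∃ a₀ : F₀, j a₀ = a)
    (hσQ : ∀ v : ι → F, Q (fun i => σ (v i)) = σ (Q v))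
    (hp1 : Cfsg.IsSemisimilarityPair (⇑Q) (1 : Matrix.GeneralLinearGroup ι F) σ)
    {φ : MulAut (Cfsg.POmega F (⇑Q))}
    (hi1 : Cfsg.IsInducedBySemilinearPOmega (⇑Q) (1 : Matrix.GeneralLinearGroup ι F) σ φ) :
    (∀ y ∈ Cfsg.pgoAut F (⇑Q) ⊓ Subgroup.centralizer {φ},
      ∃ g₀ : ↥(Cfsg.Geo.quadSimilarityGroup (⇑Q₀)), cHom (⇑Q) (bcSim hc g₀) = y) ∧
    Nonempty (↥(Cfsg.pgoAut F (⇑Q) ⊓ Subgroup.centralizer {φ}) ≃* ↥(Cfsg.pgoAut F₀ (⇑Q₀))) := by
  classical
  have hsurj : ∀ y ∈ Cfsg.pgoAut F (⇑Q) ⊓ Subgroup.centralizer {φ},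
      ∃ g₀ : ↥(Cfsg.Geo.quadSimilarityGroup (⇑Q₀)), cHom (⇑Q) (bcSim hc g₀) = y := by
    intro y hy
    rw [Subgroup.mem_inf] at hy
    obtain ⟨hy1, hy2⟩ := hy
    rw [pgoAut_eq] at hy1
    obtain ⟨h, rfl⟩ := hy1
    rw [Subgroup.mem_centralizer_iff] at hy2
    have hcomm := hy2 φ rfl
    obtain ⟨e, he0, he⟩ := fixed_of_cent Q hQ h3 hne σ hr hr0 hp1 hi1 h hcomm
    have hval : (((scalSim Q (Units.mk0 e he0) * h : ↥(Cfsg.Geo.quadSimilarityGroup (⇑Q))) :
        Matrix.GeneralLinearGroup ι F) : Matrix ι ι F)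
        = e • ((h : Matrix.GeneralLinearGroup ι F) : Matrix ι ι F) := by
      show ((scalGL ι (Units.mk0 e he0) : Matrix.GeneralLinearGroup ι F) : Matrix ι ι F)
        * ((h : Matrix.GeneralLinearGroup ι F) : Matrix ι ι F) = _
      rw [scalGL_coe, Units.val_mk0, Matrix.smul_mul, Matrix.one_mul]
    obtain ⟨g₀, hg₀⟩ := exists_bc_of_fixed hc hne σ hj hσQ (scalSim Q (Units.mk0 e he0) * h)
      (by rw [hval]; exact he)
    refine ⟨g₀, ?_⟩
    rw [hg₀, map_mul, cHom_scalSim, one_mul]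
  refine ⟨hsurj, ?_⟩
  obtain ⟨Φ, hΦ⟩ : ∃ Φ : ↥(Cfsg.Geo.quadSimilarityGroup (⇑Q₀)) →*
      ↥(Cfsg.pgoAut F (⇑Q) ⊓ Subgroup.centralizer {φ}),
      ∀ g₀, ((Φ g₀ : ↥(Cfsg.pgoAut F (⇑Q) ⊓ Subgroup.centralizer {φ})) :
        MulAut (Cfsg.POmega F (⇑Q))) = cHom (⇑Q) (bcSim hc g₀) :=
    ⟨((cHom (⇑Q)).comp (bcSim hc)).codRestrict _ (fun g₀ => bc_mem_cent hc σ hj hp1 hi1 g₀),
      fun g₀ => rfl⟩
  have hΦsurj : Function.Surjective Φ := by
    rintro ⟨y, hy⟩
    obtain ⟨g₀, hg₀⟩ := hsurj y hy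
    exact ⟨g₀, Subtype.ext ((hΦ g₀).trans hg₀)⟩
  have hker : Φ.ker = ((cHom (⇑Q₀)).rangeRestrict).ker := by
    ext g₀
    rw [MonoidHom.mem_ker, MonoidHom.mem_ker, Subtype.ext_iff, Subtype.ext_iff, hΦ]
    show cHom (⇑Q) (bcSim hc g₀) = 1 ↔ cHom (⇑Q₀) g₀ = 1
    constructor
    · intro h1
      obtain ⟨l, hl⟩ := eq_scalSim_of_cHom_eq_one Q hQ h3 hne _ h1
      have hmat : ((g₀ : Matrix.GeneralLinearGroup ι F₀) : Matrix ι ι F₀).map j
          = (l : F) • (1 : Matrix ι ι F) := by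
        have := congrArg (fun x : ↥(Cfsg.Geo.quadSimilarityGroup (⇑Q)) =>
          ((x : Matrix.GeneralLinearGroup ι F) : Matrix ι ι F)) hl
        rw [← scalGL_coe, ← bcSim_val hc]
        exact this
      obtain ⟨i₀⟩ := ‹Nonempty ι›
      obtain ⟨l₀, hl₀⟩ : ∃ l₀ : F₀, l₀ = ((g₀ : Matrix.GeneralLinearGroup ι F₀) : Matrix ι ι F₀)
          i₀ i₀ := ⟨_, rfl⟩
      have hjl : j l₀ = l := by
        have := congrFun (congrFun hmat i₀) i₀
        rw [Matrix.map_apply, Matrix.smul_apply, Matrix.one_apply_eq, smul_eq_mul, mul_one] at this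
        rw [hl₀]
        exact this
      have hl₀0 : l₀ ≠ 0 := by
        rintro rfl
        rw [map_zero] at hjl
        exact l.ne_zero hjl.symm
      have hg : g₀ = scalSim Q₀ (Units.mk0 l₀ hl₀0) := by
        apply Subtype.ext
        apply Units.ext
        show ((g₀ : Matrix.GeneralLinearGroup ι F₀) : Matrix ι ι F₀)
          = ((scalGL ι (Units.mk0 l₀ hl₀0) : Matrix.GeneralLinearGroup ι F₀) : Matrix ι ι F₀)
        rw [scalGL_coe, Units.val_mk0]
        ext i k
        apply j.injective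
        have := congrFun (congrFun hmat i) k
        rw [Matrix.map_apply, Matrix.smul_apply, smul_eq_mul] at this
        rw [this, Matrix.smul_apply, smul_eq_mul, map_mul, hjl]
        by_cases hik : i = k
        · subst hik
          rw [Matrix.one_apply_eq, Matrix.one_apply_eq, map_one]
        · rw [Matrix.one_apply_ne hik, Matrix.one_apply_ne hik, map_zero]
      rw [hg, cHom_scalSim]
    · intro h1
      obtain ⟨l₀, hl₀⟩ := eq_scalSim_of_cHom_eq_one Q₀ hQ₀ h3₀ hne₀ _ h1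
      have hg : bcSim hc g₀ = scalSim Q (Units.map (j : F₀ →* F) l₀) := by
        apply Subtype.ext
        apply Units.ext
        rw [bcSim_val, hl₀]
        show ((scalGL ι l₀ : Matrix.GeneralLinearGroup ι F₀) : Matrix ι ι F₀).map j
          = ((scalGL ι (Units.map (j : F₀ →* F) l₀) : Matrix.GeneralLinearGroup ι F) :
            Matrix ι ι F)
        rw [scalGL_coe, scalGL_coe]
        ext i k
        rw [Matrix.map_apply, Matrix.smul_apply, Matrix.smul_apply, smul_eq_mul, smul_eq_mul,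
          map_mul]
        by_cases hik : i = k
        · subst hik
          rw [Matrix.one_apply_eq, Matrix.one_apply_eq, map_one]
          rfl
        · rw [Matrix.one_apply_ne hik, Matrix.one_apply_ne hik, map_zero, mul_zero, mul_zero]
      rw [hg, cHom_scalSim]
  obtain ⟨ε⟩ := equiv_of_surj_same_ker Φ ((cHom (⇑Q₀)).rangeRestrict) hΦsurj
    (cHom (⇑Q₀)).rangeRestrict_surjective hker
  exact ⟨ε.trans (MulEquiv.subgroupCongr (pgoAut_eq (⇑Q₀)).symm)⟩

end

end Cfsg.Agent.H49
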