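import Mathlib
import Cfsg.Agent.H49.FieldDesc
import Cfsg.Agent.H49.AutInst
import Cfsg.Agent.H49.AutOdd
import Cfsg.Agent.H49.StdBasis

set_option autoImplicit false
set_option linter.unusedSectionVars false
set_option linter.unusedSimpArgs false
set_option linter.unusedVariables false

/-! Helper lemmas (helper49): field automorphisms of prime order of the odd-dimensional
orthogonal groups; conjugacy inside the coset of the inner-diagonal group. -/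

namespace Cfsg.Agent.H49

open Module Matrix GalDesc

section
variable {F : Type*} [Field F]

theorem QOdd_apply (m : ℕ) (x : Unit ⊕ (Fin m ⊕ Fin m) → F) :
    QOdd m F x = x (Sum.inl ()) ^ 2 + ∑ i : Fin m, x (Sum.inr (Sum.inl i)) * x (Sum.inr (Sum.inr i)) :=
  rfl

theorem polar_QOdd (m : ℕ) (x y : Unit ⊕ (Fin m ⊕ Fin m) → F) :
    QuadraticMap.polar (⇑(QOdd m F)) x y
      = 2 * x (Sum.inl ()) * y (Sum.inl ())
        + ∑ i : Fin m, (x (Sum.inr (Sum.inl i)) * y (Sum.inr (Sum.inr i))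
          + y (Sum.inr (Sum.inl i)) * x (Sum.inr (Sum.inr i))) := by
  rw [QOdd, polar_sumQ, polar_sqQ, polar_QP]
  rfl

theorem QOdd_sigma (m : ℕ) (σ : F ≃+* F) (v : Unit ⊕ (Fin m ⊕ Fin m) → F) :
    QOdd m F (fun i => σ (v i)) = σ (QOdd m F v) := by
  rw [QOdd_apply, QOdd_apply, map_add, map_pow, map_sum]
  congr 1
  apply Finset.sum_congr rfl
  intro i _
  rw [map_mul]

theorem QOdd_ne (m : ℕ) : ∃ v, QOdd m F v ≠ 0 := by
  classical
  refine ⟨Pi.single (Sum.inl ()) 1, ?_⟩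
  rw [QOdd_apply]
  simp

end

section
variable {F : Type*} [Field F] [Fintype F]

/-- Descent for the odd-dimensional form: a similarity solving Lang's equation. -/
theorem odd_lang_sim (hodd : Odd (Fintype.card F)) (m : ℕ)
    (σ : RingAut F) {r : ℕ} (hr : orderOf σ = r) (hr0 : 0 < r)
    (A : Matrix (Unit ⊕ (Fin m ⊕ Fin m)) (Unit ⊕ (Fin m ⊕ Fin m)) F) (μ : F)
    (hA : ∀ v, QOdd m F (A *ᵥ v) = μ * QOdd m F v)
    (P : Matrix.GeneralLinearGroup (Unit ⊕ (Fin m ⊕ Fin m)) F)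
    (hP : A * (P : Matrix (Unit ⊕ (Fin m ⊕ Fin m)) (Unit ⊕ (Fin m ⊕ Fin m)) F).map σ = (P : Matrix (Unit ⊕ (Fin m ⊕ Fin m)) (Unit ⊕ (Fin m ⊕ Fin m)) F)) :
    ∃ P' : ↥(Cfsg.Geo.quadSimilarityGroup (⇑(QOdd m F))),
      A * ((P' : Matrix.GeneralLinearGroup (Unit ⊕ (Fin m ⊕ Fin m)) F) : Matrix (Unit ⊕ (Fin m ⊕ Fin m)) (Unit ⊕ (Fin m ⊕ Fin m)) F).map σ
        = ((P' : Matrix.GeneralLinearGroup (Unit ⊕ (Fin m ⊕ Fin m)) F) : Matrix (Unit ⊕ (Fin m ⊕ Fin m)) (Unit ⊕ (Fin m ⊕ Fin m)) F) := by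
  classical
  have h2 : (2 : F) ≠ 0 := two_ne_zero_of_odd_card hodd
  have hQ := QOdd_nondeg (F := F) m h2
  obtain ⟨e, he0, he⟩ := exists_equivariant (QOdd m F) (QOdd_ne m) σ hr hr0 (QOdd_sigma m σ)
    A μ hA P hP
  obtain ⟨Q2, hQ2⟩ : ∃ Q2 : QuadraticForm F (Unit ⊕ (Fin m ⊕ Fin m) → F),
      ∀ w, Q2 w = e⁻¹ * QOdd m F ((P : Matrix (Unit ⊕ (Fin m ⊕ Fin m)) (Unit ⊕ (Fin m ⊕ Fin m)) F) *ᵥ w) :=
    ⟨e⁻¹ • (QOdd m F).comp (Matrix.toLin' (P : Matrix (Unit ⊕ (Fin m ⊕ Fin m)) (Unit ⊕ (Fin m ⊕ Fin m)) F)), fun w => rfl⟩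
  have hQ2nd := nondeg_of_transport (QOdd m F) Q2 hQ P e he0 hQ2
  have hQ2σ : ∀ w : Unit ⊕ (Fin m ⊕ Fin m) → F, Q2 (fun i => σ (w i)) = σ (Q2 w) := by
    intro w
    rw [hQ2, hQ2]
    exact he w
  obtain ⟨K, hK⟩ : ∃ K : Subfield F, ∀ a : F, σ a = a ↔ a ∈ K :=
    ⟨fixF σ, fun a => (mem_fixF σ a).symm⟩
  obtain ⟨Q0, hQ0⟩ := exists_fixed_form σ K hK Q2 hQ2σ
  have hQ0nd := fixed_form_nondeg K Q2 hQ2nd Q0 hQ0
  have hpol := fixed_form_polar K Q2 Q0 hQ0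
  have hfr : Module.finrank K (Unit ⊕ (Fin m ⊕ Fin m) → K) = 2 * m + 1 := by
    rw [Module.finrank_fintype_fun_eq_card]
    simp
    ring
  obtain ⟨b, hb0, hb1, hb2, hb3, hb4⟩ := odd_standard_basis hfr Q0 hQ0nd
  obtain ⟨c, hc⟩ : ∃ c : K, c = Q0 (b (Sum.inl ())) := ⟨_, rfl⟩
  have hc0 : c ≠ 0 := by rw [hc]; exact hb0
  obtain ⟨w, hw⟩ : ∃ w : Unit ⊕ (Fin m ⊕ Fin m) → Kˣ,
      w = Sum.elim (fun _ => 1) (Sum.elim (fun _ => Units.mk0 c hc0) (fun _ => 1)) := ⟨_, rfl⟩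
  obtain ⟨b', hb'⟩ : ∃ b' : Basis (Unit ⊕ (Fin m ⊕ Fin m)) K (Unit ⊕ (Fin m ⊕ Fin m) → K),
      ∀ i, b' i = (w i : K) • b i :=
    ⟨b.unitsSMul w, fun i => by rw [Basis.unitsSMul_apply]; rfl⟩
  have hb'0 : b' (Sum.inl ()) = b (Sum.inl ()) := by
    rw [hb', hw]; simp
  have hb'1 : ∀ k, b' (Sum.inr (Sum.inl k)) = c • b (Sum.inr (Sum.inl k)) := by
    intro k; rw [hb', hw]; simp
  have hb'2 : ∀ k, b' (Sum.inr (Sum.inr k)) = b (Sum.inr (Sum.inr k)) := by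
    intro k; rw [hb', hw]; simp
  obtain ⟨B, hB⟩ := exists_gl_of_basis K b'
  have hBσ : (B : Matrix (Unit ⊕ (Fin m ⊕ Fin m)) (Unit ⊕ (Fin m ⊕ Fin m)) F).map σ = (B : Matrix (Unit ⊕ (Fin m ⊕ Fin m)) (Unit ⊕ (Fin m ⊕ Fin m)) F) := by
    ext i j
    rw [Matrix.map_apply, hB]
    exact (hK _).mpr (b' j i).2
  have hBcol : ∀ j, (B : Matrix (Unit ⊕ (Fin m ⊕ Fin m)) (Unit ⊕ (Fin m ⊕ Fin m)) F) *ᵥ Pi.single j 1 = fun i => ((b' j i : K) : F) := by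
    intro j
    rw [Matrix.mulVec_single_one]
    funext i
    exact hB i j
  -- values of the descended form on the rescaled basis
  have v0 : Q0 (b' (Sum.inl ())) = c := by rw [hb'0, hc]
  have v1 : ∀ k, Q0 (b' (Sum.inr (Sum.inl k))) = 0 := by
    intro k; rw [hb'1, QuadraticMap.map_smul, (hb2 k).1, smul_zero]
  have v2 : ∀ k, Q0 (b' (Sum.inr (Sum.inr k))) = 0 := by
    intro k; rw [hb'2, (hb2 k).2]
  have p00 : QuadraticMap.polar (⇑Q0) (b' (Sum.inl ())) (b' (Sum.inl ())) = c + c := by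
    rw [QuadraticMap.polar_self, v0, two_smul]
  have p01 : ∀ k, QuadraticMap.polar (⇑Q0) (b' (Sum.inl ())) (b' (Sum.inr (Sum.inl k))) = 0 := by
    intro k; rw [hb'0, hb'1, QuadraticMap.polar_smul_right, (hb1 k).1, smul_zero]
  have p02 : ∀ k, QuadraticMap.polar (⇑Q0) (b' (Sum.inl ())) (b' (Sum.inr (Sum.inr k))) = 0 := by
    intro k; rw [hb'0, hb'2, (hb1 k).2]
  have p11 : ∀ k k', QuadraticMap.polar (⇑Q0) (b' (Sum.inr (Sum.inl k)))
      (b' (Sum.inr (Sum.inl k'))) = 0 := by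
    intro k k'
    rw [hb'1, hb'1, QuadraticMap.polar_smul_right, QuadraticMap.polar_smul_left, (hb4 k k').1,
      smul_zero, smul_zero]
  have p12 : ∀ k k', QuadraticMap.polar (⇑Q0) (b' (Sum.inr (Sum.inl k)))
      (b' (Sum.inr (Sum.inr k'))) = if k = k' then c else 0 := by
    intro k k'
    rw [hb'1, hb'2, QuadraticMap.polar_smul_left, hb3]
    split_ifs <;> simp
  have p22 : ∀ k k', QuadraticMap.polar (⇑Q0) (b' (Sum.inr (Sum.inr k)))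
      (b' (Sum.inr (Sum.inr k'))) = 0 := by
    intro k k'
    rw [hb'2, hb'2, (hb4 k k').2]
  have hval : ∀ i, Q2 ((B : Matrix (Unit ⊕ (Fin m ⊕ Fin m)) (Unit ⊕ (Fin m ⊕ Fin m)) F) *ᵥ Pi.single i 1) = ((Q0 (b' i) : K) : F) := by
    intro i
    rw [hBcol, hQ0]
  have hpolv : ∀ i j, QuadraticMap.polar (⇑Q2) ((B : Matrix (Unit ⊕ (Fin m ⊕ Fin m)) (Unit ⊕ (Fin m ⊕ Fin m)) F) *ᵥ Pi.single i 1)
      ((B : Matrix (Unit ⊕ (Fin m ⊕ Fin m)) (Unit ⊕ (Fin m ⊕ Fin m)) F) *ᵥ Pi.single j 1)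
      = ((QuadraticMap.polar (⇑Q0) (b' i) (b' j) : K) : F) := by
    intro i j
    rw [hBcol, hBcol, hpol]
  have hform : ∀ v, Q2 ((B : Matrix (Unit ⊕ (Fin m ⊕ Fin m)) (Unit ⊕ (Fin m ⊕ Fin m)) F) *ᵥ v) = (c : F) * QOdd m F v := by
    apply form_eq_of_basis_images
    · intro i
      rw [hval]
      rcases i with _ | k | k
      · rw [v0, QOdd_apply]; simp
      · rw [v1, QOdd_apply]; simp
      · rw [v2, QOdd_apply]; simp
    · intro i j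
      rw [hpolv]
      rcases i with _ | k | k <;> rcases j with _ | k' | k'
      · rw [p00, polar_QOdd, Subfield.coe_add]; simp; ring
      · rw [p01, polar_QOdd]; simp
      · rw [p02, polar_QOdd]; simp
      · rw [QuadraticMap.polar_comm, p01, polar_QOdd]; simp
      · rw [p11, polar_QOdd]; simp
      · rw [p12, polar_QOdd]
        rcases eq_or_ne k k' with rfl | hk
        · simp [Pi.single_apply]
        · simp [Pi.single_apply, hk, hk.symm]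
      · rw [QuadraticMap.polar_comm, p02, polar_QOdd]; simp
      · rw [QuadraticMap.polar_comm, p12, polar_QOdd]
        rcases eq_or_ne k' k with rfl | hk
        · simp [Pi.single_apply]
        · simp [Pi.single_apply, hk, hk.symm]
      · rw [p22, polar_QOdd]; simp
  have hc0F : (c : F) ≠ 0 := fun h => hc0 (Subtype.ext h)
  have hsim : ∀ v, QOdd m F (((P * B : Matrix.GeneralLinearGroup (Unit ⊕ (Fin m ⊕ Fin m)) F) : Matrix (Unit ⊕ (Fin m ⊕ Fin m)) (Unit ⊕ (Fin m ⊕ Fin m)) F) *ᵥ v)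
      = (e * (c : F)) * QOdd m F v := by
    intro v
    have h1 := hform v
    rw [hQ2] at h1
    rw [Units.val_mul, ← Matrix.mulVec_mulVec, mul_assoc, ← h1, ← mul_assoc, mul_inv_cancel₀ he0,
      one_mul]
  refine ⟨⟨P * B, ⟨Units.mk0 (e * (c : F)) (mul_ne_zero he0 hc0F), fun v => hsim v⟩⟩, ?_⟩
  show A * ((P * B : Matrix.GeneralLinearGroup (Unit ⊕ (Fin m ⊕ Fin m)) F) : Matrix (Unit ⊕ (Fin m ⊕ Fin m)) (Unit ⊕ (Fin m ⊕ Fin m)) F).map σ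
      = ((P * B : Matrix.GeneralLinearGroup (Unit ⊕ (Fin m ⊕ Fin m)) F) : Matrix (Unit ⊕ (Fin m ⊕ Fin m)) (Unit ⊕ (Fin m ⊕ Fin m)) F)
  rw [Units.val_mul, Matrix.map_mul, hBσ, ← Matrix.mul_assoc, hP]


/-- Field automorphisms of prime order of `Ω_{2m+1}(q)`: an element of the coset of the
inner-diagonal group with the same order is conjugate under the inner-diagonal group. -/
theorem odd_field_coset_Q (hodd : Odd (Fintype.card F)) {m : ℕ} (hm : 3 ≤ m)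
    (x δ : MulAut (Cfsg.POmega F (⇑(QOdd m F))))
    (hx : Cfsg.IsFieldAutClassPOmega (⇑(QOdd m F)) x) {r : ℕ} (hr : r.Prime)
    (hxr : orderOf x = r) (hδ : δ ∈ Cfsg.pgoAut F (⇑(QOdd m F))) (ho : orderOf (δ * x) = r) :
    Cfsg.IsConjUnder (Cfsg.pgoAut F (⇑(QOdd m F))) x (δ * x) := by
  classical
  have h2 : (2 : F) ≠ 0 := two_ne_zero_of_odd_card hodd
  have hQ := QOdd_nondeg (F := F) m h2
  have h3 := hasTS3_QOdd (F := F) m hm
  have htop : ∀ β : MulAut (Cfsg.POmega F (⇑(QOdd m F))),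
      β ∈ Cfsg.gammaPOmega F (⇑(QOdd m F)) := by
    intro β
    have ht : Cfsg.gammaPOmega F (⇑(QOdd m F)) = ⊤ := gamma_top_odd hodd hm
    rw [ht]
    exact Subgroup.mem_top β
  obtain ⟨α, φ, σ, hσ, hφ, hαx⟩ := hx
  have hp1 : Cfsg.IsSemisimilarityPair (⇑(QOdd m F))
      (1 : Matrix.GeneralLinearGroup (Unit ⊕ (Fin m ⊕ Fin m)) F) σ := pair_odd_sigma (F := F) m σ
  have hi1 : Cfsg.IsInducedBySemilinearPOmega (⇑(QOdd m F))
      (1 : Matrix.GeneralLinearGroup (Unit ⊕ (Fin m ⊕ Fin m)) F) σ φ := by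
    intro s s' hss'
    apply hφ s s'
    rw [hss', Units.val_one, inv_one, Units.val_one, Matrix.one_mul, Matrix.mul_one]
  obtain ⟨hord, g, P, t, ht0, hg, hP⟩ := field_coset_reduce (QOdd m F) hQ h3 (QOdd_ne m) htop σ
    hσ hp1 hi1 α x δ hαx hr hxr hδ ho
  have hA : ∀ v, QOdd m F ((t • ((g : Matrix.GeneralLinearGroup (Unit ⊕ (Fin m ⊕ Fin m)) F) :
      Matrix (Unit ⊕ (Fin m ⊕ Fin m)) (Unit ⊕ (Fin m ⊕ Fin m)) F)) *ᵥ v)
      = (t * t * (simMul (⇑(QOdd m F)) g : F)) * QOdd m F v := by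
    intro v
    rw [Matrix.smul_mulVec, QuadraticMap.map_smul, simMul_spec (⇑(QOdd m F)) g v, smul_eq_mul]
    ring
  obtain ⟨P', hP'⟩ := odd_lang_sim hodd m σ hord hr.pos _ _ hA P hP
  have hfin := field_coset_finish (QOdd m F) σ hp1 hi1 α x δ hαx g P' t ht0 hg hP'
  refine ⟨α⁻¹ * cHom (⇑(QOdd m F)) P' * α, ?_, hfin⟩
  have h4 : cHom (⇑(QOdd m F)) P' ∈ Cfsg.pgoAut F (⇑(QOdd m F)) := by
    rw [pgoAut_eq]
    exact ⟨P', rfl⟩
  have h5 := pgoAut_conj_mem (QOdd m F) hQ h3 htop α⁻¹ _ h4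
  rw [inv_inv] at h5
  exact h5

theorem inndiag_odd_eq (m : ℕ) :
    Cfsg.inndiagPOmegaOdd m F = Cfsg.pgoAut F (Cfsg.quadFormOdd m F) := rfl

theorem odd_field_coset (hodd : Odd (Fintype.card F)) {m : ℕ} (hm : 3 ≤ m)
    (x δ : MulAut (Cfsg.POmega F (Cfsg.quadFormOdd m F)))
    (hx : Cfsg.IsFieldAutClassPOmega (Cfsg.quadFormOdd m F) x) {r : ℕ} (hr : r.Prime)
    (hxr : orderOf x = r) (hδ : δ ∈ Cfsg.inndiagPOmegaOdd m F) (ho : orderOf (δ * x) = r) :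
    Cfsg.IsConjUnder (Cfsg.inndiagPOmegaOdd m F) x (δ * x) := by
  rw [inndiag_odd_eq] at hδ ⊢
  have key := odd_field_coset_Q hodd hm x δ hx hr hxr hδ ho
  exact key

end

end Cfsg.Agent.H49
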