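import Mathlib
import Cfsg.Agent.H49.SimQuot3
import Cfsg.Agent.H49.ClassDet
import Cfsg.Agent.H49.MapSub
import Cfsg.Agent.H49.InvOmega

set_option autoImplicit false
set_option linter.unusedSectionVars false

/-! Helper lemmas (helper49): similarities and the two classes of maximal totally singular
subspaces: a similarity preserves the classes iff its `det / multiplier^k` sign is trivial. -/

namespace Cfsg.Agent.H49

open Module Matrix

section
variable {ι : Type} [Fintype ι] [DecidableEq ι] {F : Type*} [Field F]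

theorem sim_mulVecLin_injective (Qf : (ι → F) → F) (g : ↥(Cfsg.Geo.quadSimilarityGroup Qf)) :
    Function.Injective
      (Matrix.mulVecLin ((g : Matrix.GeneralLinearGroup ι F) : Matrix ι ι F)) := by
  intro x y hxy
  simp only [Matrix.mulVecLin_apply] at hxy
  have := congrArg (fun z => (((g : Matrix.GeneralLinearGroup ι F)⁻¹ :
    Matrix.GeneralLinearGroup ι F) : Matrix ι ι F) *ᵥ z) hxy
  simpa [Matrix.mulVec_mulVec, ← Units.val_mul] using this

theorem finrank_map_sim (Qf : (ι → F) → F) (g : ↥(Cfsg.Geo.quadSimilarityGroup Qf))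
    (U : Submodule F (ι → F)) :
    finrank F (U.map (Matrix.mulVecLin ((g : Matrix.GeneralLinearGroup ι F) : Matrix ι ι F)))
      = finrank F U :=
  (Submodule.equivMapOfInjective _ (sim_mulVecLin_injective Qf g) U).finrank_eq.symm

theorem IsTS.map_sim {Q : QuadraticForm F (ι → F)} {U : Submodule F (ι → F)} (hU : IsTS Q U)
    (g : ↥(Cfsg.Geo.quadSimilarityGroup (⇑Q))) :
    IsTS Q (U.map (Matrix.mulVecLin ((g : Matrix.GeneralLinearGroup ι F) : Matrix ι ι F))) := by
  intro x hx
  obtain ⟨u, hu, rfl⟩ := Submodule.mem_map.mp hx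
  rw [Matrix.mulVecLin_apply, simMul_spec (⇑Q) g u, hU u hu, mul_zero]

/-- In a quadratic space of dimension `2m` with a totally singular subspace of dimension `m`,
the maximal totally singular subspaces are the totally singular subspaces of dimension `m`. -/
theorem isMaxTS_iff (Q : QuadraticForm F (ι → F))
    (hQ : (QuadraticMap.polarBilin Q).Nondegenerate) {m : ℕ}
    (hV : finrank F (ι → F) = 2 * m) (E : Submodule F (ι → F)) (hE : IsTS Q E)
    (dE : finrank F E = m) (U : Submodule F (ι → F)) :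
    Cfsg.IsMaxTotallySingular (⇑Q) U ↔ (IsTS Q U ∧ finrank F U = m) := by
  constructor
  · rintro ⟨hU, hmax⟩
    have hU' : IsTS Q U := hU
    refine ⟨hU', ?_⟩
    have hle := IsTS.finrank_le_half hQ hV hU'
    by_contra hne
    have hlt : finrank F U < m := lt_of_le_of_ne hle hne
    obtain ⟨E', hE'E, dE'⟩ := exists_le_finrank_eq' E (finrank F U) (by omega)
    have hE' : IsTS Q E' := fun u hu => hE u (hE'E hu)
    obtain ⟨g, hg⟩ := exists_isometry_map_ts Q hQ (finrank F E') E' U hE' hU' dE' (Nat.sub_le _ _)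
    have h1 := hmax (E.map (Matrix.mulVecLin ((g : Matrix.GeneralLinearGroup ι F) : Matrix ι ι F)))
      (hE.map_iso g) (by rw [← hg]; exact Submodule.map_mono hE'E)
    have h2 := finrank_map_iso g E
    rw [h1, dE] at h2
    exact hne h2
  · rintro ⟨hU, dU⟩
    refine ⟨hU, fun W hW hUW => ?_⟩
    have hW' : IsTS Q W := hW
    have := IsTS.finrank_le_half hQ hV hW'
    exact (Submodule.eq_of_le_of_finrank_le hUW (by omega)).symm

/-- Whether a similarity moves a maximal totally singular subspace into its own class does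
not depend on the subspace. -/
theorem even_class_indep (Q : QuadraticForm F (ι → F))
    (hQ : (QuadraticMap.polarBilin Q).Nondegenerate) {m : ℕ}
    (hV : finrank F (ι → F) = 2 * m) (g : ↥(Cfsg.Geo.quadSimilarityGroup (⇑Q)))
    (U W : Submodule F (ι → F)) (hU : IsTS Q U) (hW : IsTS Q W) (dU : finrank F U = m)
    (dW : finrank F W = m) :
    Even (m - finrank F (U ⊓ U.map (Matrix.mulVecLin
        ((g : Matrix.GeneralLinearGroup ι F) : Matrix ι ι F)) : Submodule F (ι → F)))
      ↔ Even (m - finrank F (W ⊓ W.map (Matrix.mulVecLin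
        ((g : Matrix.GeneralLinearGroup ι F) : Matrix ι ι F)) : Submodule F (ι → F))) := by
  have hgU := hU.map_sim g
  have hgW := hW.map_sim g
  have dgU := (finrank_map_sim (⇑Q) g U).trans dU
  have dgW := (finrank_map_sim (⇑Q) g W).trans dW
  have h1 := ts_even_trans hQ hV hU hW hgU dU dW dgU
  have h2 := ts_even_trans hQ hV hW hgW hgU dW dgW dgU
  have h3 : finrank F (W.map (Matrix.mulVecLin ((g : Matrix.GeneralLinearGroup ι F) : Matrix ι ι F))
      ⊓ U.map (Matrix.mulVecLin ((g : Matrix.GeneralLinearGroup ι F) : Matrix ι ι F))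
        : Submodule F (ι → F)) = finrank F (U ⊓ W : Submodule F (ι → F)) := by
    rw [← Submodule.map_inf _ (sim_mulVecLin_injective (⇑Q) g), finrank_map_sim, inf_comm]
  rw [h3] at h2
  tauto

theorem preserves_iff_even (Q : QuadraticForm F (ι → F))
    (hQ : (QuadraticMap.polarBilin Q).Nondegenerate) {m : ℕ}
    (hV : finrank F (ι → F) = 2 * m) (E : Submodule F (ι → F)) (hE : IsTS Q E)
    (dE : finrank F E = m) (g : ↥(Cfsg.Geo.quadSimilarityGroup (⇑Q))) :
    Cfsg.PreservesSingularClasses (⇑Q) ((g : Matrix.GeneralLinearGroup ι F) : Matrix ι ι F)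
      ↔ Even (m - finrank F (E ⊓ E.map (Matrix.mulVecLin
        ((g : Matrix.GeneralLinearGroup ι F) : Matrix ι ι F)) : Submodule F (ι → F))) := by
  constructor
  · intro h
    have := h E ((isMaxTS_iff Q hQ hV E hE dE E).mpr ⟨hE, dE⟩)
    unfold Cfsg.SameParityClass Cfsg.imageSubmodule at this
    rw [dE] at this
    exact this
  · intro h U hU
    obtain ⟨hU', dU⟩ := (isMaxTS_iff Q hQ hV E hE dE U).mp hU
    unfold Cfsg.SameParityClass Cfsg.imageSubmodule
    rw [dU]
    exact (even_class_indep Q hQ hV g U E hU' hE dU dE).mpr h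

theorem even_scal_mul_iff (Q : QuadraticForm F (ι → F)) (h2 : (2 : F) ≠ 0)
    (hQ : (QuadraticMap.polarBilin Q).Nondegenerate) {m : ℕ}
    (hV : finrank F (ι → F) = 2 * m) (E : Submodule F (ι → F)) (hE : IsTS Q E)
    (dE : finrank F E = m) (l : Fˣ) (g₀ : ↥(Cfsg.isometryGroup F (⇑Q))) :
    Even (m - finrank F (E ⊓ E.map (Matrix.mulVecLin
        (((scalSim Q l * inclO Q g₀ : ↥(Cfsg.Geo.quadSimilarityGroup (⇑Q))) :
          Matrix.GeneralLinearGroup ι F) : Matrix ι ι F)) : Submodule F (ι → F)))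
      ↔ ((g₀ : Matrix.GeneralLinearGroup ι F) : Matrix ι ι F).det = 1 := by
  have e : E.map (Matrix.mulVecLin
        (((scalSim Q l * inclO Q g₀ : ↥(Cfsg.Geo.quadSimilarityGroup (⇑Q))) :
          Matrix.GeneralLinearGroup ι F) : Matrix ι ι F))
      = E.map (Matrix.mulVecLin ((g₀ : Matrix.GeneralLinearGroup ι F) : Matrix ι ι F)) := by
    have e1 : Matrix.mulVecLin
        (((scalSim Q l * inclO Q g₀ : ↥(Cfsg.Geo.quadSimilarityGroup (⇑Q))) :
          Matrix.GeneralLinearGroup ι F) : Matrix ι ι F)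
        = (l : F) • Matrix.mulVecLin ((g₀ : Matrix.GeneralLinearGroup ι F) : Matrix ι ι F) := by
      apply LinearMap.ext
      intro x
      show ((scalGL ι l * (g₀ : Matrix.GeneralLinearGroup ι F) : Matrix.GeneralLinearGroup ι F)
          : Matrix ι ι F) *ᵥ x
        = (l : F) • (((g₀ : Matrix.GeneralLinearGroup ι F) : Matrix ι ι F) *ᵥ x)
      rw [Units.val_mul, ← Matrix.mulVec_mulVec, scalGL_mulVec]
    rw [e1, Submodule.map_smul _ _ _ l.ne_zero]
  rw [e]
  exact even_iff_det_eq_one Q h2 hQ hV E hE dE g₀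

end

section
variable {ι : Type} [Fintype ι] [DecidableEq ι] {F : Type*} [Field F] [Fintype F] [DecidableEq F]

/-- A similarity preserves the two classes of maximal totally singular subspaces iff its sign
`det / multiplier^k` is trivial. -/
theorem preserves_iff_sgnD (Q : QuadraticForm F (ι → F)) (h2 : (2 : F) ≠ 0)
    (hQ : (QuadraticMap.polarBilin Q).Nondegenerate) (hne : ∃ v, Q v ≠ 0) {k : ℕ}
    (hk : Fintype.card ι = 2 * k) (E : Submodule F (ι → F)) (hE : IsTS Q E)
    (dE : finrank F E = k) (δ₀ : ↥(Cfsg.Geo.quadSimilarityGroup (⇑Q)))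
    (hδ₀ : ¬ IsSquare (simMul (⇑Q) δ₀ : F)) (hs : sgnD Q h2 hQ hne hk δ₀ = 1)
    (hδE : E.map (Matrix.mulVecLin ((δ₀ : Matrix.GeneralLinearGroup ι F) : Matrix ι ι F)) = E)
    (g : ↥(Cfsg.Geo.quadSimilarityGroup (⇑Q))) :
    Cfsg.PreservesSingularClasses (⇑Q) ((g : Matrix.GeneralLinearGroup ι F) : Matrix ι ι F)
      ↔ sgnD Q h2 hQ hne hk g = 1 := by
  have hV : finrank F (ι → F) = 2 * k := by rw [Module.finrank_fintype_fun_eq_card, hk]
  rw [preserves_iff_even Q hQ hV E hE dE g]
  rcases Int.units_eq_one_or (epsHom Q hne g) with he | he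
  · obtain ⟨l, g₀, rfl⟩ := exists_inclO_of_eps Q hne g he
    rw [even_scal_mul_iff Q h2 hQ hV E hE dE l g₀, map_mul, sgnD_scalSim, one_mul, sgnD_inclO_iff]
  · have hx : epsHom Q hne (δ₀⁻¹ * g) = 1 := by
      rw [map_mul, map_inv, epsHom_neg Q hne δ₀ hδ₀, he]
      decide
    obtain ⟨l, g₀, hx'⟩ := exists_inclO_of_eps Q hne _ hx
    have hg : g = δ₀ * (scalSim Q l * inclO Q g₀) := by
      rw [← hx']
      group
    rw [hg, map_mul, hs, one_mul, map_mul, sgnD_scalSim, one_mul, sgnD_inclO_iff,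
      ← even_scal_mul_iff Q h2 hQ hV E hE dE l g₀]
    have e1 : E.map (Matrix.mulVecLin
          (((δ₀ * (scalSim Q l * inclO Q g₀) : ↥(Cfsg.Geo.quadSimilarityGroup (⇑Q))) :
            Matrix.GeneralLinearGroup ι F) : Matrix ι ι F))
        = (E.map (Matrix.mulVecLin
          (((scalSim Q l * inclO Q g₀ : ↥(Cfsg.Geo.quadSimilarityGroup (⇑Q))) :
            Matrix.GeneralLinearGroup ι F) : Matrix ι ι F))).map
          (Matrix.mulVecLin ((δ₀ : Matrix.GeneralLinearGroup ι F) : Matrix ι ι F)) := by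
      rw [← Submodule.map_comp, ← Matrix.mulVecLin_mul]
      rfl
    have e2 : E ⊓ (E.map (Matrix.mulVecLin
          (((scalSim Q l * inclO Q g₀ : ↥(Cfsg.Geo.quadSimilarityGroup (⇑Q))) :
            Matrix.GeneralLinearGroup ι F) : Matrix ι ι F))).map
          (Matrix.mulVecLin ((δ₀ : Matrix.GeneralLinearGroup ι F) : Matrix ι ι F))
        = (E ⊓ E.map (Matrix.mulVecLin
          (((scalSim Q l * inclO Q g₀ : ↥(Cfsg.Geo.quadSimilarityGroup (⇑Q))) :
            Matrix.GeneralLinearGroup ι F) : Matrix ι ι F))).map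
          (Matrix.mulVecLin ((δ₀ : Matrix.GeneralLinearGroup ι F) : Matrix ι ι F)) := by
      rw [Submodule.map_inf _ (sim_mulVecLin_injective (⇑Q) δ₀), hδE]
    rw [e1, e2, finrank_map_sim]

end

end Cfsg.Agent.H49
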