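import Mathlib
import Cfsg.Agent.H49.SimClass

set_option autoImplicit false
set_option linter.unusedSectionVars false

/-! Helper lemmas (helper49): the quotient of the image of the class-preserving similarities
(`Inndiag`) by the inner automorphisms of `PΩ`, for an even-dimensional quadratic form in odd
characteristic over a finite field. -/

namespace Cfsg.Agent.H49

open Module Matrix

section
variable {ι : Type} [Fintype ι] [DecidableEq ι] {F : Type*} [Field F] [Fintype F] [DecidableEq F]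

theorem alphaT_mul (Q : QuadraticForm F (ι → F)) (hne : ∃ v, Q v ≠ 0)
    (hneg : spinSign Q (negG Q) = 1) (x y : ↥(Cfsg.Geo.quadSimilarityGroup (⇑Q)))
    (hx : epsHom Q hne x = 1) (hy : epsHom Q hne y = 1) :
    alphaT Q (x * y) = alphaT Q x * alphaT Q y := by
  obtain ⟨l, x₀, rfl⟩ := exists_inclO_of_eps Q hne x hx
  obtain ⟨l', y₀, rfl⟩ := exists_inclO_of_eps Q hne y hy
  rw [scal_mul_scal_mul, alphaT_spec Q hne hneg, alphaT_spec Q hne hneg, alphaT_spec Q hne hneg,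
    map_mul]

theorem alphaT_conj (Q : QuadraticForm F (ι → F)) (h2 : (2 : F) ≠ 0)
    (hQ : (QuadraticMap.polarBilin Q).Nondegenerate) (hne : ∃ v, Q v ≠ 0) {k : ℕ}
    (hk : Fintype.card ι = 2 * k) (hneg : spinSign Q (negG Q) = 1)
    (δ : ↥(Cfsg.Geo.quadSimilarityGroup (⇑Q))) (hδ : ¬ IsSquare (simMul (⇑Q) δ : F))
    (x : ↥(Cfsg.Geo.quadSimilarityGroup (⇑Q))) (hx : epsHom Q hne x = 1) :
    alphaT Q (δ * x * δ⁻¹) = alphaT Q x * sgnD Q h2 hQ hne hk x := by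
  obtain ⟨l, x₀, rfl⟩ := exists_inclO_of_eps Q hne x hx
  rw [conj_scal_mul, alphaT_spec Q hne hneg, alphaT_spec Q hne hneg,
    spinSign_simConj Q h2 hQ hne hk δ hδ x₀, map_mul, sgnD_scalSim, one_mul]

theorem omega_le_ker_sgnD (Q : QuadraticForm F (ι → F)) (h2 : (2 : F) ≠ 0)
    (hQ : (QuadraticMap.polarBilin Q).Nondegenerate) (hne : ∃ v, Q v ≠ 0) {k : ℕ}
    (hk : Fintype.card ι = 2 * k) :
    (Cfsg.Geo.omegaGL (⇑Q)).comap (Cfsg.Geo.quadSimilarityGroup (⇑Q)).subtype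
      ≤ (sgnD Q h2 hQ hne hk).ker := by
  rintro g ⟨t, ht, htg⟩
  have hg' : g = inclO Q t := Subtype.ext htg.symm
  rw [MonoidHom.mem_ker, hg', sgnD_inclO_iff]
  exact ((mem_commutator_iff_spinSign_det Q h2 hQ t).mp ht).2

/-- `Inndiag/Inn` has order two when `-1 ∉ Ω`. -/
theorem inndiag_mod_inn_two (Q : QuadraticForm F (ι → F)) (h2 : (2 : F) ≠ 0)
    (hQ : (QuadraticMap.polarBilin Q).Nondegenerate) (h3 : HasTS3 Q) (hne : ∃ v, Q v ≠ 0) {k : ℕ}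
    (hk : Fintype.card ι = 2 * k) (δ₀ : ↥(Cfsg.Geo.quadSimilarityGroup (⇑Q)))
    (hδ₀ : ¬ IsSquare (simMul (⇑Q) δ₀ : F)) (hs : sgnD Q h2 hQ hne hk δ₀ = 1)
    (hneg : spinSign Q (negG Q) ≠ 1)
    (P : Subgroup (MulAut (Cfsg.POmega F (⇑Q))))
    (hP : P = (sgnD Q h2 hQ hne hk).ker.map (cHom (⇑Q))) :
    ∃ φ : ↥P →* ℤˣ, Function.Surjective φ ∧
      φ.ker = (Cfsg.Inn (Cfsg.POmega F (⇑Q))).subgroupOf P := by
  obtain ⟨G0, hG0⟩ : ∃ S : Subgroup ↥(Cfsg.Geo.quadSimilarityGroup (⇑Q)),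
      S = (sgnD Q h2 hQ hne hk).ker := ⟨_, rfl⟩
  have hmem : ∀ x : ↥(Cfsg.Geo.quadSimilarityGroup (⇑Q)),
      x ∈ G0 ↔ sgnD Q h2 hQ hne hk x = 1 := by
    intro x
    rw [hG0, MonoidHom.mem_ker]
  have hΩ : (Cfsg.Geo.omegaGL (⇑Q)).comap (Cfsg.Geo.quadSimilarityGroup (⇑Q)).subtype ≤ G0 := by
    rw [hG0]
    exact omega_le_ker_sgnD Q h2 hQ hne hk
  refine exists_hom_range_ker ((cHom (⇑Q)).comp G0.subtype) ((epsHom Q hne).comp G0.subtype)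
    (((Cfsg.Geo.omegaGL (⇑Q)).comap (Cfsg.Geo.quadSimilarityGroup (⇑Q)).subtype).subgroupOf G0)
    ?_ ?_ ?_ ?_ P (Cfsg.Inn (Cfsg.POmega F (⇑Q))) ?_ ?_
  · intro g hg
    have hg' : cHom (⇑Q) (g : ↥(Cfsg.Geo.quadSimilarityGroup (⇑Q))) = 1 := MonoidHom.mem_ker.mp hg
    obtain ⟨l, hl⟩ := eq_scalSim_of_cHom_eq_one Q hQ h3 hne _ hg'
    rw [MonoidHom.mem_ker]
    show epsHom Q hne (g : ↥(Cfsg.Geo.quadSimilarityGroup (⇑Q))) = 1
    rw [hl]
    exact epsHom_scalSim Q hne l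
  · intro a
    rcases Int.units_eq_one_or a with rfl | rfl
    · exact ⟨1, map_one _⟩
    · exact ⟨⟨δ₀, (hmem δ₀).mpr hs⟩, epsHom_neg Q hne δ₀ hδ₀⟩
  · intro g hg
    rw [Subgroup.mem_subgroupOf] at hg
    obtain ⟨t, ht, htg⟩ := hg
    have hg' : (g : ↥(Cfsg.Geo.quadSimilarityGroup (⇑Q))) = inclO Q t := Subtype.ext htg.symm
    rw [MonoidHom.mem_ker]
    show epsHom Q hne (g : ↥(Cfsg.Geo.quadSimilarityGroup (⇑Q))) = 1
    rw [hg']
    exact epsHom_inclO Q hne t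
  · intro g hg
    have hg1 : epsHom Q hne (g : ↥(Cfsg.Geo.quadSimilarityGroup (⇑Q))) = 1 := hg
    obtain ⟨l, g₀, hlg⟩ := exists_inclO_of_eps Q hne _ hg1
    have hsg := (hmem _).mp g.2
    rw [hlg, map_mul, sgnD_scalSim, one_mul, sgnD_inclO_iff] at hsg
    rcases Int.units_eq_one_or (spinSign Q g₀) with h | h
    · have hmemΩ : g₀ ∈ commutator ↥(Cfsg.isometryGroup F (⇑Q)) :=
        (mem_commutator_iff_spinSign_det Q h2 hQ g₀).mpr ⟨h, hsg⟩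
      have hk0 : inclO Q g₀ ∈ G0 := hΩ ⟨g₀, hmemΩ, rfl⟩
      refine ⟨⟨inclO Q g₀, hk0⟩, ?_, ?_⟩
      · rw [Subgroup.mem_subgroupOf]
        exact ⟨g₀, hmemΩ, rfl⟩
      · show cHom (⇑Q) (g : ↥(Cfsg.Geo.quadSimilarityGroup (⇑Q))) = cHom (⇑Q) (inclO Q g₀)
        rw [hlg, map_mul, cHom_scalSim, one_mul]
    · have hn : spinSign Q (negG Q) = -1 := (Int.units_eq_one_or _).resolve_left hneg
      have hmemΩ : negG Q * g₀ ∈ commutator ↥(Cfsg.isometryGroup F (⇑Q)) := by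
        rw [mem_commutator_iff_spinSign_det Q h2 hQ, map_mul, hn, h, det_mul_iso, hsg,
          det_negG Q hk]
        exact ⟨rfl, mul_one 1⟩
      have hk0 : inclO Q (negG Q * g₀) ∈ G0 := hΩ ⟨_, hmemΩ, rfl⟩
      refine ⟨⟨inclO Q (negG Q * g₀), hk0⟩, ?_, ?_⟩
      · rw [Subgroup.mem_subgroupOf]
        exact ⟨_, hmemΩ, rfl⟩
      · show cHom (⇑Q) (g : ↥(Cfsg.Geo.quadSimilarityGroup (⇑Q)))
          = cHom (⇑Q) (inclO Q (negG Q * g₀))
        rw [hlg, map_mul, cHom_scalSim, one_mul, map_mul, inclO_negG, map_mul, cHom_scalSim,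
          one_mul]
  · rw [hP, MonoidHom.range_comp, Subgroup.range_subtype, hG0]
  · rw [inn_eq, ← Subgroup.map_map, Subgroup.subgroupOf_map_subtype, inf_of_le_left hΩ]

/-- `Inndiag/Inn` has order four when `-1 ∈ Ω`; it is described by an abstract commutative
group `H = {1, w, d, dw}` where `d²` is `1` or `w` according to the spinor sign of the square of
a class-preserving similarity with non-square multiplier. -/
theorem inndiag_mod_inn_four (Q : QuadraticForm F (ι → F)) (h2 : (2 : F) ≠ 0)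
    (hQ : (QuadraticMap.polarBilin Q).Nondegenerate) (h3 : HasTS3 Q) (hne : ∃ v, Q v ≠ 0) {k : ℕ}
    (hk : Fintype.card ι = 2 * k) (δ₀ : ↥(Cfsg.Geo.quadSimilarityGroup (⇑Q)))
    (hδ₀ : ¬ IsSquare (simMul (⇑Q) δ₀ : F)) (hs : sgnD Q h2 hQ hne hk δ₀ = 1)
    (hneg : spinSign Q (negG Q) = 1)
    {H : Type*} [CommGroup H] (w d : H) (hH : ∀ y : H, y = 1 ∨ y = w ∨ y = d ∨ y = d * w)
    (hw : w ≠ 1) (hww : w * w = 1) (hd : d ≠ 1) (hdw : d * w ≠ 1)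
    (hdd : d * d = if alphaT Q (δ₀ * δ₀) = 1 then 1 else w)
    (P : Subgroup (MulAut (Cfsg.POmega F (⇑Q))))
    (hP : P = (sgnD Q h2 hQ hne hk).ker.map (cHom (⇑Q))) :
    ∃ φ : ↥P →* H, Function.Surjective φ ∧
      φ.ker = (Cfsg.Inn (Cfsg.POmega F (⇑Q))).subgroupOf P := by
  obtain ⟨G0, hG0⟩ : ∃ S : Subgroup ↥(Cfsg.Geo.quadSimilarityGroup (⇑Q)),
      S = (sgnD Q h2 hQ hne hk).ker := ⟨_, rfl⟩
  have hmem : ∀ x : ↥(Cfsg.Geo.quadSimilarityGroup (⇑Q)),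
      x ∈ G0 ↔ sgnD Q h2 hQ hne hk x = 1 := by
    intro x
    rw [hG0, MonoidHom.mem_ker]
  have hΩ : (Cfsg.Geo.omegaGL (⇑Q)).comap (Cfsg.Geo.quadSimilarityGroup (⇑Q)).subtype ≤ G0 := by
    rw [hG0]
    exact omega_le_ker_sgnD Q h2 hQ hne hk
  obtain ⟨wf, hwf⟩ : ∃ wf : ℤˣ → H, ∀ a, wf a = if a = 1 then 1 else w := ⟨_, fun a => rfl⟩
  have hwf1 : wf 1 = 1 := by rw [hwf, if_pos rfl]
  have hwfn : wf (-1) = w := by rw [hwf, if_neg (by decide)]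
  have hwfmul : ∀ a b, wf (a * b) = wf a * wf b := by
    intro a b
    rcases Int.units_eq_one_or a with rfl | rfl <;> rcases Int.units_eq_one_or b with rfl | rfl
    · rw [one_mul, hwf1, one_mul]
    · rw [one_mul, hwf1, one_mul]
    · rw [mul_one, hwf1, mul_one]
    · rw [Int.units_mul_self, hwf1, hwfn, hww]
  obtain ⟨f, hf⟩ : ∃ f : ↥G0 → H, ∀ g, f g = wf (alphaT Q (g : ↥(Cfsg.Geo.quadSimilarityGroup (⇑Q)))) :=
    ⟨_, fun g => rfl⟩
  have hδe := epsHom_neg Q hne δ₀ hδ₀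
  obtain ⟨Φ, hΦ1, hΦ2⟩ := exists_hom_of_index_two ((epsHom Q hne).comp G0.subtype)
    ⟨δ₀, (hmem δ₀).mpr hs⟩ hδe f d
    (by
      intro x y hx hy
      rw [hf, hf, hf, ← hwfmul]
      congr 1
      exact alphaT_mul Q hne hneg _ _ hx hy)
    (by
      intro x hx
      rw [mul_comm d, mul_inv_cancel_right, hf, hf]
      congr 1
      have e := alphaT_conj Q h2 hQ hne hk hneg δ₀ hδ₀ (x : ↥(Cfsg.Geo.quadSimilarityGroup (⇑Q))) hx
      rw [(hmem _).mp x.2, mul_one] at e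
      exact e)
    (by
      rw [hf, hdd, hwf]
      rfl)
  refine exists_hom_range_ker ((cHom (⇑Q)).comp G0.subtype) Φ
    (((Cfsg.Geo.omegaGL (⇑Q)).comap (Cfsg.Geo.quadSimilarityGroup (⇑Q)).subtype).subgroupOf G0)
    ?_ ?_ ?_ ?_ P (Cfsg.Inn (Cfsg.POmega F (⇑Q))) ?_ ?_
  · intro g hg
    have hg' : cHom (⇑Q) (g : ↥(Cfsg.Geo.quadSimilarityGroup (⇑Q))) = 1 := MonoidHom.mem_ker.mp hg
    obtain ⟨l, hl⟩ := eq_scalSim_of_cHom_eq_one Q hQ h3 hne _ hg'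
    have he : ((epsHom Q hne).comp G0.subtype) g = 1 := by
      show epsHom Q hne (g : ↥(Cfsg.Geo.quadSimilarityGroup (⇑Q))) = 1
      rw [hl]
      exact epsHom_scalSim Q hne l
    rw [MonoidHom.mem_ker, hΦ1 g he, hf, hl, alphaT_scalSim Q hne hneg, hwf1]
  · intro y
    obtain ⟨g₀, hg₀, hg₀'⟩ := exists_iso_spin_sgn Q h2 hQ h3 hne hk (-1) 1
    have hg₀m : inclO Q g₀ ∈ G0 := (hmem _).mpr hg₀'
    have he₀ : ((epsHom Q hne).comp G0.subtype) ⟨inclO Q g₀, hg₀m⟩ = 1 := epsHom_inclO Q hne g₀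
    have hf₀ : f ⟨inclO Q g₀, hg₀m⟩ = w := by
      rw [hf, alphaT_inclO Q hne hneg, hg₀, hwfn]
    have hf1 : f 1 = 1 := by
      rw [hf]
      have : ((1 : ↥G0) : ↥(Cfsg.Geo.quadSimilarityGroup (⇑Q))) = inclO Q 1 := (map_one _).symm
      rw [this, alphaT_inclO Q hne hneg, map_one, hwf1]
    rcases hH y with rfl | rfl | rfl | rfl
    · exact ⟨1, map_one _⟩
    · exact ⟨⟨inclO Q g₀, hg₀m⟩, by rw [hΦ1 _ he₀, hf₀]⟩
    · refine ⟨⟨δ₀, (hmem δ₀).mpr hs⟩, ?_⟩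
      rw [hΦ2 ⟨δ₀, (hmem δ₀).mpr hs⟩ hδe, inv_mul_cancel, hf1, mul_one]
    · refine ⟨⟨δ₀, (hmem δ₀).mpr hs⟩ * ⟨inclO Q g₀, hg₀m⟩, ?_⟩
      have he2 : ((epsHom Q hne).comp G0.subtype)
          (⟨δ₀, (hmem δ₀).mpr hs⟩ * ⟨inclO Q g₀, hg₀m⟩) = -1 := by
        rw [map_mul, he₀, mul_one]
        exact hδe
      rw [hΦ2 _ he2, inv_mul_cancel_left, hf₀]
  · intro g hg
    rw [Subgroup.mem_subgroupOf] at hg
    obtain ⟨t, ht, htg⟩ := hg
    have hg' : (g : ↥(Cfsg.Geo.quadSimilarityGroup (⇑Q))) = inclO Q t := Subtype.ext htg.symm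
    have he : ((epsHom Q hne).comp G0.subtype) g = 1 := by
      show epsHom Q hne (g : ↥(Cfsg.Geo.quadSimilarityGroup (⇑Q))) = 1
      rw [hg']
      exact epsHom_inclO Q hne t
    rw [MonoidHom.mem_ker, hΦ1 g he, hf, hg', alphaT_inclO Q hne hneg,
      ((mem_commutator_iff_spinSign_det Q h2 hQ t).mp ht).1, hwf1]
  · intro g hg
    rcases Int.units_eq_one_or (((epsHom Q hne).comp G0.subtype) g) with he | he
    · have hg1 : epsHom Q hne (g : ↥(Cfsg.Geo.quadSimilarityGroup (⇑Q))) = 1 := he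
      obtain ⟨l, g₀, hlg⟩ := exists_inclO_of_eps Q hne _ hg1
      have hsg := (hmem _).mp g.2
      rw [hlg, map_mul, sgnD_scalSim, one_mul, sgnD_inclO_iff] at hsg
      rw [hΦ1 g he, hf, hlg, alphaT_spec Q hne hneg] at hg
      have h : spinSign Q g₀ = 1 := by
        rcases Int.units_eq_one_or (spinSign Q g₀) with h | h
        · exact h
        · rw [h, hwfn] at hg
          exact absurd hg hw
      have hmemΩ : g₀ ∈ commutator ↥(Cfsg.isometryGroup F (⇑Q)) :=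
        (mem_commutator_iff_spinSign_det Q h2 hQ g₀).mpr ⟨h, hsg⟩
      have hk0 : inclO Q g₀ ∈ G0 := hΩ ⟨g₀, hmemΩ, rfl⟩
      refine ⟨⟨inclO Q g₀, hk0⟩, ?_, ?_⟩
      · rw [Subgroup.mem_subgroupOf]
        exact ⟨g₀, hmemΩ, rfl⟩
      · show cHom (⇑Q) (g : ↥(Cfsg.Geo.quadSimilarityGroup (⇑Q))) = cHom (⇑Q) (inclO Q g₀)
        rw [hlg, map_mul, cHom_scalSim, one_mul]
    · rw [hΦ2 g he, hf] at hg
      exfalso
      rcases Int.units_eq_one_or (alphaT Q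
        ((⟨δ₀, (hmem δ₀).mpr hs⟩⁻¹ * g : ↥G0) : ↥(Cfsg.Geo.quadSimilarityGroup (⇑Q)))) with h | h
      · rw [h, hwf1, mul_one] at hg
        exact hd hg
      · rw [h, hwfn] at hg
        exact hdw hg
  · rw [hP, MonoidHom.range_comp, Subgroup.range_subtype, hG0]
  · rw [inn_eq, ← Subgroup.map_map, Subgroup.subgroupOf_map_subtype, inf_of_le_left hΩ]

end

end Cfsg.Agent.H49
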