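import Mathlib
import Cfsg.Agent.H49.SimDiag
import Cfsg.Agent.H49.SimInst

set_option autoImplicit false
set_option linter.unusedSectionVars false

/-! Helper lemmas (helper49): class-preserving similarities of the minus type form, read
over a quadratic extension. -/

namespace Cfsg.Agent.H49

open Module Matrix

section
variable {ι : Type} [Fintype ι] [DecidableEq ι] {F : Type*} [Field F]

theorem IsTS.sup_span {Q : QuadraticForm F (ι → F)} {U : Submodule F (ι → F)} (hU : IsTS Q U)
    {x : ι → F} (hx : Q x = 0) (hxU : ∀ u ∈ U, QuadraticMap.polar (⇑Q) u x = 0) :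
    IsTS Q (U ⊔ Submodule.span F {x}) := by
  intro y hy
  obtain ⟨u, hu, z, hz, rfl⟩ := Submodule.mem_sup.mp hy
  obtain ⟨c, rfl⟩ := Submodule.mem_span_singleton.mp hz
  rw [Q_add', hU u hu, QuadraticMap.map_smul, hx, QuadraticMap.polar_smul_right, hxU u hu]
  simp

/-- A matrix scaling the Gram matrix is a similarity (characteristic not two). -/
theorem sim_of_gram (h2 : (2 : F) ≠ 0) (Q : QuadraticForm F (ι → F)) (M : Matrix ι ι F) (c : F)
    (hM : Mᵀ * stdGram Q * M = c • stdGram Q) (w : ι → F) : Q (M *ᵥ w) = c * Q w := by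
  have h1 : QuadraticMap.polar (⇑Q) (M *ᵥ w) (M *ᵥ w) = c * QuadraticMap.polar (⇑Q) w w := by
    rw [polar_eq_dot_stdGram, polar_eq_dot_stdGram]
    have e : (M *ᵥ w) ⬝ᵥ (stdGram Q *ᵥ (M *ᵥ w)) = w ⬝ᵥ ((Mᵀ * stdGram Q * M) *ᵥ w) := by
      rw [← Matrix.mulVec_mulVec, ← Matrix.mulVec_mulVec, Matrix.dotProduct_mulVec w Mᵀ,
        Matrix.vecMul_transpose]
    rw [e, hM, Matrix.smul_mulVec, dotProduct_smul, smul_eq_mul]
  rw [polar_self', polar_self'] at h1
  apply mul_left_cancel₀ h2
  linear_combination h1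

/-- For a similarity with square multiplier, preserving the classes of maximal totally singular
subspaces means `det = multiplier^k`. -/
theorem preserves_iff_simD_of_isSquare (Q : QuadraticForm F (ι → F)) (h2 : (2 : F) ≠ 0)
    (hQ : (QuadraticMap.polarBilin Q).Nondegenerate) (hne : ∃ v, Q v ≠ 0) {k : ℕ}
    (hk : Fintype.card ι = 2 * k) (E : Submodule F (ι → F)) (hE : IsTS Q E)
    (dE : finrank F E = k) (g : ↥(Cfsg.Geo.quadSimilarityGroup (⇑Q)))
    (hsq : IsSquare (simMul (⇑Q) g : F)) :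
    Cfsg.PreservesSingularClasses (⇑Q) ((g : Matrix.GeneralLinearGroup ι F) : Matrix ι ι F)
      ↔ simD Q hne k g = 1 := by
  have hV : finrank F (ι → F) = 2 * k := by rw [Module.finrank_fintype_fun_eq_card, hk]
  obtain ⟨l, g₀, rfl⟩ := exists_scal_mul_of_isSquare Q g hsq
  rw [preserves_iff_even Q hQ hV E hE dE, even_scal_mul_iff Q h2 hQ hV E hE dE l g₀, map_mul,
    simD_scalSim Q hne hk, one_mul, ← Units.val_inj, simD_inclO, Units.val_one]

end

section
variable {F : Type*} [Field F]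

theorem QMin_apply_inr (m : ℕ) (a b : F) (z : Fin 2 → F) :
    QMin m F a b (Sum.elim 0 z) = binQ a b z := by
  show sumQ (QP m F) (binQ a b) (Sum.elim 0 z) = _
  rw [sumQ_apply, Sum.elim_comp_inl, Sum.elim_comp_inr, QuadraticMap.map_zero, zero_add]

theorem QMin_apply_inl (m : ℕ) (a b : F) (u : Fin m ⊕ Fin m → F) :
    QMin m F a b (Sum.elim u 0) = QP m F u := by
  show sumQ (QP m F) (binQ a b) (Sum.elim u 0) = _
  rw [sumQ_apply, Sum.elim_comp_inl, Sum.elim_comp_inr, QuadraticMap.map_zero, add_zero]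

/-- A totally singular subspace of dimension `m + 1` of the minus type form when the binary
part is isotropic. -/
theorem exists_ts_QMin (m : ℕ) (a b t : F) (ht : t ^ 2 + a * t + b = 0) :
    ∃ E : Submodule F ((Fin m ⊕ Fin m) ⊕ Fin 2 → F), IsTS (QMin m F a b) E ∧
      finrank F E = m + 1 := by
  obtain ⟨E₁, hE₁⟩ : ∃ E₁ : Submodule F ((Fin m ⊕ Fin m) ⊕ Fin 2 → F),
      E₁ = (U0 m F).map (extLeft (Fin m ⊕ Fin m) (Fin 2) F) := ⟨_, rfl⟩
  have hmem : ∀ y ∈ E₁, ∃ u ∈ U0 m F, y = Sum.elim u 0 := by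
    intro y hy
    rw [hE₁] at hy
    obtain ⟨u, hu, rfl⟩ := Submodule.mem_map.mp hy
    exact ⟨u, hu, rfl⟩
  have hts₁ : IsTS (QMin m F a b) E₁ := by
    intro y hy
    obtain ⟨u, hu, rfl⟩ := hmem y hy
    rw [QMin_apply_inl]
    exact U0_ts m F u hu
  have d₁ : finrank F E₁ = m := by
    rw [hE₁, ← (Submodule.equivMapOfInjective _ extLeft_injective (U0 m F)).finrank_eq]
    exact finrank_U0 m F
  obtain ⟨x, hx⟩ : ∃ x : (Fin m ⊕ Fin m) ⊕ Fin 2 → F, x = Sum.elim (0 : Fin m ⊕ Fin m → F) ![t, 1] := ⟨_, rfl⟩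
  have hQx : QMin m F a b x = 0 := by
    rw [hx, QMin_apply_inr, binQ_apply]
    simp only [Matrix.cons_val_zero, Matrix.cons_val_one, Matrix.cons_val_fin_one]
    linear_combination ht
  have hxE : x ∉ E₁ := by
    intro h
    obtain ⟨u, -, hu⟩ := hmem x h
    have := congrFun hu (Sum.inr (1 : Fin 2))
    rw [hx] at this
    simp at this
  have hpol : ∀ u ∈ E₁, QuadraticMap.polar (⇑(QMin m F a b)) u x = 0 := by
    intro y hy
    obtain ⟨u, hu, rfl⟩ := hmem y hy
    rw [hx]
    show QuadraticMap.polar (⇑(sumQ (QP m F) (binQ a b))) _ _ = 0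
    rw [polar_sumQ, Sum.elim_comp_inl, Sum.elim_comp_inl, Sum.elim_comp_inr, Sum.elim_comp_inr,
      QuadraticMap.polar_zero_right, QuadraticMap.polar_zero_left, add_zero]
  refine ⟨E₁ ⊔ Submodule.span F {x}, hts₁.sup_span hQx hpol, ?_⟩
  rw [finrank_sup_span_singleton E₁ hxE, d₁]

theorem minusGram_map {K : Type*} [Field K] (φ : F →+* K) (m : ℕ) (a b : F) :
    (minusGram m F a b).map φ = minusGram m K (φ a) (φ b) := by
  unfold minusGram hypGram
  rw [Matrix.fromBlocks_map, Matrix.fromBlocks_map]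
  congr 1
  · congr 1 <;> simp
  · simp
  · simp
  · have h2' : φ 2 = 2 := map_ofNat φ 2
    ext i j
    fin_cases i <;> fin_cases j <;> simp [h2']

end

section
universe u
variable {F : Type u} [Field F] [Fintype F]

theorem isSquare_algebraMap_of_finrank_two (K : Type*) [Field K] [Algebra F K] [Fintype K]
    (hfin : Module.finrank F K = 2) (h2 : (2 : F) ≠ 0) (x : F) :
    IsSquare (algebraMap F K x) := by
  by_cases hx : x = 0
  · rw [hx, map_zero]
    exact ⟨0, by simp⟩
  have hcK : ringChar K ≠ 2 := by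
    intro h
    have h2K : (2 : K) = 0 := by
      have := CharP.cast_eq_zero K (ringChar K)
      rw [h] at this
      exact_mod_cast this
    have : algebraMap F K 2 = 0 := by
      rw [map_ofNat]
      exact h2K
    exact h2 ((map_eq_zero (algebraMap F K)).mp this)
  have hcF : ringChar F ≠ 2 := by
    intro h
    apply h2
    have := CharP.cast_eq_zero F (ringChar F)
    rw [h] at this
    exact_mod_cast this
  rw [FiniteField.isSquare_iff hcK ((map_ne_zero (algebraMap F K)).mpr hx)]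
  have hcard : Fintype.card K = Fintype.card F ^ 2 := by
    rw [Module.card_eq_pow_finrank (K := F) (V := K), hfin]
  have hqodd : Fintype.card F % 2 = 1 := FiniteField.odd_card_of_char_ne_two hcF
  obtain ⟨r, hr⟩ : ∃ r, Fintype.card F = 2 * r + 1 := ⟨Fintype.card F / 2, by omega⟩
  have e : Fintype.card F ^ 2 / 2 = (Fintype.card F - 1) * (r + 1) := by
    rw [hr]
    have e1 : (2 * r + 1) ^ 2 = 2 * ((2 * r + 1 - 1) * (r + 1)) + 1 := by
      rw [Nat.add_sub_cancel]
      ring
    rw [e1]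
    omega
  rw [hcard, e, pow_mul, ← map_pow, FiniteField.pow_card_sub_one_eq_one x hx, map_one, one_pow]

theorem preserves_map_iff (K : Type u) [Field K] [Algebra F K] (hfin : Module.finrank F K = 2)
    (m : ℕ) (a b : F)
    (hab : ∀ z₁ z₂ : F, z₁ ^ 2 + a * z₁ * z₂ + b * z₂ ^ 2 = 0 → z₁ = 0 ∧ z₂ = 0)
    (h2 : (2 : F) ≠ 0) (hne : ∃ v, QMin m F a b v ≠ 0)
    (g : ↥(Cfsg.Geo.quadSimilarityGroup (⇑(QMin m F a b)))) :
    Cfsg.PreservesSingularClasses
        (Cfsg.quadFormMinus m K (algebraMap F K a) (algebraMap F K b))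
        (((g : Matrix.GeneralLinearGroup ((Fin m ⊕ Fin m) ⊕ Fin 2) F) :
          Matrix ((Fin m ⊕ Fin m) ⊕ Fin 2) ((Fin m ⊕ Fin m) ⊕ Fin 2) F).map (algebraMap F K))
      ↔ simD (QMin m F a b) hne (m + 1) g = 1 := by
  classical
  have hφ : Function.Injective (algebraMap F K) := (algebraMap F K).injective
  have h2K : (2 : K) ≠ 0 := by
    intro h
    have : algebraMap F K 2 = 0 := by
      rw [map_ofNat]
      exact h
    exact h2 ((map_eq_zero (algebraMap F K)).mp this)
  have : Module.Finite F K := Module.finite_of_finrank_pos (by rw [hfin]; norm_num)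
  have : Finite K := Module.finite_of_finite F
  let _ : Fintype K := Fintype.ofFinite K
  have hsqK := isSquare_algebraMap_of_finrank_two K hfin h2
  obtain ⟨s, hs⟩ := hsqK (a ^ 2 - 4 * b)
  obtain ⟨t, ht⟩ : ∃ t : K, t ^ 2 + algebraMap F K a * t + algebraMap F K b = 0 := by
    refine ⟨(-(algebraMap F K a) + s) / 2, ?_⟩
    rw [map_sub, map_pow, map_mul, map_ofNat] at hs
    field_simp
    linear_combination (-1 : K) * hs
  obtain ⟨E, hE, dE⟩ := exists_ts_QMin m (algebraMap F K a) (algebraMap F K b) t ht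
  have hd : (algebraMap F K a) ^ 2 - 4 * algebraMap F K b ≠ 0 := by
    have := disc_ne_zero_of_aniso a b hab
    intro h
    apply this
    apply hφ
    rw [map_sub, map_pow, map_mul, map_ofNat, map_zero]
    exact h
  have hQ' := QMin_nondeg m (algebraMap F K a) (algebraMap F K b) hd
  have hne' : ∃ v, QMin m K (algebraMap F K a) (algebraMap F K b) v ≠ 0 := by
    refine ⟨Sum.elim (0 : Fin m ⊕ Fin m → K) ![1, 0], ?_⟩
    rw [QMin_apply_inr, binQ_apply]
    simp
  have hcard : Fintype.card ((Fin m ⊕ Fin m) ⊕ Fin 2) = 2 * (m + 1) := by simp; ring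
  have hsim : ∀ w, QMin m K (algebraMap F K a) (algebraMap F K b)
      ((((g : Matrix.GeneralLinearGroup ((Fin m ⊕ Fin m) ⊕ Fin 2) F) :
          Matrix ((Fin m ⊕ Fin m) ⊕ Fin 2) ((Fin m ⊕ Fin m) ⊕ Fin 2) F).map (algebraMap F K))
            *ᵥ w)
      = algebraMap F K (simMul (⇑(QMin m F a b)) g : F)
        * QMin m K (algebraMap F K a) (algebraMap F K b) w := by
    intro w
    apply sim_of_gram h2K
    have e1 := sim_gram (QMin m F a b) g
    rw [stdGram_QMin] at e1
    rw [stdGram_QMin, ← minusGram_map (algebraMap F K), ← Matrix.transpose_map,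
      ← Matrix.map_mul, ← Matrix.map_mul, e1]
    ext i j
    simp
  obtain ⟨gK, hgK⟩ : ∃ gK : ↥(Cfsg.Geo.quadSimilarityGroup
      (⇑(QMin m K (algebraMap F K a) (algebraMap F K b)))),
      ((gK : Matrix.GeneralLinearGroup ((Fin m ⊕ Fin m) ⊕ Fin 2) K) :
          Matrix ((Fin m ⊕ Fin m) ⊕ Fin 2) ((Fin m ⊕ Fin m) ⊕ Fin 2) K)
        = ((g : Matrix.GeneralLinearGroup ((Fin m ⊕ Fin m) ⊕ Fin 2) F) :
          Matrix ((Fin m ⊕ Fin m) ⊕ Fin 2) ((Fin m ⊕ Fin m) ⊕ Fin 2) F).map (algebraMap F K) :=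
    ⟨⟨Matrix.GeneralLinearGroup.map (algebraMap F K) g.1,
      ⟨Units.map (algebraMap F K).toMonoidHom (simMul (⇑(QMin m F a b)) g), hsim⟩⟩, rfl⟩
  have hmul : simMul (⇑(QMin m K (algebraMap F K a) (algebraMap F K b))) gK
      = Units.map (algebraMap F K).toMonoidHom (simMul (⇑(QMin m F a b)) g) :=
    simMul_unique _ hne' gK _ (by
      intro v
      rw [hgK]
      exact hsim v)
  have hsq : IsSquare (simMul (⇑(QMin m K (algebraMap F K a) (algebraMap F K b))) gK : K) := by
    rw [hmul]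
    exact hsqK _
  have key := preserves_iff_simD_of_isSquare (QMin m K (algebraMap F K a) (algebraMap F K b))
    h2K hQ' hne' hcard E hE dE gK hsq
  rw [hgK] at key
  refine Iff.trans key ?_
  rw [← Units.val_inj,
    ← Units.val_inj (a := simD (QMin m F a b) hne (m + 1) g), simD_val, simD_val, hmul, hgK,
    Units.val_one, Units.val_one]
  have e : (((g : Matrix.GeneralLinearGroup ((Fin m ⊕ Fin m) ⊕ Fin 2) F) :
          Matrix ((Fin m ⊕ Fin m) ⊕ Fin 2) ((Fin m ⊕ Fin m) ⊕ Fin 2) F).map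
            (algebraMap F K)).det
        * (((Units.map (algebraMap F K).toMonoidHom (simMul (⇑(QMin m F a b)) g) : Kˣ) : K)⁻¹)
          ^ (m + 1)
      = algebraMap F K (((g : Matrix.GeneralLinearGroup ((Fin m ⊕ Fin m) ⊕ Fin 2) F) :
          Matrix ((Fin m ⊕ Fin m) ⊕ Fin 2) ((Fin m ⊕ Fin m) ⊕ Fin 2) F).det
        * ((simMul (⇑(QMin m F a b)) g : F)⁻¹) ^ (m + 1)) := by
    rw [map_mul, map_pow, map_inv₀, RingHom.map_det]
    rfl
  rw [e]
  constructor
  · intro h
    apply hφ
    rw [h, map_one]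
  · intro h
    rw [h, map_one]

/-- A similarity of the minus type form preserves the classes of maximal totally singular
subspaces over a quadratic extension iff `det = multiplier^(m+1)`. -/
theorem preservesMinus_iff (m : ℕ) (a b : F)
    (hab : ∀ z₁ z₂ : F, z₁ ^ 2 + a * z₁ * z₂ + b * z₂ ^ 2 = 0 → z₁ = 0 ∧ z₂ = 0)
    (h2 : (2 : F) ≠ 0) (hne : ∃ v, QMin m F a b v ≠ 0)
    (g : ↥(Cfsg.Geo.quadSimilarityGroup (⇑(QMin m F a b)))) :
    Cfsg.PreservesSingularClassesMinus m a b
        ((g : Matrix.GeneralLinearGroup ((Fin m ⊕ Fin m) ⊕ Fin 2) F) :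
          Matrix ((Fin m ⊕ Fin m) ⊕ Fin 2) ((Fin m ⊕ Fin m) ⊕ Fin 2) F)
      ↔ simD (QMin m F a b) hne (m + 1) g = 1 := by
  constructor
  · rintro ⟨K, instK, instA, hfin, hP⟩
    exact (preserves_map_iff K hfin m a b hab h2 hne g).mp hP
  · intro h
    obtain ⟨f, hf⟩ : ∃ f : Polynomial F,
        f = Polynomial.X ^ 2 + Polynomial.C a * Polynomial.X + Polynomial.C b := ⟨_, rfl⟩
    have hdeg : f.natDegree = 2 := by
      rw [hf]
      compute_degree!
    have hirr : Irreducible f := by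
      apply Polynomial.irreducible_of_degree_le_three_of_not_isRoot
      · rw [hdeg]
        decide
      · intro x hx
        rw [Polynomial.IsRoot, hf] at hx
        simp at hx
        have := hab x 1 (by linear_combination hx)
        exact one_ne_zero this.2
    have : Fact (Irreducible f) := ⟨hirr⟩
    refine ⟨AdjoinRoot f, inferInstance, inferInstance, ?_, ?_⟩
    · have := finrank_quotient_span_eq_natDegree (f := f)
      rw [hdeg] at this
      exact this
    · exact (preserves_map_iff (AdjoinRoot f) (by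
        have := finrank_quotient_span_eq_natDegree (f := f)
        rw [hdeg] at this
        exact this) m a b hab h2 hne g).mpr h

end

end Cfsg.Agent.H49
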