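import Mathlib
import Cfsg.Prelude.Def_LieTypeDatum

set_option autoImplicit false
set_option linter.unusedSectionVars false

/-! Helper lemmas (helper49): the number of `K`-classes into which an `H`-class splits, for a
normal subgroup `K ≤ H`, is the index of `K · C_H(x)` in `H`. -/

namespace Cfsg.Agent.H49

theorem splitClassCount_eq_relIndex {X : Type*} [Group X] (H K : Subgroup X) [hKn : K.Normal]
    (hKH : K ≤ H) (x : X) :
    Cfsg.splitClassCount H K x = (K ⊔ (H ⊓ Subgroup.centralizer {x})).relIndex H := by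
  classical
  obtain ⟨N, hN⟩ : ∃ N : Subgroup X, N = K ⊔ (H ⊓ Subgroup.centralizer {x}) := ⟨_, rfl⟩
  rw [← hN]
  have hmemN : ∀ y : X, y ∈ N ↔ ∃ k ∈ K, ∃ c ∈ H ⊓ Subgroup.centralizer {x}, k * c = y := by
    intro y
    rw [hN, ← SetLike.mem_coe, Subgroup.normal_mul, Set.mem_mul]
    rfl
  have hequiv : Equivalence (fun y z : {y : X // Cfsg.IsConjUnder H x y} =>
      Cfsg.IsConjUnder K y.1 z.1) := by
    refine ⟨fun y => ⟨1, K.one_mem, by simp⟩, ?_, ?_⟩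
    · rintro y z ⟨k, hk, hz⟩
      exact ⟨k⁻¹, K.inv_mem hk, by rw [hz]; group⟩
    · rintro y z w ⟨k, hk, hz⟩ ⟨l, hl, hw⟩
      exact ⟨l * k, K.mul_mem hl hk, by rw [hw, hz]; group⟩
  have key : ∀ h₁ h₂ : H, Cfsg.IsConjUnder K ((h₁ : X) * x * (h₁ : X)⁻¹)
      ((h₂ : X) * x * (h₂ : X)⁻¹) ↔ (h₁ : X)⁻¹ * (h₂ : X) ∈ N := by
    rintro ⟨h₁, hh₁⟩ ⟨h₂, hh₂⟩
    show Cfsg.IsConjUnder K (h₁ * x * h₁⁻¹) (h₂ * x * h₂⁻¹) ↔ h₁⁻¹ * h₂ ∈ N
    rw [hmemN]
    constructor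
    · rintro ⟨k, hk, hk2⟩
      refine ⟨h₁⁻¹ * k * h₁, ?_, h₁⁻¹ * k⁻¹ * h₂, ⟨?_, ?_⟩, by group⟩
      · have := hKn.conj_mem k hk h₁⁻¹
        rwa [inv_inv] at this
      · exact H.mul_mem (H.mul_mem (H.inv_mem hh₁) (H.inv_mem (hKH hk))) hh₂
      · show h₁⁻¹ * k⁻¹ * h₂ ∈ Subgroup.centralizer {x}
        rw [Subgroup.mem_centralizer_iff]
        intro y hy
        rw [Set.mem_singleton_iff] at hy
        subst hy
        have e : h₂ * y = k * (h₁ * y * h₁⁻¹) * k⁻¹ * h₂ := by rw [← hk2]; group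
        calc y * (h₁⁻¹ * k⁻¹ * h₂) = h₁⁻¹ * k⁻¹ * (k * (h₁ * y * h₁⁻¹) * k⁻¹ * h₂) := by group
          _ = h₁⁻¹ * k⁻¹ * (h₂ * y) := by rw [e]
          _ = h₁⁻¹ * k⁻¹ * h₂ * y := by group
    · rintro ⟨k, hk, c, ⟨hcH, hcC⟩, hkc⟩
      have hcC' : c ∈ Subgroup.centralizer {x} := hcC
      rw [Subgroup.mem_centralizer_iff] at hcC'
      have hcx : x * c = c * x := hcC' x rfl
      have hh₂ : h₂ = h₁ * (k * c) := by rw [hkc]; group
      refine ⟨h₁ * k * h₁⁻¹, hKn.conj_mem k hk h₁, ?_⟩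
      have e : c * x * c⁻¹ = x := by rw [← hcx]; group
      calc h₂ * x * h₂⁻¹ = h₁ * k * (c * x * c⁻¹) * k⁻¹ * h₁⁻¹ := by rw [hh₂]; group
        _ = h₁ * k * x * k⁻¹ * h₁⁻¹ := by rw [e]
        _ = h₁ * k * h₁⁻¹ * (h₁ * x * h₁⁻¹) * (h₁ * k * h₁⁻¹)⁻¹ := by group
  unfold Cfsg.splitClassCount
  rw [Subgroup.relIndex, Subgroup.index]
  apply Nat.card_congr
  symm
  refine Equiv.ofBijective (fun q => Quotient.liftOn' q
    (fun h : H => (Quot.mk _ ⟨(h : X) * x * (h : X)⁻¹, ⟨(h : X), h.2, rfl⟩⟩ :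
      Quot fun y z : {y : X // Cfsg.IsConjUnder H x y} => Cfsg.IsConjUnder K y.1 z.1)) ?_)
    ⟨?_, ?_⟩
  · intro a b hab
    rw [QuotientGroup.leftRel_apply, Subgroup.mem_subgroupOf] at hab
    apply Quot.sound
    exact (key a b).mpr hab
  · intro q₁ q₂
    induction q₁ using QuotientGroup.induction_on with
    | H a =>
      induction q₂ using QuotientGroup.induction_on with
      | H b =>
        intro hab
        have hab' : (Quot.mk _ ⟨(a : X) * x * (a : X)⁻¹, ⟨(a : X), a.2, rfl⟩⟩ :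
            Quot fun y z : {y : X // Cfsg.IsConjUnder H x y} => Cfsg.IsConjUnder K y.1 z.1)
            = Quot.mk _ ⟨(b : X) * x * (b : X)⁻¹, ⟨(b : X), b.2, rfl⟩⟩ := hab
        rw [Quot.eq, hequiv.eqvGen_iff] at hab'
        rw [QuotientGroup.eq, Subgroup.mem_subgroupOf]
        exact (key a b).mp hab'
  · intro q
    induction q using Quot.inductionOn with
    | h y =>
      obtain ⟨y, h, hh, rfl⟩ := y
      exact ⟨QuotientGroup.mk ⟨h, hh⟩, rfl⟩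

end Cfsg.Agent.H49
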