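import Mathlib
import Cfsg.Agent.H49.SimQuot2
import Cfsg.Agent.H49.AutOut1
import Cfsg.Agent.H49.Omega2
import Cfsg.Agent.H7.OmegaTwo

set_option autoImplicit false
set_option linter.unusedSectionVars false
set_option linter.unusedSimpArgs false
set_option linter.unusedVariables false

/-! Helper lemmas (helper49): characteristic two: `PGO = PO` and `|PO : PΩ| = 2` inside
`Aut(PΩ)`. -/

namespace Cfsg.Agent.H49

open Module Matrix

section
variable {ι : Type} [Fintype ι] [DecidableEq ι] {F : Type*} [Field F] [Fintype F] [DecidableEq F]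

theorem negG_eq_one_two (Q : QuadraticForm F (ι → F)) (h2 : (2 : F) = 0) : negG Q = 1 := by
  apply Subtype.ext
  apply Units.ext
  show (-1 : Matrix ι ι F) = 1
  rw [neg_eq_iff_add_eq_zero, ← two_smul F (1 : Matrix ι ι F), h2, zero_smul]

/-- In characteristic two every similarity is a scalar times an isometry. -/
theorem exists_scal_mul_two (Q : QuadraticForm F (ι → F)) (h2 : (2 : F) = 0)
    (g : ↥(Cfsg.Geo.quadSimilarityGroup (⇑Q))) :
    ∃ (l : Fˣ) (g₀ : ↥(Cfsg.isometryGroup F (⇑Q))), g = scalSim Q l * inclO Q g₀ :=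
  exists_scal_mul_of_isSquare Q g (by
    obtain ⟨d, hd⟩ := exists_sqrt_char_two h2 (simMul (⇑Q) g : F)
    exact ⟨d, hd.symm⟩)

theorem cHom_inclO_eq_one_two (Q : QuadraticForm F (ι → F)) (h2 : (2 : F) = 0)
    (hQ : (QuadraticMap.polarBilin Q).Nondegenerate) (h3 : HasTS3 Q)
    (g₀ : ↥(Cfsg.isometryGroup F (⇑Q))) (h : cHom (⇑Q) (inclO Q g₀) = 1) : g₀ = 1 := by
  have hne : ∃ v, Q v ≠ 0 := by
    obtain ⟨x, hx⟩ := exists_Q_eq_of_ts3 Q hQ h3 1
    exact ⟨x, by rw [hx]; exact one_ne_zero⟩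
  obtain ⟨l, hl⟩ := eq_scalSim_of_cHom_eq_one Q hQ h3 hne _ h
  rcases scal_isometry Q hne l g₀ (congrArg Subtype.val hl) with h6 | h6
  · exact h6
  · rw [h6, negG_eq_one_two Q h2]

/-- Characteristic two: an isometry induces an inner automorphism of `PΩ` iff it lies in `Ω`. -/
theorem cHom_inclO_mem_inn_iff_two (Q : QuadraticForm F (ι → F)) (h2 : (2 : F) = 0)
    (hQ : (QuadraticMap.polarBilin Q).Nondegenerate) (h3 : HasTS3 Q)
    (g₀ : ↥(Cfsg.isometryGroup F (⇑Q))) :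
    cHom (⇑Q) (inclO Q g₀) ∈ Cfsg.Inn (Cfsg.POmega F (⇑Q))
      ↔ g₀ ∈ commutator ↥(Cfsg.isometryGroup F (⇑Q)) := by
  rw [inn_eq]
  constructor
  · rintro ⟨x, ⟨s, hs, hsx⟩, hx⟩
    have hx' : x = inclO Q s := Subtype.ext hsx.symm
    rw [hx'] at hx
    have h1 : cHom (⇑Q) (inclO Q (s⁻¹ * g₀)) = 1 := by
      rw [map_mul, map_mul, map_inv, map_inv, hx, inv_mul_cancel]
    have h4 := cHom_inclO_eq_one_two Q h2 hQ h3 (s⁻¹ * g₀) h1
    have h5 : g₀ = s := (inv_mul_eq_one.mp h4).symm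
    rw [h5]
    exact hs
  · intro hg
    exact ⟨inclO Q g₀, ⟨g₀, hg, rfl⟩, rfl⟩

/-- Characteristic two: `PΩ` has index two in `PGO`. -/
theorem relIndex_inn_pgoAut_two (Q : QuadraticForm F (ι → F)) (h2 : (2 : F) = 0)
    (hQ : (QuadraticMap.polarBilin Q).Nondegenerate) (h3 : HasTS3 Q) {m : ℕ}
    (hV : finrank F (ι → F) = 2 * m) (hex : Fintype.card F ≠ 2 ∨ m ≠ 2) :
    (Cfsg.Inn (Cfsg.POmega F (⇑Q))).relIndex (Cfsg.pgoAut F (⇑Q)) = 2 := by
  obtain ⟨v, hv1⟩ := exists_Q_eq_of_ts3 Q hQ h3 1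
  have hv : Q v ≠ 0 := by rw [hv1]; exact one_ne_zero
  have key := relIndex_eq_card_of_hom ((cHom (⇑Q)).comp (inclO Q))
    (QuotientGroup.mk' (commutator ↥(Cfsg.isometryGroup F (⇑Q))))
    (commutator ↥(Cfsg.isometryGroup F (⇑Q)))
    ?_ ?_ ?_ ?_ (Cfsg.pgoAut F (⇑Q)) (Cfsg.Inn (Cfsg.POmega F (⇑Q))) ?_ ?_
  · rw [key]
    exact Cfsg.Agent.H7.index_commutator_char_two Q h2 hQ hV hex v hv
  · intro g hg
    rw [QuotientGroup.ker_mk']
    have := cHom_inclO_eq_one_two Q h2 hQ h3 g (MonoidHom.mem_ker.mp hg)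
    rw [this]
    exact Subgroup.one_mem _
  · exact QuotientGroup.mk'_surjective _
  · rw [QuotientGroup.ker_mk']
  · intro g hg
    exact ⟨g, (QuotientGroup.eq_one_iff g).mp hg, rfl⟩
  · rw [pgoAut_eq]
    apply le_antisymm
    · rintro _ ⟨g, rfl⟩
      obtain ⟨l, g₀, rfl⟩ := exists_scal_mul_two Q h2 g
      exact ⟨g₀, by rw [map_mul, cHom_scalSim, one_mul]; rfl⟩
    · rintro _ ⟨g₀, rfl⟩
      exact ⟨inclO Q g₀, rfl⟩
  · ext β
    rw [Subgroup.mem_map]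
    constructor
    · intro hβ
      rw [inn_eq] at hβ
      obtain ⟨x, ⟨s, hs, hsx⟩, rfl⟩ := hβ
      have hx' : x = inclO Q s := Subtype.ext hsx.symm
      exact ⟨s, hs, by rw [hx']; rfl⟩
    · rintro ⟨s, hs, rfl⟩
      exact (cHom_inclO_mem_inn_iff_two Q h2 hQ h3 s).mpr hs

theorem inn_le_pgoAut (Qf : (ι → F) → F) :
    Cfsg.Inn (Cfsg.POmega F Qf) ≤ Cfsg.pgoAut F Qf := by
  refine le_trans (inn_le_psoAut Qf) ?_
  rw [pgoAut_eq, psoAut_eq, MonoidHom.range_eq_map]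
  exact Subgroup.map_mono le_top

theorem card_pgoAut_of_relIndex (Q : QuadraticForm F (ι → F))
    (hQ : (QuadraticMap.polarBilin Q).Nondegenerate) (h3 : HasTS3 Q) (n : ℕ)
    (h : (Cfsg.Inn (Cfsg.POmega F (⇑Q))).relIndex (Cfsg.pgoAut F (⇑Q)) = n) :
    Nat.card ↥(Cfsg.pgoAut F (⇑Q)) = n * Nat.card (Cfsg.POmega F (⇑Q)) := by
  have h1 := Subgroup.relIndex_mul_relIndex ⊥ (Cfsg.Inn (Cfsg.POmega F (⇑Q)))
    (Cfsg.pgoAut F (⇑Q)) bot_le (inn_le_pgoAut (⇑Q))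
  rw [Subgroup.relIndex_bot_left, Subgroup.relIndex_bot_left, h, card_inn_pOmega Q hQ h3] at h1
  rw [← h1]
  ring

end

end Cfsg.Agent.H49
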