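import Mathlib
import Cfsg.Agent.H49.FieldOdd
import Cfsg.Agent.H49.FieldCent
import Cfsg.Agent.H49.OddAut
import Cfsg.Agent.H49.SplitCount
import Cfsg.Agent.H49.FieldAutCyc
import Cfsg.Agent.H49.SimMinusK
import Cfsg.Agent.H49.TwoAut

set_option autoImplicit false
set_option linter.unusedSectionVars false
set_option linter.unusedSimpArgs false
set_option linter.unusedVariables false

/-! Helper lemmas (helper49): field automorphisms of prime order of the odd-dimensional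
orthogonal groups; the centraliser in the inner-diagonal group and the splitting of the class. -/

namespace Cfsg.Agent.H49

open Module Matrix GalDesc

section
variable {X : Type*} [Group X]

theorem conj_mem_inf_centralizer (H : Subgroup X) [hH : H.Normal] (d x y : X)
    (hy : y ∈ H ⊓ Subgroup.centralizer ({x} : Set X)) :
    d * y * d⁻¹ ∈ H ⊓ Subgroup.centralizer ({d * x * d⁻¹} : Set X) := by
  rw [Subgroup.mem_inf, Subgroup.mem_centralizer_iff] at hy ⊢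
  refine ⟨hH.conj_mem y hy.1 d, ?_⟩
  intro w hw
  rw [Set.mem_singleton_iff] at hw
  have h1 := hy.2 x rfl
  rw [hw]
  have e1 : d * x * d⁻¹ * (d * y * d⁻¹) = d * (x * y) * d⁻¹ := by group
  have e2 : d * y * d⁻¹ * (d * x * d⁻¹) = d * (y * x) * d⁻¹ := by group
  rw [e1, e2, h1]

end

section
variable {F : Type*} [Field F]

/-- A square root of a fixed element is fixed by an automorphism of odd order. -/
theorem fixed_sqrt_of_odd (h2 : (2 : F) ≠ 0) (σ : RingAut F) {r : ℕ}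
    (hr : orderOf σ = r) (hodd : Odd r) (y : F) (hy : σ (y * y) = y * y) : σ y = y := by
  have h1 : (σ y - y) * (σ y + y) = 0 := by
    rw [map_mul] at hy
    linear_combination hy
  rcases mul_eq_zero.mp h1 with h | h
  · exact sub_eq_zero.mp h
  · have hneg : σ y = -y := by linear_combination h
    have hpow : ∀ k : ℕ, (σ ^ k) y = (-1) ^ k * y := by
      intro k
      induction k with
      | zero => simp
      | succ k ih =>
        rw [pow_succ']
        show σ ((σ ^ k) y) = _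
        rw [ih, map_mul, map_pow, map_neg, map_one, hneg]
        ring
    have hσr : σ ^ r = 1 := by rw [← hr]; exact pow_orderOf_eq_one σ
    have h3 := hpow r
    rw [hσr, hodd.neg_one_pow] at h3
    have h4 : y = -1 * y := h3
    have h5 : y = 0 := by
      have : (2 : F) * y = 0 := by linear_combination h4
      exact (mul_eq_zero.mp this).resolve_left h2
    rw [h5, map_zero]

end

section
variable {F₀ : Type*} {F : Type*} [Field F₀] [Field F] [Fintype F₀] [Fintype F]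

/-- Every element of the subfield of index two is a square. -/
theorem isSquare_of_emb_two {p f : ℕ} [Fact p.Prime] (hF : Fintype.card F = p ^ f)
    (hf : 2 ∣ f) (hf1 : 1 ≤ f) (hF₀ : Fintype.card F₀ = p ^ (f / 2)) (h2 : (2 : F₀) ≠ 0)
    (j : F₀ →+* F) (a : F₀) : IsSquare (j a) := by
  let _ := j.toAlgebra
  have hfin : Module.finrank F₀ F = 2 := by
    have h1 := Module.card_eq_pow_finrank (K := F₀) (V := F)
    rw [hF, hF₀, ← pow_mul] at h1
    have h3 := Nat.pow_right_injective (Fact.out : p.Prime).two_le h1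
    obtain ⟨c, rfl⟩ := hf
    rw [Nat.mul_div_cancel_left c (by norm_num)] at h3
    have hc : 0 < c := by omega
    have h4 : c * 2 = c * Module.finrank F₀ F := by rw [← h3]; ring
    exact (Nat.eq_of_mul_eq_mul_left hc h4).symm
  exact isSquare_algebraMap_of_finrank_two F hfin h2 a

end

section
variable {ι : Type} [Fintype ι] [DecidableEq ι] {F₀ : Type*} {F : Type*} [Field F₀] [Field F]
  [Fintype F₀] [Fintype F]

theorem bcSim_scalSim {j : F₀ →+* F} {Q₀ : QuadraticForm F₀ (ι → F₀)}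
    {Q : QuadraticForm F (ι → F)} (hc : FormCompat j Q₀ Q) (l₀ : F₀ˣ) :
    bcSim hc (scalSim Q₀ l₀) = scalSim Q (Units.map (j : F₀ →* F) l₀) := by
  apply Subtype.ext
  apply Units.ext
  rw [bcSim_val]
  show ((scalGL ι l₀ : Matrix.GeneralLinearGroup ι F₀) : Matrix ι ι F₀).map j
    = ((scalGL ι (Units.map (j : F₀ →* F) l₀) : Matrix.GeneralLinearGroup ι F) : Matrix ι ι F)
  rw [scalGL_coe, scalGL_coe]
  ext i k
  rw [Matrix.map_apply, Matrix.smul_apply, Matrix.smul_apply, smul_eq_mul, smul_eq_mul, map_mul]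
  by_cases hik : i = k
  · subst hik
    rw [Matrix.one_apply_eq, Matrix.one_apply_eq, map_one]
    rfl
  · rw [Matrix.one_apply_ne hik, Matrix.one_apply_ne hik, map_zero, mul_zero, mul_zero]

/-- Base change of isometries. -/
theorem bc_mem_iso {j : F₀ →+* F} {Q₀ : QuadraticForm F₀ (ι → F₀)} {Q : QuadraticForm F (ι → F)}
    (hc : FormCompat j Q₀ Q) (s₀ : ↥(Cfsg.isometryGroup F₀ (⇑Q₀))) :
    Matrix.GeneralLinearGroup.map j (s₀ : Matrix.GeneralLinearGroup ι F₀)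
      ∈ Cfsg.isometryGroup F (⇑Q) := by
  rw [mem_isometryGroup_iff]
  intro v
  have := bc_form hc ((s₀ : Matrix.GeneralLinearGroup ι F₀) : Matrix ι ι F₀) 1
    (fun u => by rw [isometry_apply s₀ u, one_mul]) v
  rw [map_one, one_mul] at this
  exact this

end

section
variable {ι : Type} [Fintype ι] [DecidableEq ι] {F : Type*} [Field F] [Fintype F] [DecidableEq F]

/-- Odd dimension: a special isometry inducing an inner automorphism lies in `Ω`. -/
theorem mem_commutator_of_cHom_mem_inn_odd (Q : QuadraticForm F (ι → F)) (h2 : (2 : F) ≠ 0)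
    (hQ : (QuadraticMap.polarBilin Q).Nondegenerate) (h3 : HasTS3 Q) (hne : ∃ v, Q v ≠ 0) {k : ℕ}
    (hk : Fintype.card ι = 2 * k + 1) (s : ↥(Cfsg.isometryGroup F (⇑Q)))
    (hdet : ((s : Matrix.GeneralLinearGroup ι F) : Matrix ι ι F).det = 1)
    (h : cHom (⇑Q) (inclO Q s) ∈ Cfsg.Inn (Cfsg.POmega F (⇑Q))) :
    s ∈ commutator ↥(Cfsg.isometryGroup F (⇑Q)) := by
  rw [inn_eq] at h
  obtain ⟨t, ⟨t₀, ht₀, htt⟩, hte⟩ := h
  have ht' : t = inclO Q t₀ := Subtype.ext htt.symm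
  have h1 : cHom (⇑Q) (inclO Q (t₀⁻¹ * s)) = 1 := by
    rw [map_mul, map_mul, map_inv, ← ht', map_inv, hte, inv_mul_cancel]
  obtain ⟨l, hl⟩ := eq_scalSim_of_cHom_eq_one Q hQ h3 hne _ h1
  have h5 : ((t₀⁻¹ * s : ↥(Cfsg.isometryGroup F (⇑Q))) : Matrix.GeneralLinearGroup ι F)
      = scalGL ι l := congrArg Subtype.val hl
  have hdt : ((t₀ : Matrix.GeneralLinearGroup ι F) : Matrix ι ι F).det = 1 :=
    ((mem_commutator_iff_spinSign_det Q h2 hQ t₀).mp ht₀).2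
  rcases scal_isometry Q hne l _ h5 with h6 | h6
  · have : s = t₀ := by
      rw [inv_mul_eq_one] at h6
      exact h6.symm
    rw [this]
    exact ht₀
  · exfalso
    have hs : s = t₀ * negG Q := eq_mul_of_inv_mul_eq h6
    have hd := det_mul_iso t₀ (negG Q)
    rw [← hs, hdet, hdt, det_negG_odd Q hk] at hd
    apply h2
    linear_combination hd

end

section
variable {F : Type*} [Field F] [Fintype F]

set_option maxHeartbeats 1600000 in
/-- Field automorphisms of prime order of `Ω_{2m+1}(q)`: the order divides `f`, the centraliser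
in the inner-diagonal group is the inner-diagonal group over the fixed field, and the class
splits into one or two classes under the simple group. -/
theorem odd_field_cent_Q {p f : ℕ} [Fact p.Prime] (hF : Fintype.card F = p ^ f) (hf : 1 ≤ f)
    (hodd : Odd (Fintype.card F)) {m : ℕ} (hm : 3 ≤ m)
    (x : MulAut (Cfsg.POmega F (⇑(QOdd m F))))
    (hx : Cfsg.IsFieldAutClassPOmega (⇑(QOdd m F)) x) {r : ℕ} (hr : r.Prime)
    (hxr : orderOf x = r) (F₀ : Type*) [Field F₀] [Fintype F₀]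
    (hF₀ : Fintype.card F₀ = p ^ (f / r)) :
    r ∣ f ∧
    Nonempty (↥(Cfsg.pgoAut F (⇑(QOdd m F)) ⊓ Subgroup.centralizer {x})
      ≃* ↥(Cfsg.pgoAut F₀ (⇑(QOdd m F₀)))) ∧
    (Odd r → Cfsg.splitClassCount (Cfsg.pgoAut F (⇑(QOdd m F)))
      (Cfsg.Inn (Cfsg.POmega F (⇑(QOdd m F)))) x = 1) ∧
    (r = 2 → Cfsg.splitClassCount (Cfsg.pgoAut F (⇑(QOdd m F)))
      (Cfsg.Inn (Cfsg.POmega F (⇑(QOdd m F)))) x = 2) := by
  classical
  have h2 : (2 : F) ≠ 0 := two_ne_zero_of_odd_card hodd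
  have hQ := QOdd_nondeg (F := F) m h2
  have h3 := hasTS3_QOdd (F := F) m hm
  have hk : Fintype.card (Unit ⊕ (Fin m ⊕ Fin m)) = 2 * m + 1 := by
    simp
    ring
  have htop : ∀ β : MulAut (Cfsg.POmega F (⇑(QOdd m F))),
      β ∈ Cfsg.gammaPOmega F (⇑(QOdd m F)) := by
    intro β
    have ht : Cfsg.gammaPOmega F (⇑(QOdd m F)) = ⊤ := gamma_top_odd hodd hm
    rw [ht]
    exact Subgroup.mem_top β
  obtain ⟨α, φ, σ, hσ, hφ, hαx⟩ := hx
  have hp1 : Cfsg.IsSemisimilarityPair (⇑(QOdd m F))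
      (1 : Matrix.GeneralLinearGroup (Unit ⊕ (Fin m ⊕ Fin m)) F) σ := pair_odd_sigma (F := F) m σ
  have hi1 : Cfsg.IsInducedBySemilinearPOmega (⇑(QOdd m F))
      (1 : Matrix.GeneralLinearGroup (Unit ⊕ (Fin m ⊕ Fin m)) F) σ φ := by
    intro s s' hss'
    apply hφ s s'
    rw [hss', Units.val_one, inv_one, Units.val_one, Matrix.one_mul, Matrix.mul_one]
  have h1mem : (1 : MulAut (Cfsg.POmega F (⇑(QOdd m F)))) ∈ Cfsg.pgoAut F (⇑(QOdd m F)) :=
    one_mem _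
  obtain ⟨hord, -⟩ := field_coset_reduce (QOdd m F) hQ h3 (QOdd_ne m) htop σ
    hσ hp1 hi1 α x 1 hαx hr hxr h1mem (by rw [one_mul]; exact hxr)
  have hrf : r ∣ f := by
    have hc := (ringAut_card (F := F) p f hf hF).2
    rw [← hc, ← hord]
    exact orderOf_dvd_natCard σ
  obtain ⟨j, hj⟩ := exists_emb_fix hF σ hord hr.pos F₀ hF₀
  have hc : FormCompat j (QOdd m F₀) (QOdd m F) := by
    intro u
    rw [QOdd_apply, QOdd_apply, map_add, map_pow, map_sum]
    congr 1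
    apply Finset.sum_congr rfl
    intro i _
    rw [map_mul]
  have h2₀ : (2 : F₀) ≠ 0 := by
    intro h
    apply h2
    rw [← map_ofNat j 2, h, map_zero]
  have hQ₀ := QOdd_nondeg (F := F₀) m h2₀
  have h3₀ := hasTS3_QOdd (F := F₀) m hm
  obtain ⟨hsurj, ⟨ε⟩⟩ := cent_phi_equiv hc hQ h3 (QOdd_ne m) hQ₀ h3₀ (QOdd_ne m) σ hord hr.pos hj
    (QOdd_sigma m σ) hp1 hi1
  have hN : (Cfsg.pgoAut F (⇑(QOdd m F))).Normal :=
    ⟨fun n hn g => pgoAut_conj_mem (QOdd m F) hQ h3 htop g n hn⟩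
  have hKn : (Cfsg.Inn (Cfsg.POmega F (⇑(QOdd m F)))).Normal := inferInstance
  subst hαx
  have hTP : Cfsg.Inn (Cfsg.POmega F (⇑(QOdd m F))) ≤ Cfsg.pgoAut F (⇑(QOdd m F)) :=
    inn_le_pgoAut _
  have hidx : (Cfsg.Inn (Cfsg.POmega F (⇑(QOdd m F)))).relIndex (Cfsg.pgoAut F (⇑(QOdd m F)))
      = 2 := by
    rw [(card_pgoAut_odd (QOdd m F) h2 hQ h3 hk).1]
    exact relIndex_inn_psoAut_odd (QOdd m F) h2 hQ h3 hk
  refine ⟨hrf, ⟨(centConj (Cfsg.pgoAut F (⇑(QOdd m F))) α x).trans ε⟩, ?_, ?_⟩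
  · intro hrodd
    rw [splitClassCount_eq_relIndex _ _ hTP]
    obtain ⟨N, hN'⟩ : ∃ N : Subgroup (MulAut (Cfsg.POmega F (⇑(QOdd m F)))),
        N = Cfsg.Inn (Cfsg.POmega F (⇑(QOdd m F)))
          ⊔ (Cfsg.pgoAut F (⇑(QOdd m F)) ⊓ Subgroup.centralizer {x}) := ⟨_, rfl⟩
    rw [← hN']
    have hNP : N ≤ Cfsg.pgoAut F (⇑(QOdd m F)) := by rw [hN']; exact sup_le hTP inf_le_left
    have hTN : Cfsg.Inn (Cfsg.POmega F (⇑(QOdd m F))) ≤ N := by rw [hN']; exact le_sup_left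
    -- a centralising element outside `Inn`
    obtain ⟨u₀, hu₀⟩ := exists_Q_eq_of_ts3 (QOdd m F₀) hQ₀ h3₀ 1
    obtain ⟨ν₀, hν₀⟩ := exists_nonsquare_of_two_ne_zero (F := F₀) h2₀
    obtain ⟨v₀, hv₀⟩ := exists_Q_eq_of_ts3 (QOdd m F₀) hQ₀ h3₀ ν₀
    obtain ⟨u, hu⟩ : ∃ u : Unit ⊕ (Fin m ⊕ Fin m) → F, u = fun i => j (u₀ i) := ⟨_, rfl⟩
    obtain ⟨v, hv⟩ : ∃ v : Unit ⊕ (Fin m ⊕ Fin m) → F, v = fun i => j (v₀ i) := ⟨_, rfl⟩
    have hQu : QOdd m F u = 1 := by rw [hu, hc, hu₀, map_one]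
    have hQv : QOdd m F v = j ν₀ := by rw [hv, hc, hv₀]
    have hu0 : QOdd m F u ≠ 0 := by rw [hQu]; exact one_ne_zero
    have hν0 : ν₀ ≠ 0 := by
      rintro rfl
      exact hν₀ ⟨0, by simp⟩
    have hv0 : QOdd m F v ≠ 0 := by
      rw [hQv]
      exact (map_ne_zero j).mpr hν0
    obtain ⟨s, hs⟩ : ∃ s : ↥(Cfsg.isometryGroup F (⇑(QOdd m F))),
        s = reflG (QOdd m F) u * reflG (QOdd m F) v := ⟨_, rfl⟩
    have hsmat : ((s : Matrix.GeneralLinearGroup (Unit ⊕ (Fin m ⊕ Fin m)) F) :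
        Matrix (Unit ⊕ (Fin m ⊕ Fin m)) (Unit ⊕ (Fin m ⊕ Fin m)) F)
        = Cfsg.reflectionMatrix (⇑(QOdd m F)) u * Cfsg.reflectionMatrix (⇑(QOdd m F)) v := by
      rw [hs]
      rfl
    have hsdet : ((s : Matrix.GeneralLinearGroup (Unit ⊕ (Fin m ⊕ Fin m)) F) :
        Matrix (Unit ⊕ (Fin m ⊕ Fin m)) (Unit ⊕ (Fin m ⊕ Fin m)) F).det = 1 := by
      rw [hsmat, Matrix.det_mul, det_reflectionMatrix (QOdd m F) u hu0,
        det_reflectionMatrix (QOdd m F) v hv0]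
      ring
    have hsfix : ((s : Matrix.GeneralLinearGroup (Unit ⊕ (Fin m ⊕ Fin m)) F) :
        Matrix (Unit ⊕ (Fin m ⊕ Fin m)) (Unit ⊕ (Fin m ⊕ Fin m)) F).map σ
        = ((s : Matrix.GeneralLinearGroup (Unit ⊕ (Fin m ⊕ Fin m)) F) :
        Matrix (Unit ⊕ (Fin m ⊕ Fin m)) (Unit ⊕ (Fin m ⊕ Fin m)) F) := by
      have e : ((s : Matrix.GeneralLinearGroup (Unit ⊕ (Fin m ⊕ Fin m)) F) :
          Matrix (Unit ⊕ (Fin m ⊕ Fin m)) (Unit ⊕ (Fin m ⊕ Fin m)) F)
          = (Cfsg.reflectionMatrix (⇑(QOdd m F₀)) u₀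
            * Cfsg.reflectionMatrix (⇑(QOdd m F₀)) v₀).map j := by
        rw [hsmat, Matrix.map_mul, bc_reflectionMatrix hc, bc_reflectionMatrix hc, hu, hv]
      rw [e]
      ext i k
      rw [Matrix.map_apply, Matrix.map_apply]
      exact (hj _).mpr ⟨_, rfl⟩
    have hcomm := cent_phi_of_fixed (QOdd m F) σ hp1 hi1 (inclO (QOdd m F) s) hsfix
    have hc0 : cHom (⇑(QOdd m F)) (inclO (QOdd m F) s) ∈ Cfsg.pgoAut F (⇑(QOdd m F))
        ⊓ Subgroup.centralizer {α * x * α⁻¹} := by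
      rw [Subgroup.mem_inf]
      refine ⟨?_, ?_⟩
      · rw [pgoAut_eq]
        exact ⟨_, rfl⟩
      · rw [Subgroup.mem_centralizer_iff]
        intro y hy
        rw [Set.mem_singleton_iff] at hy
        rw [hy]
        exact hcomm
    have hc1 := conj_mem_inf_centralizer (Cfsg.pgoAut F (⇑(QOdd m F))) α⁻¹ (α * x * α⁻¹) _ hc0
    have e1 : α⁻¹ * (α * x * α⁻¹) * α⁻¹⁻¹ = x := by group
    rw [e1] at hc1
    have hcN : α⁻¹ * cHom (⇑(QOdd m F)) (inclO (QOdd m F) s) * α⁻¹⁻¹ ∈ N := by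
      rw [hN']
      exact Subgroup.mem_sup_right hc1
    have hcT : α⁻¹ * cHom (⇑(QOdd m F)) (inclO (QOdd m F) s) * α⁻¹⁻¹
        ∉ Cfsg.Inn (Cfsg.POmega F (⇑(QOdd m F))) := by
      intro hmem
      have h4 := hKn.conj_mem _ hmem α
      have e2 : α * (α⁻¹ * cHom (⇑(QOdd m F)) (inclO (QOdd m F) s) * α⁻¹⁻¹) * α⁻¹
          = cHom (⇑(QOdd m F)) (inclO (QOdd m F) s) := by group
      rw [e2] at h4
      have h5 := mem_commutator_of_cHom_mem_inn_odd (QOdd m F) h2 hQ h3 (QOdd_ne m) hk s hsdet h4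
      have hvs : ∀ w ∈ [u, v], QOdd m F w ≠ 0 := by
        intro w hw
        rcases List.mem_pair.mp hw with rfl | rfl
        · exact hu0
        · exact hv0
      have hg : ((s : Matrix.GeneralLinearGroup (Unit ⊕ (Fin m ⊕ Fin m)) F) :
          Matrix (Unit ⊕ (Fin m ⊕ Fin m)) (Unit ⊕ (Fin m ⊕ Fin m)) F)
          = ([u, v].map (fun v => Cfsg.reflectionMatrix (⇑(QOdd m F)) v)).prod := by
        rw [hsmat]
        simp
      have h6 := ((mem_commutator_iff_of_prod_refl (QOdd m F) h2 s [u, v] hvs hg).mp h5).2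
      have h7 : ([u, v].map (fun v => QOdd m F v)).prod = j ν₀ := by
        simp [hQu, hQv]
      rw [h7] at h6
      obtain ⟨y, hy⟩ := h6
      have hy1 : σ (y * y) = y * y := by
        rw [← hy]
        exact (hj _).mpr ⟨_, rfl⟩
      have hy2 := fixed_sqrt_of_odd h2 σ hord hrodd y hy1
      obtain ⟨y₀, hy₀⟩ := (hj y).mp hy2
      apply hν₀
      refine ⟨y₀, ?_⟩
      apply j.injective
      rw [map_mul, hy₀, hy]
    have e1' := Subgroup.relIndex_mul_relIndex _ _ _ hTN hNP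
    rw [hidx] at e1'
    have hne1 : (Cfsg.Inn (Cfsg.POmega F (⇑(QOdd m F)))).relIndex N ≠ 1 := by
      intro h
      exact hcT ((Subgroup.relIndex_eq_one.mp h) hcN)
    have h2N : (Cfsg.Inn (Cfsg.POmega F (⇑(QOdd m F)))).relIndex N = 2 := by
      have hdvd : (Cfsg.Inn (Cfsg.POmega F (⇑(QOdd m F)))).relIndex N ∣ 2 := Dvd.intro _ e1'
      rcases (Nat.dvd_prime Nat.prime_two).mp hdvd with h | h
      · exact absurd h hne1
      · exact h
    rw [h2N] at e1'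
    omega
  · intro hr2
    subst hr2
    rw [splitClassCount_eq_relIndex _ _ hTP]
    have hsq : ∀ a : F₀, IsSquare (j a) := isSquare_of_emb_two hF hrf hf hF₀ h2₀ j
    have hA : ∀ s₀ : ↥(Cfsg.isometryGroup F₀ (⇑(QOdd m F₀))),
        ((s₀ : Matrix.GeneralLinearGroup (Unit ⊕ (Fin m ⊕ Fin m)) F₀) :
          Matrix (Unit ⊕ (Fin m ⊕ Fin m)) (Unit ⊕ (Fin m ⊕ Fin m)) F₀).det = 1 →
        cHom (⇑(QOdd m F)) (bcSim hc (inclO (QOdd m F₀) s₀))
          ∈ Cfsg.Inn (Cfsg.POmega F (⇑(QOdd m F))) := by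
      intro s₀ hdet
      obtain ⟨s, hs⟩ : ∃ s : ↥(Cfsg.isometryGroup F (⇑(QOdd m F))),
          s = ⟨Matrix.GeneralLinearGroup.map j s₀.1, bc_mem_iso hc s₀⟩ := ⟨_, rfl⟩
      have hs1 : bcSim hc (inclO (QOdd m F₀) s₀) = inclO (QOdd m F) s := by
        rw [hs]
        rfl
      have hs2 : s ∈ commutator ↥(Cfsg.isometryGroup F (⇑(QOdd m F))) := by
        apply bc_mem_commutator hc h2₀ hQ₀ hsq s₀ hdet s
        rw [hs]
        rfl
      rw [hs1, inn_eq]
      exact ⟨inclO (QOdd m F) s, ⟨s, hs2, rfl⟩, rfl⟩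
    have hB : ∀ g₀ : ↥(Cfsg.Geo.quadSimilarityGroup (⇑(QOdd m F₀))),
        cHom (⇑(QOdd m F)) (bcSim hc g₀) ∈ Cfsg.Inn (Cfsg.POmega F (⇑(QOdd m F))) := by
      intro g₀
      obtain ⟨l, s₀, rfl⟩ := exists_scal_mul_of_isSquare (QOdd m F₀) g₀
        (simMul_isSquare_odd (QOdd m F₀) hQ₀ hk g₀)
      rw [map_mul, bcSim_scalSim, map_mul, cHom_scalSim, one_mul]
      rcases det_eq_one_or (QOdd m F₀) h2₀ hQ₀ s₀ with hd | hd
      · exact hA s₀ hd
      · have hd' : (((negG (QOdd m F₀) * s₀ : ↥(Cfsg.isometryGroup F₀ (⇑(QOdd m F₀)))) :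
            Matrix.GeneralLinearGroup (Unit ⊕ (Fin m ⊕ Fin m)) F₀) :
            Matrix (Unit ⊕ (Fin m ⊕ Fin m)) (Unit ⊕ (Fin m ⊕ Fin m)) F₀).det = 1 := by
          rw [det_mul_iso, det_negG_odd (QOdd m F₀) hk, hd]
          ring
        have h4 := hA _ hd'
        rw [map_mul, inclO_negG, map_mul, bcSim_scalSim, map_mul, cHom_scalSim, one_mul] at h4
        exact h4
    have hle : Cfsg.pgoAut F (⇑(QOdd m F)) ⊓ Subgroup.centralizer {x}
        ≤ Cfsg.Inn (Cfsg.POmega F (⇑(QOdd m F))) := by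
      intro y hy
      have hy1 := conj_mem_inf_centralizer (Cfsg.pgoAut F (⇑(QOdd m F))) α x y hy
      obtain ⟨g₀, hg₀⟩ := hsurj _ hy1
      have h4 := hB g₀
      rw [hg₀] at h4
      have h5 := hKn.conj_mem _ h4 α⁻¹
      have e2 : α⁻¹ * (α * y * α⁻¹) * α⁻¹⁻¹ = y := by group
      rw [e2] at h5
      exact h5
    rw [sup_eq_left.mpr hle]
    exact hidx

set_option maxHeartbeats 1600000 in
theorem odd_field_cent {p f : ℕ} [Fact p.Prime] (hF : Fintype.card F = p ^ f) (hf : 1 ≤ f)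
    (hodd : Odd (Fintype.card F)) {m : ℕ} (hm : 3 ≤ m)
    (x : MulAut (Cfsg.POmega F (Cfsg.quadFormOdd m F)))
    (hx : Cfsg.IsFieldAutClassPOmega (Cfsg.quadFormOdd m F) x) {r : ℕ} (hr : r.Prime)
    (hxr : orderOf x = r) (F₀ : Type*) [Field F₀] [Fintype F₀]
    (hF₀ : Fintype.card F₀ = p ^ (f / r)) :
    r ∣ f ∧
    Nonempty (↥(Cfsg.pgoAut F (Cfsg.quadFormOdd m F) ⊓ Subgroup.centralizer {x})
      ≃* ↥(Cfsg.pgoAut F₀ (Cfsg.quadFormOdd m F₀))) ∧
    (Odd r → Cfsg.splitClassCount (Cfsg.pgoAut F (Cfsg.quadFormOdd m F))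
      (Cfsg.Inn (Cfsg.POmega F (Cfsg.quadFormOdd m F))) x = 1) ∧
    (r = 2 → Cfsg.splitClassCount (Cfsg.pgoAut F (Cfsg.quadFormOdd m F))
      (Cfsg.Inn (Cfsg.POmega F (Cfsg.quadFormOdd m F))) x = 2) := by
  have key := odd_field_cent_Q hF hf hodd hm x hx hr hxr F₀ hF₀
  obtain ⟨k1, k2, k3, k4⟩ := key
  refine ⟨k1, ?_, ?_, ?_⟩
  · exact k2
  · exact k3
  · exact k4

end

end Cfsg.Agent.H49
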