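import Mathlib
import Cfsg.Prelude.Def_Solvable

set_option autoImplicit false
set_option linter.unusedSectionVars false
set_option linter.unusedVariables false

/-! Helper lemmas (helper49): abstract facts on the `p'`-core of a centraliser. -/

namespace Cfsg.Agent.H49

section
variable {G : Type*} [Group G]

theorem pPrimeCore_ne_bot_iff (p : ℕ) :
    Cfsg.pPrimeCore p G ≠ ⊥ ↔ ∃ N : Subgroup G, N.Normal ∧ (Nat.card N).Coprime p ∧ N ≠ ⊥ := by
  constructor
  · intro h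
    by_contra hcon
    push Not at hcon
    apply h
    rw [Cfsg.pPrimeCore, eq_bot_iff]
    apply sSup_le
    rintro N ⟨hN, hc⟩
    rw [hcon N hN hc]
  · rintro ⟨N, hN, hc, hne⟩ h
    apply hne
    rw [eq_bot_iff, ← h]
    exact le_sSup ⟨hN, hc⟩

theorem pPrimeCore_ne_bot_congr {G₁ G₂ : Type*} [Group G₁] [Group G₂] (e : G₁ ≃* G₂) (p : ℕ) :
    Cfsg.pPrimeCore p G₁ ≠ ⊥ → Cfsg.pPrimeCore p G₂ ≠ ⊥ := by
  rw [pPrimeCore_ne_bot_iff, pPrimeCore_ne_bot_iff]
  rintro ⟨N, hN, hc, hne⟩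
  refine ⟨N.map e.toMonoidHom, ?_, ?_, ?_⟩
  · exact Subgroup.Normal.map hN e.toMonoidHom e.surjective
  · rw [Subgroup.card_map_of_injective e.injective]
    exact hc
  · intro h
    apply hne
    exact (Subgroup.map_eq_bot_iff_of_injective N e.injective).mp h

/-- Conjugation carries the centraliser of `x` in `A` to the centraliser of the conjugate in the
conjugate subgroup. -/
theorem exists_centInf_equiv (A : Subgroup G) (x h : G) :
    Nonempty (↥(A ⊓ Subgroup.centralizer {x}) ≃*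
      ↥(A.map (MulAut.conj h).toMonoidHom ⊓ Subgroup.centralizer {h * x * h⁻¹})) := by
  have e1 : (A ⊓ Subgroup.centralizer {x}).map (MulAut.conj h).toMonoidHom
      = A.map (MulAut.conj h).toMonoidHom ⊓ Subgroup.centralizer {h * x * h⁻¹} := by
    rw [Subgroup.map_inf_eq _ _ _ (MulAut.conj h).injective]
    congr 1
    ext y
    rw [Subgroup.mem_map_equiv, Subgroup.mem_centralizer_iff, Subgroup.mem_centralizer_iff]
    constructor
    · intro hy w hw
      rw [Set.mem_singleton_iff] at hw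
      have h1 := hy x rfl
      have e2 : (MulAut.conj h).symm y = h⁻¹ * y * h := by
        rw [MulAut.conj_symm_apply]
      rw [e2] at h1
      rw [hw]
      calc h * x * h⁻¹ * y = h * (x * (h⁻¹ * y * h)) * h⁻¹ := by group
        _ = h * ((h⁻¹ * y * h) * x) * h⁻¹ := by rw [h1]
        _ = y * (h * x * h⁻¹) := by group
    · intro hy w hw
      rw [Set.mem_singleton_iff] at hw
      have h1 := hy (h * x * h⁻¹) rfl
      have e2 : (MulAut.conj h).symm y = h⁻¹ * y * h := by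
        rw [MulAut.conj_symm_apply]
      rw [e2, hw]
      calc x * (h⁻¹ * y * h) = h⁻¹ * ((h * x * h⁻¹) * y) * h := by group
        _ = h⁻¹ * (y * (h * x * h⁻¹)) * h := by rw [h1]
        _ = h⁻¹ * y * h * x := by group
  exact ⟨((MulAut.conj h).subgroupMap (A ⊓ Subgroup.centralizer {x})).trans
    (MulEquiv.subgroupCongr e1)⟩

/-- A normal subgroup of a simple group's image. -/
theorem simple_range {K₀ : Type*} [Group K₀] [IsSimpleGroup K₀] (θ : K₀ →* G) (M : Subgroup G)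
    (hM : M ≤ θ.range) (hn : ∀ j ∈ θ.range, ∀ y ∈ M, j * y * j⁻¹ ∈ M) :
    M = ⊥ ∨ M = θ.range := by
  have hnorm : (M.comap θ).Normal := by
    constructor
    intro n hn' g
    rw [Subgroup.mem_comap] at hn' ⊢
    rw [map_mul, map_mul, map_inv]
    exact hn _ ⟨g, rfl⟩ _ hn'
  rcases hnorm.eq_bot_or_eq_top with h | h
  · left
    rw [eq_bot_iff]
    intro y hy
    obtain ⟨k, rfl⟩ := hM hy
    have hk : k ∈ M.comap θ := hy
    rw [h, Subgroup.mem_bot] at hk
    rw [hk, map_one]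
    exact Subgroup.mem_bot.mpr rfl
  · right
    apply le_antisymm hM
    rintro _ ⟨k, rfl⟩
    have hk : k ∈ M.comap θ := by rw [h]; exact Subgroup.mem_top k
    exact hk

theorem comm_conj_mem (C : Subgroup G) (n : G) (hn : ∀ c ∈ C, n * c * n⁻¹ ∈ C) (j : G)
    (hj : j ∈ ⁅C, C⁆) : n * j * n⁻¹ ∈ ⁅C, C⁆ := by
  have h1 : (⁅C, C⁆).map (MulAut.conj n).toMonoidHom ≤ ⁅C, C⁆ := by
    rw [Subgroup.map_commutator]
    apply Subgroup.commutator_mono <;>
    · rintro _ ⟨c, hc, rfl⟩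
      exact hn c hc
  exact h1 ⟨j, hj, rfl⟩

/-- The `p'`-core of the centraliser is trivial in the presence of a simple normal subgroup of
order divisible by `p` whose centraliser is generated by `x`. -/
theorem core_eq_bot_of_simple [Finite G] (A : Subgroup G) (x : G) (p : ℕ) [hp : Fact p.Prime]
    (hx : orderOf x = p) (J : Subgroup G)
    (hJA : J ≤ A ⊓ Subgroup.centralizer {x})
    (hJn : ∀ n ∈ Subgroup.centralizer ({x} : Set G), ∀ j ∈ J, n * j * n⁻¹ ∈ J)
    (hJs : ∀ M : Subgroup G, M ≤ J → (∀ j ∈ J, ∀ y ∈ M, j * y * j⁻¹ ∈ M) → M = ⊥ ∨ M = J)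
    (hpJ : p ∣ Nat.card J)
    (hJ4 : ∀ n ∈ Subgroup.centralizer ({x} : Set G), (∀ j ∈ J, n * j = j * n) →
      n ∈ Subgroup.zpowers x) :
    ¬ (Cfsg.pPrimeCore p ↥(A ⊓ Subgroup.centralizer {x}) ≠ ⊥) := by
  rw [pPrimeCore_ne_bot_iff]
  rintro ⟨N, hN, hc, hne⟩
  obtain ⟨L, hL⟩ : ∃ L : Subgroup G, L = A ⊓ Subgroup.centralizer {x} := ⟨_, rfl⟩
  obtain ⟨Nb, hNb⟩ : ∃ Nb : Subgroup G,
      Nb = N.map (A ⊓ Subgroup.centralizer {x}).subtype := ⟨_, rfl⟩
  have hNbL : Nb ≤ A ⊓ Subgroup.centralizer {x} := by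
    rw [hNb]
    rintro _ ⟨y, -, rfl⟩
    exact y.2
  have hcard : Nat.card Nb = Nat.card N := by
    rw [hNb]
    exact Subgroup.card_map_of_injective (Subgroup.subtype_injective _)
  have hNbn : ∀ a ∈ A ⊓ Subgroup.centralizer {x}, ∀ y ∈ Nb, a * y * a⁻¹ ∈ Nb := by
    intro a ha y hy
    rw [hNb] at hy ⊢
    obtain ⟨y', hy', rfl⟩ := hy
    exact ⟨⟨a, ha⟩ * y' * ⟨a, ha⟩⁻¹, hN.conj_mem y' hy' ⟨a, ha⟩, rfl⟩
  have hM := hJs (Nb ⊓ J) inf_le_right (by
    intro j hj y hy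
    exact ⟨hNbn j (hJA hj) y hy.1, J.mul_mem (J.mul_mem hj hy.2) (J.inv_mem hj)⟩)
  have hMbot : Nb ⊓ J = ⊥ := by
    rcases hM with h | h
    · exact h
    · exfalso
      have hJle : J ≤ Nb := by
        rw [← h]
        exact inf_le_left
      have hdvd : Nat.card J ∣ Nat.card Nb := Subgroup.card_dvd_of_le hJle
      have h1 : p ∣ Nat.card N := by
        rw [← hcard]
        exact hpJ.trans hdvd
      have h2 : p ∣ Nat.gcd (Nat.card N) p := Nat.dvd_gcd h1 dvd_rfl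
      rw [hc] at h2
      exact hp.out.one_lt.ne' (Nat.dvd_one.mp h2)
  have hNz : Nb ≤ Subgroup.zpowers x := by
    intro n hn
    have hnL := hNbL hn
    apply hJ4 n hnL.2
    intro j hj
    have hcomm : n * j * n⁻¹ * j⁻¹ ∈ Nb ⊓ J := by
      refine ⟨?_, ?_⟩
      · have h3 : n * (j * n⁻¹ * j⁻¹) ∈ Nb :=
          Nb.mul_mem hn (hNbn j (hJA hj) n⁻¹ (Nb.inv_mem hn))
        have e : n * j * n⁻¹ * j⁻¹ = n * (j * n⁻¹ * j⁻¹) := by group
        rw [e]
        exact h3
      · exact J.mul_mem (hJn n hnL.2 j hj) (J.inv_mem hj)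
    rw [hMbot, Subgroup.mem_bot] at hcomm
    calc n * j = (n * j * n⁻¹ * j⁻¹) * (j * n) := by group
      _ = j * n := by rw [hcomm, one_mul]
  have h1 : Nat.card Nb ∣ p := by
    have h3 := Subgroup.card_dvd_of_le hNz
    rw [Nat.card_zpowers, hx] at h3
    exact h3
  have h2 : Nat.card Nb = 1 := by
    have hcop : (Nat.card Nb).Coprime p := by
      rw [hcard]
      exact hc
    exact Nat.Coprime.eq_one_of_dvd hcop h1
  apply hne
  rw [hcard] at h2
  exact Subgroup.card_eq_one.mp h2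

/-- A non-trivial normal subgroup of order prime to `p` makes the `p'`-core non-trivial. -/
theorem core_ne_bot_of_normal (L H : Subgroup G) (p : ℕ) (hHL : H ≤ L)
    (hHn : ∀ a ∈ L, ∀ y ∈ H, a * y * a⁻¹ ∈ H) (hH : H ≠ ⊥) (hcop : (Nat.card H).Coprime p) :
    Cfsg.pPrimeCore p ↥L ≠ ⊥ := by
  rw [pPrimeCore_ne_bot_iff]
  refine ⟨H.subgroupOf L, ?_, ?_, ?_⟩
  · constructor
    intro n hn g
    rw [Subgroup.mem_subgroupOf] at hn ⊢
    exact hHn g g.2 n hn
  · rw [Nat.card_congr (Subgroup.subgroupOfEquivOfLe hHL).toEquiv]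
    exact hcop
  · intro h
    apply hH
    rw [Subgroup.subgroupOf_eq_bot] at h
    exact h.eq_bot_of_le hHL

end

end Cfsg.Agent.H49
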