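import Mathlib
import Cfsg.Agent.H49.FieldOdd2
import Cfsg.Agent.H49.PCore
import Cfsg.Agent.H49.SemiKer
import Cfsg.Agent.H49.Eich2
import Cfsg.Agent.H49.OmegaSimple
import Cfsg.Agent.H49.AutOut2

set_option autoImplicit false
set_option linter.unusedSectionVars false
set_option linter.unusedSimpArgs false
set_option linter.unusedVariables false

/-! Helper lemmas (helper49): the centraliser of a field automorphism of an orthogonal group,
local structure (the subfield subgroup, its normal closure properties, its centraliser). -/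

namespace Cfsg.Agent.H49

open Module Matrix GalDesc

section general
variable {G H : Type*} [Group G] [Group H]

/-- Restriction of a homomorphism to the commutator subgroups. -/
def mapComm (f : G →* H) : ↥(commutator G) →* ↥(commutator H) :=
  (f.comp (commutator G).subtype).codRestrict (commutator H) (by
    intro s
    have h1 : (commutator G).map f ≤ commutator H := by
      rw [commutator_def, Subgroup.map_commutator, commutator_def]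
      exact Subgroup.commutator_mono le_top le_top
    exact h1 ⟨s.1, s.2, rfl⟩)

theorem mapComm_coe (f : G →* H) (s : ↥(commutator G)) :
    ((mapComm f s : ↥(commutator H)) : H) = f s.1 := rfl

/-- Two homomorphisms from a perfect group that agree modulo the centre are equal. -/
theorem eq_of_mk_eq_of_perfect_homs (hperf : commutator G = ⊤) (e₁ e₂ : G →* H)
    (h : ∀ s : G, (e₂ s)⁻¹ * e₁ s ∈ Subgroup.center H) (s : G) : e₁ s = e₂ s := by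
  obtain ⟨ψ, hψ⟩ : ∃ ψ : G →* ↥(Subgroup.center H), ∀ s, (ψ s : H) = (e₂ s)⁻¹ * e₁ s := by
    refine ⟨MonoidHom.mk' (fun s => ⟨(e₂ s)⁻¹ * e₁ s, h s⟩) ?_, fun s => rfl⟩
    intro a b
    apply Subtype.ext
    show (e₂ (a * b))⁻¹ * e₁ (a * b) = ((e₂ a)⁻¹ * e₁ a) * ((e₂ b)⁻¹ * e₁ b)
    have hc := Subgroup.mem_center_iff.mp (h a) (e₂ b)⁻¹
    rw [map_mul, map_mul, _root_.mul_inv_rev]
    calc (e₂ b)⁻¹ * (e₂ a)⁻¹ * (e₁ a * e₁ b)
        = ((e₂ b)⁻¹ * ((e₂ a)⁻¹ * e₁ a)) * e₁ b := by group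
      _ = ((e₂ a)⁻¹ * e₁ a * (e₂ b)⁻¹) * e₁ b := by rw [hc]
      _ = (e₂ a)⁻¹ * e₁ a * ((e₂ b)⁻¹ * e₁ b) := by group
  have hk : commutator G ≤ ψ.ker := by
    apply commutator_le_ker_of_comm
    intro x y
    apply Subtype.ext
    rw [Subgroup.coe_mul, Subgroup.coe_mul]
    exact (Subgroup.mem_center_iff.mp (ψ x).2 (ψ y)).symm
  have hs : s ∈ ψ.ker := hk (by rw [hperf]; exact Subgroup.mem_top s)
  have h1 : (e₂ s)⁻¹ * e₁ s = 1 := by
    rw [← hψ]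
    exact congrArg Subtype.val (MonoidHom.mem_ker.mp hs)
  exact (inv_mul_eq_one.mp h1).symm

theorem conj_conj (α : MulAut G) (k : G) : α * MulAut.conj k * α⁻¹ = MulAut.conj (α k) := by
  apply MulEquiv.ext
  intro y
  simp [MulAut.conj_apply]

theorem conj_eq_one_of (hZ : Subgroup.center G = ⊥) (k : G) (h : MulAut.conj k = 1) : k = 1 := by
  have h1 : k ∈ Subgroup.center G := by
    rw [Subgroup.mem_center_iff]
    intro g
    have h2 := congrArg (fun a : MulAut G => a g) h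
    simp only [MulAut.conj_apply, MulAut.one_apply] at h2
    calc g * k = (k * g * k⁻¹) * k := by rw [h2]
      _ = k * g := by group
  rw [hZ, Subgroup.mem_bot] at h1
  exact h1

/-- In a group with trivial centre, the fixed points of an automorphism correspond to the inner
automorphisms commuting with it. -/
theorem card_fix_eq (hZ : Subgroup.center G = ⊥) (φ : MulAut G) :
    Nat.card ↥(MonoidHom.eqLocus φ.toMonoidHom (MonoidHom.id G))
      = Nat.card ↥(Cfsg.Inn G ⊓ Subgroup.centralizer {φ}) := by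
  obtain ⟨f, hf⟩ : ∃ f : ↥(MonoidHom.eqLocus φ.toMonoidHom (MonoidHom.id G)) →* MulAut G,
      f = (MulAut.conj).comp (Subgroup.subtype _) := ⟨_, rfl⟩
  have hinj : Function.Injective f := by
    rw [injective_iff_map_eq_one]
    intro k hk
    rw [hf] at hk
    apply Subtype.ext
    exact conj_eq_one_of hZ k.1 hk
  have hr : f.range = Cfsg.Inn G ⊓ Subgroup.centralizer {φ} := by
    ext y
    constructor
    · rintro ⟨k, rfl⟩
      rw [hf, Subgroup.mem_inf]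
      refine ⟨⟨k.1, rfl⟩, ?_⟩
      rw [Subgroup.mem_centralizer_iff]
      intro w hw
      rw [Set.mem_singleton_iff] at hw
      rw [hw]
      have h1 := conj_conj φ k.1
      have hk : φ k.1 = k.1 := k.2
      rw [hk] at h1
      exact mul_inv_eq_iff_eq_mul.mp h1
    · intro hy
      rw [Subgroup.mem_inf] at hy
      obtain ⟨⟨k, rfl⟩, hy⟩ := hy
      rw [Subgroup.mem_centralizer_iff] at hy
      have h1 := hy φ rfl
      have h2 := conj_conj φ k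
      rw [h1, mul_inv_cancel_right] at h2
      have h3 : MulAut.conj ((φ k)⁻¹ * k) = 1 := by
        rw [map_mul, map_inv, ← h2, inv_mul_cancel]
      have h4 := conj_eq_one_of hZ _ h3
      refine ⟨⟨k, ?_⟩, ?_⟩
      · show φ k = k
        exact inv_mul_eq_one.mp h4
      · rw [hf]
        rfl
  rw [← hr]
  exact Nat.card_congr (MonoidHom.ofInjective hinj).toEquiv

end general

section
variable {F : Type*} [Field F] [Fintype F]

/-- A field automorphism fixing the fixed field of `σ` pointwise is a power of `σ`. -/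
theorem mem_zpowers_of_fixes (σ τ : RingAut F) (h : ∀ a : F, σ a = a → τ a = a) :
    τ ∈ Subgroup.zpowers σ := by
  have : Finite (RingAut F) :=
    Finite.of_injective (fun τ : RingAut F => (τ : F → F)) DFunLike.coe_injective
  have hsurj := FixedPoints.toAlgAut_surjective (Subgroup.zpowers σ) F
  obtain ⟨e, he⟩ : ∃ e : F ≃ₐ[FixedPoints.subfield (Subgroup.zpowers σ) F] F,
      ∀ a, e a = τ a := by
    refine ⟨AlgEquiv.ofRingEquiv (f := τ) ?_, fun a => rfl⟩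
    rintro ⟨x, hx⟩
    exact h x ((mem_fixF σ x).mp hx)
  obtain ⟨g, hg⟩ := hsurj e
  have e1 : τ = g.1 := by
    apply RingEquiv.ext
    intro a
    rw [← he, ← hg]
    rfl
  rw [e1]
  exact g.2

end

section
variable {ι : Type} [Fintype ι] [DecidableEq ι] {F : Type*} [Field F]

/-- An inner automorphism of `PΩ` as the automorphism induced by the isometry. -/
theorem conj_mk_eq (Q : QuadraticForm F (ι → F)) (s : ↥(Cfsg.Omega F (⇑Q))) :
    MulAut.conj (QuotientGroup.mk s : Cfsg.POmega F (⇑Q)) = cHom (⇑Q) (inclO Q s.1) := by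
  rw [cHom_apply]
  apply MulEquiv.ext
  intro y
  obtain ⟨t, rfl⟩ := QuotientGroup.mk_surjective y
  rw [cAut_mk, MulAut.conj_apply]
  rfl

end

section
variable {ι : Type} [Fintype ι] [DecidableEq ι] {F₀ : Type*} {F : Type*} [Field F₀] [Field F]
  [Fintype F₀] [Fintype F]

/-- Base change of isometries, as a homomorphism. -/
def bcO {j : F₀ →+* F} {Q₀ : QuadraticForm F₀ (ι → F₀)} {Q : QuadraticForm F (ι → F)}
    (hc : FormCompat j Q₀ Q) :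
    ↥(Cfsg.isometryGroup F₀ (⇑Q₀)) →* ↥(Cfsg.isometryGroup F (⇑Q)) :=
  MonoidHom.mk' (fun s₀ => ⟨Matrix.GeneralLinearGroup.map j s₀.1, bc_mem_iso hc s₀⟩) (by
    intro a b
    apply Subtype.ext
    exact map_mul _ _ _)

theorem bcO_val {j : F₀ →+* F} {Q₀ : QuadraticForm F₀ (ι → F₀)} {Q : QuadraticForm F (ι → F)}
    (hc : FormCompat j Q₀ Q) (s₀ : ↥(Cfsg.isometryGroup F₀ (⇑Q₀))) :
    (((bcO hc s₀ : ↥(Cfsg.isometryGroup F (⇑Q))) : Matrix.GeneralLinearGroup ι F) :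
      Matrix ι ι F) = ((s₀ : Matrix.GeneralLinearGroup ι F₀) : Matrix ι ι F₀).map j := rfl

theorem inclO_bcO {j : F₀ →+* F} {Q₀ : QuadraticForm F₀ (ι → F₀)} {Q : QuadraticForm F (ι → F)}
    (hc : FormCompat j Q₀ Q) (s₀ : ↥(Cfsg.isometryGroup F₀ (⇑Q₀))) :
    inclO Q (bcO hc s₀) = bcSim hc (inclO Q₀ s₀) := rfl

/-- The automorphism of the big group induced by an isometry over the small field. -/
def betaO {j : F₀ →+* F} {Q₀ : QuadraticForm F₀ (ι → F₀)} {Q : QuadraticForm F (ι → F)}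
    (hc : FormCompat j Q₀ Q) :
    ↥(Cfsg.isometryGroup F₀ (⇑Q₀)) →* MulAut (Cfsg.POmega F (⇑Q)) :=
  (cHom (⇑Q)).comp ((inclO Q).comp (bcO hc))

theorem betaO_apply {j : F₀ →+* F} {Q₀ : QuadraticForm F₀ (ι → F₀)}
    {Q : QuadraticForm F (ι → F)} (hc : FormCompat j Q₀ Q)
    (s₀ : ↥(Cfsg.isometryGroup F₀ (⇑Q₀))) :
    betaO hc s₀ = cHom (⇑Q) (bcSim hc (inclO Q₀ s₀)) := rfl

theorem betaO_apply' {j : F₀ →+* F} {Q₀ : QuadraticForm F₀ (ι → F₀)}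
    {Q : QuadraticForm F (ι → F)} (hc : FormCompat j Q₀ Q)
    (s₀ : ↥(Cfsg.isometryGroup F₀ (⇑Q₀))) :
    betaO hc s₀ = cHom (⇑Q) (inclO Q (bcO hc s₀)) := rfl

/-- An isometry over the small field inducing the trivial automorphism there induces the
trivial automorphism of the big group. -/
theorem betaO_eq_one_of {j : F₀ →+* F} {Q₀ : QuadraticForm F₀ (ι → F₀)}
    {Q : QuadraticForm F (ι → F)} (hc : FormCompat j Q₀ Q)
    (hQ₀ : (QuadraticMap.polarBilin Q₀).Nondegenerate) (h3₀ : HasTS3 Q₀) (hne₀ : ∃ v, Q₀ v ≠ 0)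
    (s₀ : ↥(Cfsg.isometryGroup F₀ (⇑Q₀))) (h : cHom (⇑Q₀) (inclO Q₀ s₀) = 1) :
    betaO hc s₀ = 1 := by
  classical
  obtain ⟨l, hl⟩ := eq_scalSim_of_cHom_eq_one Q₀ hQ₀ h3₀ hne₀ _ h
  rw [betaO_apply, hl, bcSim_scalSim, cHom_scalSim]

/-- Elements of `Ω` over the small field induce inner automorphisms of the big group. -/
theorem betaO_omega {j : F₀ →+* F} {Q₀ : QuadraticForm F₀ (ι → F₀)}
    {Q : QuadraticForm F (ι → F)} (hc : FormCompat j Q₀ Q)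
    (ω₀ : ↥(Cfsg.Omega F₀ (⇑Q₀))) :
    betaO hc ω₀.1 = MulAut.conj (QuotientGroup.mk (mapComm (bcO hc) ω₀) : Cfsg.POmega F (⇑Q)) := by
  rw [conj_mk_eq, betaO_apply']
  rfl

end

section
variable {ι : Type} [Fintype ι] [DecidableEq ι] [Nonempty ι] {F₀ : Type*} {F : Type*} [Field F₀]
  [Field F]

theorem scal_of_map_scal (j : F₀ →+* F) (M : Matrix ι ι F₀) (l : F)
    (h : M.map j = l • (1 : Matrix ι ι F)) :
    ∃ l₀ : F₀, j l₀ = l ∧ M = l₀ • (1 : Matrix ι ι F₀) := by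
  obtain ⟨i₀⟩ := ‹Nonempty ι›
  have hd : ∀ i, j (M i i) = l := by
    intro i
    have h1 := congrFun (congrFun h i) i
    rw [Matrix.map_apply, Matrix.smul_apply, Matrix.one_apply_eq, smul_eq_mul, mul_one] at h1
    exact h1
  have ho : ∀ i k, i ≠ k → M i k = 0 := by
    intro i k hik
    have h1 := congrFun (congrFun h i) k
    rw [Matrix.map_apply, Matrix.smul_apply, Matrix.one_apply_ne hik, smul_zero] at h1
    exact (map_eq_zero j).mp h1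
  refine ⟨M i₀ i₀, hd i₀, ?_⟩
  ext i k
  by_cases hik : i = k
  · subst hik
    rw [Matrix.smul_apply, Matrix.one_apply_eq, smul_eq_mul, mul_one]
    exact j.injective ((hd i).trans (hd i₀).symm)
  · rw [Matrix.smul_apply, Matrix.one_apply_ne hik, smul_zero]
    exact ho i k hik

end

section
variable {ι : Type} [Fintype ι] [DecidableEq ι] [Nonempty ι] {F₀ : Type*} {F : Type*} [Field F₀]
  [Field F] [Fintype F₀] [Fintype F]
  {j : F₀ →+* F} {Q₀ : QuadraticForm F₀ (ι → F₀)} {Q : QuadraticForm F (ι → F)}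
  (hc : FormCompat j Q₀ Q)
  (hQ : (QuadraticMap.polarBilin Q).Nondegenerate) (h3 : HasTS3 Q) (hne : ∃ v, Q v ≠ 0)
  (hQ₀ : (QuadraticMap.polarBilin Q₀).Nondegenerate) (h3₀ : HasTS3 Q₀) (hne₀ : ∃ v, Q₀ v ≠ 0)
  (σ : RingAut F) {r : ℕ} (hr : orderOf σ = r) (hr0 : 0 < r)
  (hj : ∀ a : F, σ a = a ↔ ∃ a₀ : F₀, j a₀ = a)
  (hσQ : ∀ v : ι → F, Q (fun i => σ (v i)) = σ (Q v))
  (hp1 : Cfsg.IsSemisimilarityPair (⇑Q) (1 : Matrix.GeneralLinearGroup ι F) σ)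
  {φ : MulAut (Cfsg.POmega F (⇑Q))}
  (hi1 : Cfsg.IsInducedBySemilinearPOmega (⇑Q) (1 : Matrix.GeneralLinearGroup ι F) σ φ)
  {k : ℕ} (hk : Fintype.card ι = 2 * k + 1) (h2₀ : (2 : F₀) ≠ 0)

/-- The image of `Ω` over the small field in the automorphism group of the big group. -/
def JJ (hc : FormCompat j Q₀ Q) : Subgroup (MulAut (Cfsg.POmega F (⇑Q))) :=
  (commutator ↥(Cfsg.isometryGroup F₀ (⇑Q₀))).map (betaO hc)

theorem JJ_le_inn : JJ hc ≤ Cfsg.Inn (Cfsg.POmega F (⇑Q)) := by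
  rintro _ ⟨s, hs, rfl⟩
  have h1 := betaO_omega hc ⟨s, hs⟩
  exact ⟨_, h1.symm⟩

include hj hp1 hi1 in
theorem JJ_le_cent : JJ hc ≤ Subgroup.centralizer {φ} := by
  rintro _ ⟨s, hs, rfl⟩
  exact (Subgroup.mem_inf.mp (bc_mem_cent hc σ hj hp1 hi1 (inclO Q₀ s))).2

include hQ h3 hne hQ₀ h3₀ hne₀ hr hr0 hj hσQ hp1 hi1 hk in
theorem cent_eq_range :
    Cfsg.pgoAut F (⇑Q) ⊓ Subgroup.centralizer {φ} = (betaO hc).range := by
  classical
  apply le_antisymm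
  · intro y hy
    obtain ⟨hsurj, -⟩ := cent_phi_equiv hc hQ h3 hne hQ₀ h3₀ hne₀ σ hr hr0 hj hσQ hp1 hi1
    obtain ⟨g₀, hg₀⟩ := hsurj y hy
    obtain ⟨l, s₀, rfl⟩ := exists_scal_mul_of_isSquare Q₀ g₀ (simMul_isSquare_odd Q₀ hQ₀ hk g₀)
    refine ⟨s₀, ?_⟩
    rw [← hg₀, map_mul, bcSim_scalSim, map_mul, cHom_scalSim, one_mul]
    rfl
  · rintro _ ⟨s₀, rfl⟩
    exact bc_mem_cent hc σ hj hp1 hi1 (inclO Q₀ s₀)

include hQ h3 hne hQ₀ h3₀ hne₀ hr hr0 hj hσQ hp1 hi1 hk in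
theorem JJ_eq_comm :
    JJ hc = ⁅Cfsg.pgoAut F (⇑Q) ⊓ Subgroup.centralizer {φ},
      Cfsg.pgoAut F (⇑Q) ⊓ Subgroup.centralizer {φ}⁆ := by
  rw [cent_eq_range hc hQ h3 hne hQ₀ h3₀ hne₀ σ hr hr0 hj hσQ hp1 hi1 hk,
    MonoidHom.range_eq_map, ← Subgroup.map_commutator, ← commutator_def]
  rfl

include hQ h3 hne hQ₀ h3₀ hne₀ hr hr0 hj hσQ hp1 hi1 hk in
theorem JJ_conj_mem
    (htop : ∀ β : MulAut (Cfsg.POmega F (⇑Q)), β ∈ Cfsg.gammaPOmega F (⇑Q))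
    (n : MulAut (Cfsg.POmega F (⇑Q))) (hn : n ∈ Subgroup.centralizer {φ})
    (y : MulAut (Cfsg.POmega F (⇑Q))) (hy : y ∈ JJ hc) : n * y * n⁻¹ ∈ JJ hc := by
  rw [JJ_eq_comm hc hQ h3 hne hQ₀ h3₀ hne₀ σ hr hr0 hj hσQ hp1 hi1 hk] at hy ⊢
  apply comm_conj_mem _ n _ y hy
  intro c hc'
  rw [Subgroup.mem_inf] at hc' ⊢
  exact ⟨pgoAut_conj_mem Q hQ h3 htop n c hc'.1,
    Subgroup.mul_mem _ (Subgroup.mul_mem _ hn hc'.2) (Subgroup.inv_mem _ hn)⟩

include hQ₀ h3₀ hne₀ in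
theorem JJ_simple (M : Subgroup (MulAut (Cfsg.POmega F (⇑Q)))) (hM : M ≤ JJ hc)
    (hn : ∀ y ∈ JJ hc, ∀ z ∈ M, y * z * y⁻¹ ∈ M) : M = ⊥ ∨ M = JJ hc := by
  classical
  have hker : Subgroup.center ↥(Cfsg.Omega F₀ (⇑Q₀))
      ≤ ((betaO hc).comp (Subgroup.subtype _)).ker := by
    intro z hz
    rw [MonoidHom.mem_ker]
    show betaO hc z.1 = 1
    apply betaO_eq_one_of hc hQ₀ h3₀ hne₀
    rw [← conj_mk_eq Q₀ z]
    have e : (QuotientGroup.mk z : Cfsg.POmega F₀ (⇑Q₀)) = 1 :=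
      (QuotientGroup.eq_one_iff z).mpr hz
    rw [e, map_one]
  obtain ⟨θ, hθ⟩ : ∃ θ : Cfsg.POmega F₀ (⇑Q₀) →* MulAut (Cfsg.POmega F (⇑Q)),
      ∀ ω : ↥(Cfsg.Omega F₀ (⇑Q₀)), θ (QuotientGroup.mk ω) = betaO hc ω.1 :=
    ⟨QuotientGroup.lift _ _ hker, fun ω => rfl⟩
  have hrange : θ.range = JJ hc := by
    ext y
    constructor
    · rintro ⟨k, rfl⟩
      obtain ⟨ω, rfl⟩ := QuotientGroup.mk_surjective k
      rw [hθ]
      exact ⟨ω.1, ω.2, rfl⟩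
    · rintro ⟨s, hs, rfl⟩
      exact ⟨QuotientGroup.mk ⟨s, hs⟩, hθ ⟨s, hs⟩⟩
  have hsimple : IsSimpleGroup (Cfsg.POmega F₀ (⇑Q₀)) := pOmega_simple Q₀ hQ₀ h3₀
  rw [← hrange] at hM hn ⊢
  exact simple_range θ M hM hn

include hQ h3 hne hQ₀ h3₀ hne₀ hr hr0 hj hσQ hp1 hi1 hk h2₀ in
theorem sq_mem_JJ (y : MulAut (Cfsg.POmega F (⇑Q)))
    (hy : y ∈ Cfsg.pgoAut F (⇑Q) ⊓ Subgroup.centralizer {φ}) : y * y ∈ JJ hc := by
  rw [cent_eq_range hc hQ h3 hne hQ₀ h3₀ hne₀ σ hr hr0 hj hσQ hp1 hi1 hk] at hy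
  obtain ⟨s₀, rfl⟩ := hy
  rw [← map_mul]
  exact ⟨s₀ * s₀, sq_mem_commutator (reflSet Q₀) (reflSet_invol Q₀)
    (closure_reflSet_eq_top Q₀ h2₀ hQ₀) s₀, rfl⟩

include hQ h3 hne hQ₀ h3₀ hne₀ hr hr0 hj hσQ hp1 hi1 hk h2₀ in
theorem dvd_card_JJ {p : ℕ} [Fact p.Prime] (hp2 : p ≠ 2)
    (hdvd : p ∣ Nat.card ↥(Cfsg.Inn (Cfsg.POmega F (⇑Q)) ⊓ Subgroup.centralizer {φ})) :
    p ∣ Nat.card ↥(JJ hc) := by
  classical
  have hfin : Finite (MulAut (Cfsg.POmega F (⇑Q))) := inferInstance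
  obtain ⟨y, hy⟩ := exists_prime_orderOf_dvd_card' p hdvd
  have hyC : y.1 ∈ Cfsg.pgoAut F (⇑Q) ⊓ Subgroup.centralizer {φ} :=
    ⟨inn_le_pgoAut _ y.2.1, y.2.2⟩
  have hsq := sq_mem_JJ hc hQ h3 hne hQ₀ h3₀ hne₀ σ hr hr0 hj hσQ hp1 hi1 hk h2₀ y.1 hyC
  have hodd : Odd p := (Fact.out : p.Prime).odd_of_ne_two hp2
  obtain ⟨t, ht⟩ := hodd
  have hyo : orderOf y.1 = p := by
    rw [Subgroup.orderOf_coe]
    exact hy
  have hpow : y.1 ^ p = 1 := by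
    rw [← hyo]
    exact pow_orderOf_eq_one _
  have hmem : y.1 ∈ JJ hc := by
    have e : y.1 = (y.1 * y.1) ^ (t + 1) := by
      rw [← pow_two, ← pow_mul]
      have e2 : 2 * (t + 1) = p + 1 := by omega
      rw [e2, pow_succ, hpow, one_mul]
    rw [e]
    exact Subgroup.pow_mem _ hsq _
  have h1 : orderOf (⟨y.1, hmem⟩ : ↥(JJ hc)) = p := by
    rw [← Subgroup.orderOf_coe]
    exact hyo
  rw [← h1]
  exact orderOf_dvd_natCard _

include hQ h3 hne hQ₀ h3₀ hne₀ hr hr0 hj hσQ hp1 hi1 hk in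
/-- An inner-diagonal automorphism commuting with `φ` and centralising the subfield subgroup is
trivial. -/
theorem eq_one_of_centralizes (y : MulAut (Cfsg.POmega F (⇑Q)))
    (hy : y ∈ Cfsg.pgoAut F (⇑Q) ⊓ Subgroup.centralizer {φ})
    (hcomm : ∀ z ∈ JJ hc, y * z = z * y) : y = 1 := by
  classical
  rw [cent_eq_range hc hQ h3 hne hQ₀ h3₀ hne₀ σ hr hr0 hj hσQ hp1 hi1 hk] at hy
  obtain ⟨s₀, rfl⟩ := hy
  apply betaO_eq_one_of hc hQ₀ h3₀ hne₀
  have hZ := pOmega_center Q₀ hQ₀ h3₀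
  apply MulEquiv.ext
  intro k
  obtain ⟨ω, rfl⟩ := QuotientGroup.mk_surjective k
  rw [MulAut.one_apply]
  have h1 : betaO hc (s₀ * ω.1 * s₀⁻¹ * ω.1⁻¹) = 1 := by
    rw [map_mul, map_mul, map_mul, map_inv, map_inv, hcomm _ ⟨ω.1, ω.2, rfl⟩]
    group
  rw [betaO_apply] at h1
  obtain ⟨l, hl⟩ := eq_scalSim_of_cHom_eq_one Q hQ h3 hne _ h1
  have hmat : (((s₀ * ω.1 * s₀⁻¹ * ω.1⁻¹ : ↥(Cfsg.isometryGroup F₀ (⇑Q₀))) :
      Matrix.GeneralLinearGroup ι F₀) : Matrix ι ι F₀).map j = (l : F) • (1 : Matrix ι ι F) := by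
    have h4 := congrArg (fun g : ↥(Cfsg.Geo.quadSimilarityGroup (⇑Q)) =>
      ((g : Matrix.GeneralLinearGroup ι F) : Matrix ι ι F)) hl
    rw [bcSim_val, scalSim_coe, scalGL_coe] at h4
    exact h4
  obtain ⟨l₀, hjl, hl₀⟩ := scal_of_map_scal j _ (l : F) hmat
  have hl₀0 : l₀ ≠ 0 := by
    rintro rfl
    rw [map_zero] at hjl
    exact l.ne_zero hjl.symm
  have e1 : inclO Q₀ (s₀ * ω.1 * s₀⁻¹ * ω.1⁻¹) = scalSim Q₀ (Units.mk0 l₀ hl₀0) := by
    apply Subtype.ext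
    apply Units.ext
    rw [scalSim_coe, scalGL_coe]
    exact hl₀
  have h2 : cHom (⇑Q₀) (inclO Q₀ (s₀ * ω.1 * s₀⁻¹ * ω.1⁻¹)) = 1 := by
    rw [e1, cHom_scalSim]
  rw [map_mul, map_mul, map_mul, map_mul, map_mul, map_mul, map_inv, map_inv, map_inv, map_inv,
    ← conj_mk_eq Q₀ ω] at h2
  have h3' : cHom (⇑Q₀) (inclO Q₀ s₀) * MulAut.conj (QuotientGroup.mk ω : Cfsg.POmega F₀ (⇑Q₀))
      * (cHom (⇑Q₀) (inclO Q₀ s₀))⁻¹ = MulAut.conj (QuotientGroup.mk ω : Cfsg.POmega F₀ (⇑Q₀)) :=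
    mul_inv_eq_one.mp h2
  rw [conj_conj] at h3'
  have h4 : MulAut.conj ((QuotientGroup.mk ω : Cfsg.POmega F₀ (⇑Q₀))⁻¹
      * (cHom (⇑Q₀) (inclO Q₀ s₀)) (QuotientGroup.mk ω)) = 1 := by
    rw [map_mul, map_inv, h3', inv_mul_cancel]
  have h5 := conj_eq_one_of hZ _ h4
  exact (inv_mul_eq_one.mp h5).symm

end

section
variable {ι : Type} [Fintype ι] [DecidableEq ι] {F₀ : Type*} {F : Type*} [Field F₀] [Field F]

/-- Base change of a Siegel transformation. -/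
theorem bc_siegelMatrix {j : F₀ →+* F} {Q₀ : QuadraticForm F₀ (ι → F₀)}
    {Q : QuadraticForm F (ι → F)} (hc : FormCompat j Q₀ Q) (u v : ι → F₀) (c : F₀) :
    (Cfsg.siegelMatrix (⇑Q₀) u v c).map j
      = Cfsg.siegelMatrix (⇑Q) (fun i => j (u i)) (fun i => j (v i)) (j c) := by
  ext i k
  have e1 : ∀ w : ι → F₀, Cfsg.polarVec (⇑Q) (fun i => j (w i)) k
      = j (Cfsg.polarVec (⇑Q₀) w k) := by
    intro w
    unfold Cfsg.polarVec
    rw [← coe_single_hom j k, hc.polar]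
  simp only [Cfsg.siegelMatrix, Matrix.map_apply, Matrix.add_apply, Matrix.sub_apply,
    Matrix.smul_apply, Matrix.vecMulVec_apply, smul_eq_mul, map_add, map_sub, map_mul, e1,
    Matrix.one_apply]
  split_ifs <;> simp

end

section
variable {ι : Type} [Fintype ι] [DecidableEq ι] [Nonempty ι] {F₀ : Type*} {F : Type*} [Field F₀]
  [Field F] [Fintype F₀] [Fintype F]
  {j : F₀ →+* F} {Q₀ : QuadraticForm F₀ (ι → F₀)} {Q : QuadraticForm F (ι → F)}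
  (hc : FormCompat j Q₀ Q)
  (hQ : (QuadraticMap.polarBilin Q).Nondegenerate) (h3 : HasTS3 Q) (hne : ∃ v, Q v ≠ 0)
  (hQ₀ : (QuadraticMap.polarBilin Q₀).Nondegenerate) (h3₀ : HasTS3 Q₀) (hne₀ : ∃ v, Q₀ v ≠ 0)
  (σ : RingAut F) {r : ℕ} (hr : orderOf σ = r) (hr0 : 0 < r)
  (hj : ∀ a : F, σ a = a ↔ ∃ a₀ : F₀, j a₀ = a)
  (hσQ : ∀ v : ι → F, Q (fun i => σ (v i)) = σ (Q v))
  (hp1 : Cfsg.IsSemisimilarityPair (⇑Q) (1 : Matrix.GeneralLinearGroup ι F) σ)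
  {φ : MulAut (Cfsg.POmega F (⇑Q))}
  (hi1 : Cfsg.IsInducedBySemilinearPOmega (⇑Q) (1 : Matrix.GeneralLinearGroup ι F) σ φ)
  {k : ℕ} (hk : Fintype.card ι = 2 * k + 1) (h2₀ : (2 : F₀) ≠ 0)

include hQ h3 hQ₀ h3₀ in
/-- A semisimilarity whose automorphism centralises the subfield subgroup intertwines the
base-changed elements of `Ω` of the small field. -/
theorem semi_commute_of_centralizes
    (g : Matrix.GeneralLinearGroup ι F) (τ : F ≃+* F)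
    (hp : Cfsg.IsSemisimilarityPair (⇑Q) g τ) {n : MulAut (Cfsg.POmega F (⇑Q))}
    (hi : Cfsg.IsInducedBySemilinearPOmega (⇑Q) g τ n)
    (hcomm : ∀ z ∈ JJ hc, n * z = z * n)
    (s₀ : ↥(Cfsg.isometryGroup F₀ (⇑Q₀)))
    (hs₀ : s₀ ∈ commutator ↥(Cfsg.isometryGroup F₀ (⇑Q₀))) :
    (g : Matrix ι ι F)
        * (((s₀ : Matrix.GeneralLinearGroup ι F₀) : Matrix ι ι F₀).map j).map τ
      = ((s₀ : Matrix.GeneralLinearGroup ι F₀) : Matrix ι ι F₀).map j * (g : Matrix ι ι F) := by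
  classical
  have hZ := pOmega_center Q hQ h3
  have hfix : ∀ ω₀ : ↥(Cfsg.Omega F₀ (⇑Q₀)),
      ((semiConjOmega (⇑Q) g τ hp).comp (mapComm (bcO hc))) ω₀ = mapComm (bcO hc) ω₀ := by
    apply eq_of_mk_eq_of_perfect_homs (omega_perfect Q₀ hQ₀ h3₀)
    intro ω₀
    have h1 := induced_semiConj hp hi (mapComm (bcO hc) ω₀)
    have hz : betaO hc ω₀.1 ∈ JJ hc := ⟨ω₀.1, ω₀.2, rfl⟩
    have h2 := hcomm _ hz
    rw [betaO_omega] at h2
    have h3' : n * MulAut.conj (QuotientGroup.mk (mapComm (bcO hc) ω₀) : Cfsg.POmega F (⇑Q))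
        * n⁻¹ = MulAut.conj (QuotientGroup.mk (mapComm (bcO hc) ω₀) : Cfsg.POmega F (⇑Q)) := by
      rw [h2, mul_inv_cancel_right]
    rw [conj_conj] at h3'
    have h4 : MulAut.conj ((QuotientGroup.mk (mapComm (bcO hc) ω₀) : Cfsg.POmega F (⇑Q))⁻¹
        * n (QuotientGroup.mk (mapComm (bcO hc) ω₀))) = 1 := by
      rw [map_mul, map_inv, h3', inv_mul_cancel]
    have h5 := conj_eq_one_of hZ _ h4
    have h6 : (QuotientGroup.mk (mapComm (bcO hc) ω₀) : Cfsg.POmega F (⇑Q))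
        = QuotientGroup.mk (semiConjOmega (⇑Q) g τ hp (mapComm (bcO hc) ω₀)) := by
      rw [← h1]
      exact inv_mul_eq_one.mp h5
    exact QuotientGroup.eq.mp h6
  have h1 := hfix ⟨s₀, hs₀⟩
  have h2 : g * Matrix.GeneralLinearGroup.map (τ : F →+* F) (bcO hc s₀).1 * g⁻¹
      = (bcO hc s₀).1 :=
    congrArg (fun s : ↥(Cfsg.Omega F (⇑Q)) =>
      ((s : ↥(Cfsg.isometryGroup F (⇑Q))) : Matrix.GeneralLinearGroup ι F)) h1
  have h4 : g * Matrix.GeneralLinearGroup.map (τ : F →+* F) (bcO hc s₀).1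
      = (bcO hc s₀).1 * g := mul_inv_eq_iff_eq_mul.mp h2
  have h5 := congrArg (fun x : Matrix.GeneralLinearGroup ι F => (x : Matrix ι ι F)) h4
  simp only [Units.val_mul, glMap_val] at h5
  exact h5

include hQ h3 hne hQ₀ h3₀ hne₀ hr hr0 hj hσQ hp1 hi1 hk in
/-- An automorphism commuting with `φ` and centralising the subfield subgroup is a power of
`φ`. -/
theorem mem_zpowers_of_centralizes
    (htop : ∀ β : MulAut (Cfsg.POmega F (⇑Q)), β ∈ Cfsg.gammaPOmega F (⇑Q))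
    (u₀ v₀ x₀ : ι → F₀) (hu₀ : Q₀ u₀ = 0) (hv₀ : Q₀ v₀ = 0)
    (huv₀ : QuadraticMap.polar (⇑Q₀) u₀ v₀ = 0) (hux : QuadraticMap.polar (⇑Q₀) u₀ x₀ = 1)
    (hvx : QuadraticMap.polar (⇑Q₀) v₀ x₀ = 0) (hv0 : v₀ ≠ 0)
    (n : MulAut (Cfsg.POmega F (⇑Q))) (hn : n ∈ Subgroup.centralizer {φ})
    (hcomm : ∀ z ∈ JJ hc, n * z = z * n) : n ∈ Subgroup.zpowers φ := by
  classical
  obtain ⟨Ψ, hΨ⟩ := exists_sigHom Q hQ h3 htop
  have hker := sigHom_ker Q htop Ψ hΨ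
  obtain ⟨g, τ, hp, hi⟩ := exists_pair_of_mem_gamma (⇑Q) n (htop n)
  have hΨn : Ψ n = τ := hΨ n g τ hp hi
  have hΨφ : Ψ φ = σ := hΨ φ 1 σ hp1 hi1
  obtain ⟨u, hu⟩ : ∃ u : ι → F, u = fun i => j (u₀ i) := ⟨_, rfl⟩
  obtain ⟨v, hv⟩ : ∃ v : ι → F, v = fun i => j (v₀ i) := ⟨_, rfl⟩
  obtain ⟨x, hx⟩ : ∃ x : ι → F, x = fun i => j (x₀ i) := ⟨_, rfl⟩
  have hpux : QuadraticMap.polar (⇑Q) u x = 1 := by rw [hu, hx, hc.polar, hux, map_one]
  have hpvx : QuadraticMap.polar (⇑Q) v x = 0 := by rw [hv, hx, hc.polar, hvx, map_zero]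
  obtain ⟨Tx, hTx⟩ : ∃ Tx : ι → F, Tx = (g : Matrix ι ι F) *ᵥ (fun i => τ (x i)) := ⟨_, rfl⟩
  obtain ⟨Tv, hTv⟩ : ∃ Tv : ι → F, Tv = (g : Matrix ι ι F) *ᵥ (fun i => τ (v i)) := ⟨_, rfl⟩
  obtain ⟨W, hW⟩ : ∃ W : ι → F, W = QuadraticMap.polar (⇑Q) u Tx • v
      - QuadraticMap.polar (⇑Q) v Tx • u := ⟨_, rfl⟩
  have hTv0 : Tv ≠ 0 := by
    intro h0
    rw [hTv] at h0
    have h1 := gl_mulVec_eq_zero g _ h0
    apply hv0
    funext i
    have h2 := congrFun h1 i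
    rw [hv] at h2
    simp only [Pi.zero_apply] at h2 ⊢
    exact (map_eq_zero j).mp ((map_eq_zero_iff τ τ.injective).mp h2)
  have hmain : ∀ c : F₀, τ (j c) • Tv = j c • W := by
    intro c
    have h1 := semi_commute_of_centralizes hc hQ h3 hQ₀ h3₀ g τ hp hi hcomm
      (siegelG Q₀ u₀ v₀ hu₀ hv₀ huv₀ c) (siegelG_mem_commutator Q₀ hQ₀ h3₀ u₀ v₀ hu₀ hv₀ huv₀ c)
    rw [siegelG_coe, bc_siegelMatrix hc, ← hu, ← hv] at h1
    have h2 := congrArg (fun M : Matrix ι ι F => M *ᵥ (fun i => τ (x i))) h1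
    rw [← Matrix.mulVec_mulVec, ← Matrix.mulVec_mulVec, sigma_mulVec, siegelMatrix_mulVec,
      siegelMatrix_mulVec, hpux, hpvx, one_smul, zero_smul, sub_zero, ← hTx, ← hW] at h2
    have e1 : (fun i => τ ((x + j c • v) i)) = (fun i => τ (x i)) + τ (j c) • (fun i => τ (v i)) := by
      funext i
      simp
    rw [e1, Matrix.mulVec_add, Matrix.mulVec_smul, ← hTx, ← hTv] at h2
    exact add_left_cancel h2
  have hW1 : Tv = W := by
    have h1 := hmain 1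
    rw [map_one, map_one, one_smul, one_smul] at h1
    exact h1
  have key : ∀ a : F, σ a = a → τ a = a := by
    intro a ha
    obtain ⟨c, rfl⟩ := (hj a).mp ha
    have h1 := hmain c
    rw [← hW1] at h1
    have h2 : (τ (j c) - j c) • Tv = 0 := by rw [sub_smul, h1, sub_self]
    rcases smul_eq_zero.mp h2 with h | h
    · exact sub_eq_zero.mp h
    · exact absurd h hTv0
  have hτ : τ ∈ Subgroup.zpowers σ := mem_zpowers_of_fixes σ τ key
  obtain ⟨i, hi'⟩ := Subgroup.mem_zpowers_iff.mp hτ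
  have hφc : φ ∈ Subgroup.centralizer ({φ} : Set (MulAut (Cfsg.POmega F (⇑Q)))) := by
    rw [Subgroup.mem_centralizer_iff]
    intro w hw
    rw [Set.mem_singleton_iff] at hw
    rw [hw]
  have hn' : n * (φ ^ i)⁻¹ ∈ Cfsg.pgoAut F (⇑Q) ⊓ Subgroup.centralizer {φ} := by
    rw [Subgroup.mem_inf]
    refine ⟨?_, Subgroup.mul_mem _ hn (Subgroup.inv_mem _ (Subgroup.zpow_mem _ hφc i))⟩
    rw [← hker, MonoidHom.mem_ker, map_mul, map_inv, map_zpow, hΨn, hΨφ, hi', mul_inv_cancel]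
  have hcomm' : ∀ z ∈ JJ hc, n * (φ ^ i)⁻¹ * z = z * (n * (φ ^ i)⁻¹) := by
    intro z hz
    have c1 : Commute n z := hcomm z hz
    have hzc := JJ_le_cent hc σ hj hp1 hi1 hz
    rw [Subgroup.mem_centralizer_iff] at hzc
    have c2 : Commute φ z := hzc φ rfl
    exact c1.mul_left (c2.zpow_left i).inv_left
  have h1 := eq_one_of_centralizes hc hQ h3 hne hQ₀ h3₀ hne₀ σ hr hr0 hj hσQ hp1 hi1 hk _ hn'
    hcomm'
  have h2 : n = φ ^ i := mul_inv_eq_one.mp h1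
  rw [h2]
  exact Subgroup.zpow_mem_zpowers φ i

end

end Cfsg.Agent.H49
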