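import Mathlib
import Cfsg.Agent.H49.FieldLoc

set_option autoImplicit false
set_option linter.unusedSectionVars false
set_option linter.unusedSimpArgs false
set_option linter.unusedVariables false

/-! Helper lemmas (helper49): the `p'`-core of the centraliser of a field automorphism in an
almost simple group with socle an odd-dimensional orthogonal group. -/

namespace Cfsg.Agent.H49

open Module Matrix GalDesc

section
variable {F₀ : Type*} [Field F₀]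

theorem exists_invol_vectors (m : ℕ) (hm : 2 ≤ m) :
    ∃ u v w : Unit ⊕ (Fin m ⊕ Fin m) → F₀, QOdd m F₀ u = 1 ∧ QOdd m F₀ v = 1 ∧
      QuadraticMap.polar (⇑(QOdd m F₀)) u v = 0 ∧ QuadraticMap.polar (⇑(QOdd m F₀)) u w = 0 ∧
      QuadraticMap.polar (⇑(QOdd m F₀)) v w = 0 ∧ w ≠ 0 := by
  classical
  refine ⟨Sum.elim (fun _ => 1) (fun _ => 0),
    Sum.elim (fun _ => 0) (Sum.elim (fun i => if i = ⟨0, by omega⟩ then 1 else 0)
      (fun i => if i = ⟨0, by omega⟩ then 1 else 0)),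
    Sum.elim (fun _ => 0) (Sum.elim (fun i => if i = ⟨1, by omega⟩ then 1 else 0) (fun _ => 0)),
    ?_, ?_, ?_, ?_, ?_, ?_⟩
  · rw [QOdd_apply]
    simp
  · rw [QOdd_apply]
    simp
  · rw [polar_QOdd]
    simp
  · rw [polar_QOdd]
    simp
  · rw [polar_QOdd]
    simp
  · intro h
    have h1 := congrFun h (Sum.inr (Sum.inl ⟨1, by omega⟩))
    simp at h1

theorem exists_siegel_vectors (m : ℕ) (hm : 2 ≤ m) :
    ∃ u v x : Unit ⊕ (Fin m ⊕ Fin m) → F₀, QOdd m F₀ u = 0 ∧ QOdd m F₀ v = 0 ∧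
      QuadraticMap.polar (⇑(QOdd m F₀)) u v = 0 ∧ QuadraticMap.polar (⇑(QOdd m F₀)) u x = 1 ∧
      QuadraticMap.polar (⇑(QOdd m F₀)) v x = 0 ∧ v ≠ 0 := by
  classical
  refine ⟨Sum.elim (fun _ => 0) (Sum.elim (fun i => if i = ⟨0, by omega⟩ then 1 else 0)
      (fun _ => 0)),
    Sum.elim (fun _ => 0) (Sum.elim (fun i => if i = ⟨1, by omega⟩ then 1 else 0) (fun _ => 0)),
    Sum.elim (fun _ => 0) (Sum.elim (fun _ => 0) (fun i => if i = ⟨0, by omega⟩ then 1 else 0)),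
    ?_, ?_, ?_, ?_, ?_, ?_⟩
  · rw [QOdd_apply]
    simp
  · rw [QOdd_apply]
    simp
  · rw [polar_QOdd]
    simp
  · rw [polar_QOdd]
    simp
  · rw [polar_QOdd]
    simp
  · intro h
    have h1 := congrFun h (Sum.inr (Sum.inl ⟨1, by omega⟩))
    simp at h1

end

section
variable {ι : Type} [Fintype ι] [DecidableEq ι] [Nonempty ι] {F₀ : Type*} {F : Type*} [Field F₀]
  [Field F] [Fintype F₀] [Fintype F]
  {j : F₀ →+* F} {Q₀ : QuadraticForm F₀ (ι → F₀)} {Q : QuadraticForm F (ι → F)}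
  (hc : FormCompat j Q₀ Q)
  (hQ : (QuadraticMap.polarBilin Q).Nondegenerate) (h3 : HasTS3 Q) (hne : ∃ v, Q v ≠ 0)
  (h2₀ : (2 : F₀) ≠ 0)

include hQ h3 hne h2₀ in
/-- An involution in the subfield subgroup. -/
theorem exists_invol_JJ (u v w : ι → F₀) (hu : Q₀ u = 1) (hv : Q₀ v = 1)
    (huv : QuadraticMap.polar (⇑Q₀) u v = 0) (huw : QuadraticMap.polar (⇑Q₀) u w = 0)
    (hvw : QuadraticMap.polar (⇑Q₀) v w = 0) (hw : w ≠ 0) :
    ∃ y ∈ JJ hc, y ≠ 1 ∧ y * y = 1 := by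
  classical
  obtain ⟨s, hs⟩ : ∃ s : ↥(Cfsg.isometryGroup F₀ (⇑Q₀)), s = reflG Q₀ u * reflG Q₀ v :=
    ⟨_, rfl⟩
  have hu0 : Q₀ u ≠ 0 := by rw [hu]; exact one_ne_zero
  have hv0 : Q₀ v ≠ 0 := by rw [hv]; exact one_ne_zero
  have hune : u ≠ 0 := by
    rintro rfl
    rw [map_zero] at hu
    exact zero_ne_one hu
  have hsmem : s ∈ commutator ↥(Cfsg.isometryGroup F₀ (⇑Q₀)) := by
    have hvs : ∀ z ∈ [u, v], Q₀ z ≠ 0 := by
      intro z hz
      rcases List.mem_pair.mp hz with rfl | rfl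
      · exact hu0
      · exact hv0
    have hg : ((s : Matrix.GeneralLinearGroup ι F₀) : Matrix ι ι F₀)
        = ([u, v].map (fun v => Cfsg.reflectionMatrix (⇑Q₀) v)).prod := by
      rw [hs]
      have e : ([u, v].map (fun v => Cfsg.reflectionMatrix (⇑Q₀) v)).prod
          = Cfsg.reflectionMatrix (⇑Q₀) u * Cfsg.reflectionMatrix (⇑Q₀) v := by
        simp
      rw [e]
      rfl
    rw [mem_commutator_iff_of_prod_refl Q₀ h2₀ s [u, v] hvs hg]
    refine ⟨⟨1, rfl⟩, ⟨1, ?_⟩⟩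
    simp [hu, hv]
  have hcomm : reflG Q₀ u * reflG Q₀ v = reflG Q₀ v * reflG Q₀ u := by
    have h1 := conj_reflG Q₀ (reflG Q₀ u) v
    have h2 : act (reflG Q₀ u) v = v := by
      rw [act_reflG, huv, mul_zero, zero_smul, sub_zero]
    have h2' : (((reflG Q₀ u : ↥(Cfsg.isometryGroup F₀ (⇑Q₀))) :
        Matrix.GeneralLinearGroup ι F₀) : Matrix ι ι F₀) *ᵥ v = v := h2
    rw [h2'] at h1
    exact mul_inv_eq_iff_eq_mul.mp h1
  have hss : s * s = 1 := by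
    rw [hs]
    calc reflG Q₀ u * reflG Q₀ v * (reflG Q₀ u * reflG Q₀ v)
        = reflG Q₀ u * (reflG Q₀ v * reflG Q₀ u) * reflG Q₀ v := by group
      _ = reflG Q₀ u * (reflG Q₀ u * reflG Q₀ v) * reflG Q₀ v := by rw [hcomm]
      _ = (reflG Q₀ u * reflG Q₀ u) * (reflG Q₀ v * reflG Q₀ v) := by group
      _ = 1 := by rw [reflG_mul_self, reflG_mul_self, one_mul]
  refine ⟨betaO hc s, ⟨s, hsmem, rfl⟩, ?_, ?_⟩
  · intro h1
    rw [betaO_apply] at h1
    obtain ⟨l, hl⟩ := eq_scalSim_of_cHom_eq_one Q hQ h3 hne _ h1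
    have hmat : ((s : Matrix.GeneralLinearGroup ι F₀) : Matrix ι ι F₀).map j
        = (l : F) • (1 : Matrix ι ι F) := by
      have h4 := congrArg (fun g : ↥(Cfsg.Geo.quadSimilarityGroup (⇑Q)) =>
        ((g : Matrix.GeneralLinearGroup ι F) : Matrix ι ι F)) hl
      rw [bcSim_val, scalSim_coe, scalGL_coe] at h4
      exact h4
    obtain ⟨l₀, hjl, hl₀⟩ := scal_of_map_scal j _ (l : F) hmat
    have hact : ∀ z : ι → F₀, act s z = l₀ • z := by
      intro z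
      show ((s : Matrix.GeneralLinearGroup ι F₀) : Matrix ι ι F₀) *ᵥ z = l₀ • z
      rw [hl₀, Matrix.smul_mulVec, Matrix.one_mulVec]
    have hvu : QuadraticMap.polar (⇑Q₀) v u = 0 := by rw [QuadraticMap.polar_comm]; exact huv
    have hin1 : act (reflG Q₀ v) u = u := by
      rw [act_reflG, hvu, mul_zero, zero_smul, sub_zero]
    have hin2 : act (reflG Q₀ v) w = w := by
      rw [act_reflG, hvw, mul_zero, zero_smul, sub_zero]
    have hsu : act s u = -u := by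
      rw [hs, act_mul, hin1, act_reflG, QuadraticMap.polar_self, hu, inv_one, one_mul]
      simp only [nsmul_eq_mul, Nat.cast_ofNat, mul_one]
      rw [two_smul]
      abel
    have hsw : act s w = w := by
      rw [hs, act_mul, hin2, act_reflG, huw, mul_zero, zero_smul, sub_zero]
    have e1 : (l₀ + 1) • u = 0 := by
      rw [add_smul, one_smul, ← hact, hsu, neg_add_cancel]
    have e2 : (l₀ - 1) • w = 0 := by
      rw [sub_smul, one_smul, ← hact, hsw, sub_self]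
    have l1 : l₀ + 1 = 0 := (smul_eq_zero.mp e1).resolve_right hune
    have l2 : l₀ - 1 = 0 := (smul_eq_zero.mp e2).resolve_right hw
    apply h2₀
    linear_combination l1 - l2
  · rw [← map_mul, hss, map_one]

end

section
variable {F : Type*} [Field F] [Fintype F]

set_option maxHeartbeats 1600000 in
/-- The `p'`-core criterion for the standard field automorphism. -/
theorem odd_field_core_phi (hodd : Odd (Fintype.card F)) {m : ℕ} (hm : 3 ≤ m)
    (σ : RingAut F) {p : ℕ} [hpF : Fact p.Prime] (hord : orderOf σ = p)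
    (φ : MulAut (Cfsg.POmega F (⇑(QOdd m F))))
    (hi1 : Cfsg.IsInducedBySemilinearPOmega (⇑(QOdd m F))
      (1 : Matrix.GeneralLinearGroup (Unit ⊕ (Fin m ⊕ Fin m)) F) σ φ)
    (hφo : orderOf φ = p)
    (A : Subgroup (MulAut (Cfsg.POmega F (⇑(QOdd m F)))))
    (hTA : Cfsg.Inn (Cfsg.POmega F (⇑(QOdd m F))) ≤ A) :
    Cfsg.pPrimeCore p ↥(A ⊓ Subgroup.centralizer {φ}) ≠ ⊥ ↔
      Nat.Coprime p (Nat.card ↥(MonoidHom.eqLocus φ.toMonoidHom
        (MonoidHom.id (Cfsg.POmega F (⇑(QOdd m F)))))) := by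
  classical
  have h2 : (2 : F) ≠ 0 := two_ne_zero_of_odd_card hodd
  have hQ := QOdd_nondeg (F := F) m h2
  have h3 := hasTS3_QOdd (F := F) m hm
  have hk : Fintype.card (Unit ⊕ (Fin m ⊕ Fin m)) = 2 * m + 1 := by
    simp
    ring
  have htop : ∀ β : MulAut (Cfsg.POmega F (⇑(QOdd m F))),
      β ∈ Cfsg.gammaPOmega F (⇑(QOdd m F)) := by
    intro β
    have ht : Cfsg.gammaPOmega F (⇑(QOdd m F)) = ⊤ := gamma_top_odd hodd hm
    rw [ht]
    exact Subgroup.mem_top β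
  have hp1 : Cfsg.IsSemisimilarityPair (⇑(QOdd m F))
      (1 : Matrix.GeneralLinearGroup (Unit ⊕ (Fin m ⊕ Fin m)) F) σ := pair_odd_sigma (F := F) m σ
  have hfinF : Fintype ↥(fixF σ) := Fintype.ofFinite _
  obtain ⟨j, hjdef⟩ : ∃ j : ↥(fixF σ) →+* F, j = (fixF σ).subtype := ⟨_, rfl⟩
  have hj : ∀ a : F, σ a = a ↔ ∃ a₀ : ↥(fixF σ), j a₀ = a := by
    intro a
    rw [← mem_fixF]
    constructor
    · intro ha
      exact ⟨⟨a, ha⟩, by rw [hjdef]; rfl⟩
    · rintro ⟨a₀, rfl⟩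
      rw [hjdef]
      exact a₀.2
  have hc : FormCompat j (QOdd m ↥(fixF σ)) (QOdd m F) := by
    intro u
    rw [QOdd_apply, QOdd_apply, map_add, map_pow, map_sum]
    congr 1
    apply Finset.sum_congr rfl
    intro i _
    rw [map_mul]
  have h2₀ : (2 : ↥(fixF σ)) ≠ 0 := by
    intro h
    apply h2
    rw [← map_ofNat j 2, h, map_zero]
  have hQ₀ := QOdd_nondeg (F := ↥(fixF σ)) m h2₀
  have h3₀ := hasTS3_QOdd (F := ↥(fixF σ)) m hm
  have hp0 : 0 < p := hpF.out.pos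
  have hZ := pOmega_center (QOdd m F) hQ h3
  rw [card_fix_eq hZ φ]
  have hJinn := JJ_le_inn (Q := QOdd m F) hc
  have hJcent := JJ_le_cent hc σ hj hp1 hi1
  obtain ⟨iu, iv, iw, hiu, hiv, hiuv, hiuw, hivw, hiw⟩ :=
    exists_invol_vectors (F₀ := ↥(fixF σ)) m (by omega)
  obtain ⟨y₂, hy₂J, hy₂ne, hy₂sq⟩ := exists_invol_JJ hc hQ h3 (QOdd_ne m) h2₀ iu iv iw hiu hiv
    hiuv hiuw hivw hiw
  constructor
  · intro hcore
    by_contra hncop
    have hdvd : p ∣ Nat.card ↥(Cfsg.Inn (Cfsg.POmega F (⇑(QOdd m F)))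
        ⊓ Subgroup.centralizer {φ}) := by
      by_contra h
      exact hncop (hpF.out.coprime_iff_not_dvd.mpr h)
    have hpJ : p ∣ Nat.card ↥(JJ (Q := QOdd m F) hc) := by
      by_cases hp2 : p = 2
      · rw [hp2]
        have h1 : orderOf (⟨y₂, hy₂J⟩ : ↥(JJ (Q := QOdd m F) hc)) = 2 := by
          apply orderOf_eq_prime
          · apply Subtype.ext
            rw [pow_two]
            exact hy₂sq
          · intro h
            exact hy₂ne (congrArg Subtype.val h)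
        rw [← h1]
        exact orderOf_dvd_natCard _
      · exact dvd_card_JJ hc hQ h3 (QOdd_ne m) hQ₀ h3₀ (QOdd_ne m) σ hord hp0 hj
          (QOdd_sigma m σ) hp1 hi1 hk h2₀ hp2 hdvd
    obtain ⟨su, sv, sx, hsu, hsv, hsuv, hsux, hsvx, hsv0⟩ :=
      exists_siegel_vectors (F₀ := ↥(fixF σ)) m (by omega)
    exact core_eq_bot_of_simple A φ p hφo (JJ (Q := QOdd m F) hc)
      (le_inf (hJinn.trans hTA) hJcent)
      (JJ_conj_mem hc hQ h3 (QOdd_ne m) hQ₀ h3₀ (QOdd_ne m) σ hord hp0 hj (QOdd_sigma m σ) hp1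
        hi1 hk htop)
      (JJ_simple hc hQ₀ h3₀ (QOdd_ne m)) hpJ
      (mem_zpowers_of_centralizes hc hQ h3 (QOdd_ne m) hQ₀ h3₀ (QOdd_ne m) σ hord hp0 hj
        (QOdd_sigma m σ) hp1 hi1 hk htop su sv sx hsu hsv hsuv hsux hsvx hsv0) hcore
  · intro hcop
    apply core_ne_bot_of_normal (A ⊓ Subgroup.centralizer {φ})
      (Cfsg.Inn (Cfsg.POmega F (⇑(QOdd m F))) ⊓ Subgroup.centralizer {φ}) p
      (inf_le_inf_right _ hTA) ?_ ?_ (Nat.coprime_comm.mp hcop)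
    · intro a ha y hy
      have hKn : (Cfsg.Inn (Cfsg.POmega F (⇑(QOdd m F)))).Normal := inferInstance
      exact ⟨hKn.conj_mem y hy.1 a,
        Subgroup.mul_mem _ (Subgroup.mul_mem _ ha.2 hy.2) (Subgroup.inv_mem _ ha.2)⟩
    · intro hbot
      have h1 : y₂ ∈ Cfsg.Inn (Cfsg.POmega F (⇑(QOdd m F))) ⊓ Subgroup.centralizer {φ} :=
        ⟨hJinn hy₂J, hJcent hy₂J⟩
      rw [hbot, Subgroup.mem_bot] at h1
      exact hy₂ne h1

end

section
variable {F : Type*} [Field F] [Fintype F]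

set_option maxHeartbeats 1600000 in
/-- Almost simple groups with socle `Ω_{2m+1}(q)`: an automorphism of prime order outside the
inner-diagonal group is a field automorphism, and the `p'`-core of its centraliser is
non-trivial exactly when `p` does not divide the order of its fixed-point group. -/
theorem odd_almost_simple_core_Q (hodd : Odd (Fintype.card F)) {m : ℕ} (hm : 3 ≤ m)
    (A : Subgroup (MulAut (Cfsg.POmega F (⇑(QOdd m F)))))
    (hinn : ∀ k : Cfsg.POmega F (⇑(QOdd m F)), MulAut.conj k ∈ A) {p : ℕ} [hpF : Fact p.Prime]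
    (x : MulAut (Cfsg.POmega F (⇑(QOdd m F)))) (hord : orderOf x = p)
    (hnot : x ∉ Cfsg.pgoAut F (⇑(QOdd m F))) :
    Cfsg.IsFieldAutClassPOmega (⇑(QOdd m F)) x ∧
    (Cfsg.pPrimeCore p ↥(A ⊓ Subgroup.centralizer {x}) ≠ ⊥ ↔
      Nat.Coprime p (Nat.card ↥(MonoidHom.eqLocus x.toMonoidHom
        (MonoidHom.id (Cfsg.POmega F (⇑(QOdd m F))))))) := by
  classical
  have h2 : (2 : F) ≠ 0 := two_ne_zero_of_odd_card hodd
  have hQ := QOdd_nondeg (F := F) m h2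
  have h3 := hasTS3_QOdd (F := F) m hm
  have htop : ∀ β : MulAut (Cfsg.POmega F (⇑(QOdd m F))),
      β ∈ Cfsg.gammaPOmega F (⇑(QOdd m F)) := by
    intro β
    have ht : Cfsg.gammaPOmega F (⇑(QOdd m F)) = ⊤ := gamma_top_odd hodd hm
    rw [ht]
    exact Subgroup.mem_top β
  obtain ⟨Ψ, hΨ⟩ := exists_sigHom (QOdd m F) hQ h3 htop
  have hker := sigHom_ker (QOdd m F) htop Ψ hΨ
  obtain ⟨sF, hsF⟩ := exists_fieldHom (⇑(QOdd m F)) (fun τ => pair_odd_sigma (F := F) m τ)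
  obtain ⟨σ, hσdef⟩ : ∃ σ : RingAut F, σ = Ψ x := ⟨_, rfl⟩
  have hσ1 : σ ≠ 1 := by
    intro h
    apply hnot
    rw [← hker, MonoidHom.mem_ker, ← hσdef, h]
  have hxp : x ^ p = 1 := by
    rw [← hord]
    exact pow_orderOf_eq_one x
  have hσp : σ ^ p = 1 := by rw [hσdef, ← map_pow, hxp, map_one]
  have hσo : orderOf σ = p := orderOf_eq_prime hσp hσ1
  obtain ⟨φ, hφdef⟩ : ∃ φ : MulAut (Cfsg.POmega F (⇑(QOdd m F))), φ = sF σ := ⟨_, rfl⟩
  have hp1 : Cfsg.IsSemisimilarityPair (⇑(QOdd m F))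
      (1 : Matrix.GeneralLinearGroup (Unit ⊕ (Fin m ⊕ Fin m)) F) σ := pair_odd_sigma (F := F) m σ
  have hi1 : Cfsg.IsInducedBySemilinearPOmega (⇑(QOdd m F))
      (1 : Matrix.GeneralLinearGroup (Unit ⊕ (Fin m ⊕ Fin m)) F) σ φ := by
    rw [hφdef]
    exact hsF σ
  have hΨφ : Ψ φ = σ := hΨ φ 1 σ hp1 hi1
  have hφp : φ ^ p = 1 := by rw [hφdef, ← map_pow, hσp, map_one]
  have hφ1 : φ ≠ 1 := by
    intro h
    apply hσ1
    rw [← hΨφ, h, map_one]
  have hφo : orderOf φ = p := orderOf_eq_prime hφp hφ1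
  have hφof : Cfsg.IsFieldAutPOmegaOf (⇑(QOdd m F)) σ φ := by
    intro s s' hss'
    apply hi1 s s'
    rw [hss', Units.val_one, inv_one, Units.val_one, Matrix.one_mul, Matrix.mul_one]
  have hδ : x * φ⁻¹ ∈ Cfsg.pgoAut F (⇑(QOdd m F)) := by
    rw [← hker, MonoidHom.mem_ker, map_mul, map_inv, hΨφ, ← hσdef, mul_inv_cancel]
  have hφclass : Cfsg.IsFieldAutClassPOmega (⇑(QOdd m F)) φ :=
    ⟨1, φ, σ, hσ1, hφof, by rw [one_mul, inv_one, mul_one]⟩
  have hxe : x * φ⁻¹ * φ = x := by group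
  obtain ⟨h, hh, hconj⟩ := odd_field_coset_Q hodd hm φ (x * φ⁻¹) hφclass hpF.out hφo hδ
    (by rw [hxe]; exact hord)
  rw [hxe] at hconj
  have e0 : h⁻¹ * x * h⁻¹⁻¹ = φ := by
    rw [hconj]
    group
  refine ⟨⟨h⁻¹, φ, σ, hσ1, hφof, e0⟩, ?_⟩
  obtain ⟨A', hA'⟩ : ∃ A' : Subgroup (MulAut (Cfsg.POmega F (⇑(QOdd m F)))),
      A' = A.map (MulAut.conj h⁻¹).toMonoidHom := ⟨_, rfl⟩
  have hKn : (Cfsg.Inn (Cfsg.POmega F (⇑(QOdd m F)))).Normal := inferInstance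
  have hTA' : Cfsg.Inn (Cfsg.POmega F (⇑(QOdd m F))) ≤ A' := by
    intro t ht
    rw [hA']
    have h1 := hKn.conj_mem t ht h
    obtain ⟨k, hk⟩ := h1
    refine ⟨h * t * h⁻¹, ?_, ?_⟩
    · rw [← hk]
      exact hinn k
    · show h⁻¹ * (h * t * h⁻¹) * h⁻¹⁻¹ = t
      group
  have hmain := odd_field_core_phi hodd hm σ hσo φ hi1 hφo A' hTA'
  obtain ⟨e⟩ := exists_centInf_equiv A x h⁻¹
  rw [e0, ← hA'] at e
  have hcard : Nat.card ↥(MonoidHom.eqLocus x.toMonoidHom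
        (MonoidHom.id (Cfsg.POmega F (⇑(QOdd m F)))))
      = Nat.card ↥(MonoidHom.eqLocus φ.toMonoidHom
        (MonoidHom.id (Cfsg.POmega F (⇑(QOdd m F))))) := by
    have hZ := pOmega_center (QOdd m F) hQ h3
    rw [card_fix_eq hZ x, card_fix_eq hZ φ]
    have e1 := centConj (Cfsg.Inn (Cfsg.POmega F (⇑(QOdd m F)))) h⁻¹ x
    rw [e0] at e1
    exact Nat.card_congr e1.toEquiv
  rw [hcard, ← hmain]
  exact ⟨pPrimeCore_ne_bot_congr e p, pPrimeCore_ne_bot_congr e.symm p⟩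

set_option maxHeartbeats 1600000 in
theorem odd_almost_simple_core (hodd : Odd (Fintype.card F)) {m : ℕ} (hm : 3 ≤ m)
    (A : Subgroup (MulAut (Cfsg.POmega F (Cfsg.quadFormOdd m F))))
    (hinn : ∀ k : Cfsg.POmega F (Cfsg.quadFormOdd m F), MulAut.conj k ∈ A) {p : ℕ}
    [hpF : Fact p.Prime]
    (x : MulAut (Cfsg.POmega F (Cfsg.quadFormOdd m F))) (hord : orderOf x = p)
    (hnot : ¬ Cfsg.IsInnerDiagonalAutPOmegaOdd m x) :
    Cfsg.pPrimeCore p ↥(A ⊓ Subgroup.centralizer {x}) ≠ ⊥ ↔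
      (Cfsg.IsFieldAutClassPOmega (Cfsg.quadFormOdd m F) x ∧
        Nat.Coprime p (Nat.card ↥(MonoidHom.eqLocus x.toMonoidHom
          (MonoidHom.id (Cfsg.POmega F (Cfsg.quadFormOdd m F)))))) := by
  have hnot' : x ∉ Cfsg.pgoAut F (⇑(QOdd m F)) := by
    intro hx
    apply hnot
    rw [pgoAut_eq] at hx
    obtain ⟨g, hg⟩ := hx
    exact ⟨g.1, g.2, (isInduced_iff _ g x).mpr (by rw [← hg]; rfl)⟩
  have key := odd_almost_simple_core_Q hodd hm A hinn x hord hnot'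
  obtain ⟨k1, k2⟩ := key
  constructor
  · intro h
    exact ⟨k1, k2.mp h⟩
  · rintro ⟨-, h⟩
    exact k2.mpr h

end

end Cfsg.Agent.H49
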