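import Mathlib
import Cfsg.Agent.H49.Eich1
import Cfsg.Agent.H17.Witt
import Cfsg.Agent.H95.Basic

set_option autoImplicit false
set_option linter.unusedSectionVars false

/-! Helper lemmas (helper49): in characteristic two, two involutions of the isometry group of a
nondegenerate quadratic form that are conjugate under the symplectic group of the polar form are
conjugate in the isometry group (via Witt's lemma applied to the image of `t - 1`). -/

namespace Cfsg.Agent.H49

open Module Matrix

section abstractConj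
variable {F V : Type*} [Field F] [AddCommGroup V] [Module F V] [FiniteDimensional F V]

theorem exists_isometry_conj_of_polar_conj (Q : QuadraticForm F V)
    (hQ : (QuadraticMap.polarBilin Q).Nondegenerate) (h2 : (2 : F) = 0)
    (t s : V →ₗ[F] V) (ht : ∀ x, Q (t x) = Q x) (hs : ∀ x, Q (s x) = Q x)
    (hss : ∀ x, s (s x) = x)
    (g : V ≃ₗ[F] V)
    (hg : ∀ x y, QuadraticMap.polar (⇑Q) (g x) (g y) = QuadraticMap.polar (⇑Q) x y)
    (hgt : ∀ x, g (t x) = s (g x)) :
    ∃ h : V ≃ₗ[F] V, (∀ v, Q (h v) = Q v) ∧ ∀ x, h (t x) = s (h x) := by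
  have hQsub : ∀ a b : V, Q (a - b) = Q a + Q b - QuadraticMap.polar (⇑Q) a b := by
    intro a b
    have e1 : QuadraticMap.polar (⇑Q) (a - b) b = Q a - Q (a - b) - Q b := by
      simp only [QuadraticMap.polar, sub_add_cancel]
    rw [QuadraticMap.polar_sub_left, QuadraticMap.polar_self, two_nsmul] at e1
    linear_combination e1
  have hpol : ∀ (k : V →ₗ[F] V), (∀ x, Q (k x) = Q x) → ∀ x y,
      QuadraticMap.polar (⇑Q) (k x) (k y) = QuadraticMap.polar (⇑Q) x y := by
    intro k hk x y
    simp only [QuadraticMap.polar]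
    rw [← map_add, hk, hk, hk]
  have hN : ∀ (k : V →ₗ[F] V), (∀ x, Q (k x) = Q x) → ∀ x,
      Q (k x - x) = - QuadraticMap.polar (⇑Q) (k x) x := by
    intro k hk x
    rw [hQsub, hk]
    linear_combination Q x * h2
  obtain ⟨h, hh, hhW⟩ := H17.witt_quad Q hQ (LinearMap.range (t - LinearMap.id)) g.toLinearMap
    (by
      rintro _ ⟨y, rfl⟩
      simp only [LinearMap.sub_apply, LinearMap.id_apply, LinearEquiv.coe_coe, map_sub]
      rw [hgt, hN s hs, hN t ht, ← hgt, hg])
    (by
      intro x _ hx
      simpa using hx)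
  refine ⟨h, hh, ?_⟩
  have hhpol : ∀ x y, QuadraticMap.polar (⇑Q) (h x) (h y) = QuadraticMap.polar (⇑Q) x y :=
    hpol h.toLinearMap hh
  intro y
  -- the difference d = h y - g y is killed by s - 1
  have hd : s (h y - g y) - (h y - g y) = 0 := by
    apply hQ.1
    intro z
    obtain ⟨z', rfl⟩ := g.surjective z
    show QuadraticMap.polar (⇑Q) (s (h y - g y) - (h y - g y)) (g z') = 0
    have e1 : QuadraticMap.polar (⇑Q) (s (h y - g y)) (g z')
        = QuadraticMap.polar (⇑Q) (h y - g y) (s (g z')) := by
      conv_lhs => rw [← hss (g z')]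
      exact hpol s hs _ _
    rw [QuadraticMap.polar_sub_left, e1, ← QuadraticMap.polar_sub_right, ← hgt, ← map_sub]
    have hw : h (t z' - z') = g (t z' - z') := hhW _ ⟨z', rfl⟩
    rw [QuadraticMap.polar_sub_left, hg]
    rw [← hw, hhpol, sub_self]
  have e2 : h (t y - y) = g (t y - y) := hhW _ ⟨y, rfl⟩
  rw [map_sub, map_sub, hgt] at e2
  rw [map_sub] at hd
  have : h (t y) - s (h y) = 0 := by
    have e3 : h (t y) - s (h y)
        = (h (t y) - h y - (s (g y) - g y)) - (s (h y) - s (g y) - (h y - g y)) := by abel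
    rw [e3, hd, sub_zero, e2, sub_self]
  exact sub_eq_zero.mp this

end abstractConj

section concreteConj
variable {ι : Type} [Fintype ι] [DecidableEq ι] {F : Type*} [Field F]

/-- In characteristic two, involutions of the isometry group of a nondegenerate quadratic form
are conjugate there as soon as they are conjugate under the symplectic group of the polar
form. -/
theorem isConj_iff_polar_conj (Q : QuadraticForm F (ι → F))
    (hQ : (QuadraticMap.polarBilin Q).Nondegenerate) (h2 : (2 : F) = 0)
    (t s : ↥(Cfsg.isometryGroup F (⇑Q))) (hs : s * s = 1) :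
    IsConj t s ↔ ∃ g ∈ Cfsg.preserving (Units.coeHom (Matrix ι ι F))
      (fun u v => Q (u + v) - Q u - Q v),
      g * (t : Matrix.GeneralLinearGroup ι F) * g⁻¹ = (s : Matrix.GeneralLinearGroup ι F) := by
  constructor
  · intro h
    obtain ⟨c, hc⟩ := isConj_iff.mp h
    refine ⟨(c : Matrix.GeneralLinearGroup ι F), ?_, ?_⟩
    · intro u v
      show Q (((c : Matrix.GeneralLinearGroup ι F) : Matrix ι ι F) *ᵥ u
          + ((c : Matrix.GeneralLinearGroup ι F) : Matrix ι ι F) *ᵥ v)
        - Q (((c : Matrix.GeneralLinearGroup ι F) : Matrix ι ι F) *ᵥ u)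
        - Q (((c : Matrix.GeneralLinearGroup ι F) : Matrix ι ι F) *ᵥ v) = Q (u + v) - Q u - Q v
      rw [← Matrix.mulVec_add, isometry_apply c, isometry_apply c, isometry_apply c]
    · rw [← hc]
      rfl
  · rintro ⟨g, hg, hgts⟩
    have hgts' : g * (t : Matrix.GeneralLinearGroup ι F) = (s : Matrix.GeneralLinearGroup ι F) * g := by
      rw [← hgts]
      group
    obtain ⟨h, hh, hht⟩ := exists_isometry_conj_of_polar_conj Q hQ h2
      (Matrix.toLin' ((t : Matrix.GeneralLinearGroup ι F) : Matrix ι ι F))
      (Matrix.toLin' ((s : Matrix.GeneralLinearGroup ι F) : Matrix ι ι F))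
      (fun x => by rw [Matrix.toLin'_apply]; exact isometry_apply t x)
      (fun x => by rw [Matrix.toLin'_apply]; exact isometry_apply s x)
      (fun x => by
        rw [Matrix.toLin'_apply, Matrix.toLin'_apply]
        have := act_mul s s x
        rw [hs, act_one] at this
        exact this.symm)
      (H95.toEquiv g)
      (fun x y => by
        have := hg x y
        exact this)
      (fun x => by
        show ((g : Matrix ι ι F)) *ᵥ (((t : Matrix.GeneralLinearGroup ι F) : Matrix ι ι F) *ᵥ x)
          = ((s : Matrix.GeneralLinearGroup ι F) : Matrix ι ι F) *ᵥ ((g : Matrix ι ι F) *ᵥ x)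
        rw [Matrix.mulVec_mulVec, Matrix.mulVec_mulVec, ← Units.val_mul, ← Units.val_mul, hgts'])
    have hmem : H95.glOf h ∈ Cfsg.isometryGroup F (⇑Q) := by
      rw [mem_isometryGroup_iff]
      intro x
      rw [H95.glOf_mulVec]
      exact hh x
    rw [isConj_iff]
    refine ⟨⟨H95.glOf h, hmem⟩, ?_⟩
    rw [mul_inv_eq_iff_eq_mul]
    apply act_ext
    intro x
    rw [act_mul, act_mul]
    show ((H95.glOf h : Matrix.GeneralLinearGroup ι F) : Matrix ι ι F) *ᵥ (act t x)
      = act s (((H95.glOf h : Matrix.GeneralLinearGroup ι F) : Matrix ι ι F) *ᵥ x)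
    rw [H95.glOf_mulVec, H95.glOf_mulVec]
    have := hht x
    rw [Matrix.toLin'_apply, Matrix.toLin'_apply] at this
    exact this

end concreteConj

end Cfsg.Agent.H49
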