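import Mathlib
import Cfsg.Agent.H49.FieldDesc
import Cfsg.Agent.H49.StdBasis
import Cfsg.Agent.H49.MinusForm
import Cfsg.Agent.H49.Plus
import Cfsg.Agent.H49.Similar

set_option autoImplicit false
set_option linter.unusedSectionVars false
set_option linter.unusedSimpArgs false
set_option linter.unusedVariables false

/-! Helper lemmas (helper49): standard models (hyperbolic or elliptic) of a non-degenerate
quadratic form of even dimension over a finite field, and their base change to a matrix over a
larger field. -/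

namespace Cfsg.Agent.H49

open Module Matrix GalDesc

section
variable {ι J : Type} [Fintype ι] [DecidableEq ι] [Fintype J] [DecidableEq J]
  {F : Type*} [Field F]

/-- From a model of the descended form over the subfield to a matrix over the big field. -/
theorem exists_model_matrix (σ : RingAut F) (K : Subfield F) (hK : ∀ a : F, σ a = a ↔ a ∈ K)
    (Q2 : QuadraticForm F (ι → F)) (Q0 : QuadraticForm K (ι → K))
    (hQ0 : ∀ w : ι → K, ((Q0 w : K) : F) = Q2 (fun i => (w i : F)))
    (Qs : QuadraticForm F (J → F)) (Qs₀ : QuadraticForm K (J → K))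
    (hQs : ∀ w : J → K, ((Qs₀ w : K) : F) = Qs (fun i => (w i : F)))
    (T : (J → K) →ₗ[K] (ι → K)) (hT : ∀ u, Q0 (T u) = Qs₀ u) :
    ∃ C : Matrix ι J F, C.map σ = C ∧ ∀ v : J → F, Q2 (C *ᵥ v) = Qs v := by
  classical
  obtain ⟨C, hC⟩ : ∃ C : Matrix ι J F,
      C = Matrix.of (fun i k => ((T (Pi.single k 1) i : K) : F)) := ⟨_, rfl⟩
  have hCcol : ∀ k, C *ᵥ Pi.single k 1 = fun i => ((T (Pi.single k 1) i : K) : F) := by
    intro k
    rw [Matrix.mulVec_single_one]
    funext i
    rw [hC]
    rfl
  refine ⟨C, ?_, ?_⟩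
  · ext i k
    rw [Matrix.map_apply, hC]
    exact (hK _).mpr (T (Pi.single k 1) i).2
  · have hcomp : Q2.comp (Matrix.mulVecLin C) = Qs := by
      apply quad_ext_basis (Pi.basisFun F J)
      · intro k
        rw [QuadraticMap.comp_apply, Pi.basisFun_apply, Matrix.mulVecLin_apply, hCcol, ← hQ0, hT,
          hQs, coe_single]
      · intro k k'
        have e1 : QuadraticMap.polar (⇑(Q2.comp (Matrix.mulVecLin C))) (Pi.basisFun F J k)
            (Pi.basisFun F J k')
            = QuadraticMap.polar (⇑Q2) (C *ᵥ Pi.single k 1) (C *ᵥ Pi.single k' 1) := by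
          simp only [QuadraticMap.polar, QuadraticMap.comp_apply, map_add, Pi.basisFun_apply,
            Matrix.mulVecLin_apply]
        rw [e1, hCcol, hCcol, ← fixed_form_polar K Q2 Q0 hQ0, Pi.basisFun_apply,
          Pi.basisFun_apply, ← coe_single K k, ← coe_single K k',
          ← fixed_form_polar K Qs Qs₀ hQs]
        congr 1
        simp only [QuadraticMap.polar]
        rw [← map_add, hT, hT, hT]
    intro v
    have := congrArg (fun q : QuadraticForm F (J → F) => q v) hcomp
    exact this

/-- A matrix transporting a form to a non-degenerate form is invertible. -/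
theorem isUnit_of_form_eq (Q2 Q1 : QuadraticForm F (ι → F))
    (hQ1 : (QuadraticMap.polarBilin Q1).Nondegenerate) (B : Matrix ι ι F)
    (hB : ∀ v, Q2 (B *ᵥ v) = Q1 v) : IsUnit B := by
  rw [← Matrix.mulVec_injective_iff_isUnit]
  intro v w hvw
  have h1 : B *ᵥ (v - w) = 0 := by rw [Matrix.mulVec_sub, hvw, sub_self]
  have h0 : v - w = 0 := by
    apply hQ1.1
    intro y
    have h2 : QuadraticMap.polar (⇑Q1) (v - w) y
        = QuadraticMap.polar (⇑Q2) (B *ᵥ (v - w)) (B *ᵥ y) := by
      simp only [QuadraticMap.polar]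
      rw [← Matrix.mulVec_add, hB, hB, hB]
    show QuadraticMap.polar (⇑Q1) (v - w) y = 0
    rw [h2, h1, QuadraticMap.polar_zero_left]
  exact sub_eq_zero.mp h0

end

section
variable {F : Type*} [Field F]

theorem QP_coe_sub (m : ℕ) (K : Subfield F) (w : Fin m ⊕ Fin m → K) :
    ((QP m K w : K) : F) = QP m F (fun i => (w i : F)) := by
  rw [QP_apply, QP_apply]
  push_cast
  rfl

theorem QMin_formula (k : ℕ) (a b : F) (x : (Fin k ⊕ Fin k) ⊕ Fin 2 → F) :
    QMin k F a b x = (∑ i : Fin k, x (Sum.inl (Sum.inl i)) * x (Sum.inl (Sum.inr i)))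
      + (x (Sum.inr 0) ^ 2 + a * x (Sum.inr 0) * x (Sum.inr 1) + b * x (Sum.inr 1) ^ 2) := rfl

theorem polar_QMin_formula (k : ℕ) (a b : F) (x y : (Fin k ⊕ Fin k) ⊕ Fin 2 → F) :
    QuadraticMap.polar (⇑(QMin k F a b)) x y
      = (∑ i : Fin k, (x (Sum.inl (Sum.inl i)) * y (Sum.inl (Sum.inr i))
          + y (Sum.inl (Sum.inl i)) * x (Sum.inl (Sum.inr i))))
        + (2 * x (Sum.inr 0) * y (Sum.inr 0)
          + a * (x (Sum.inr 0) * y (Sum.inr 1) + x (Sum.inr 1) * y (Sum.inr 0))
          + 2 * b * x (Sum.inr 1) * y (Sum.inr 1)) := by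
  show QuadraticMap.polar (⇑(sumQ (QP k F) (binQ a b))) x y = _
  rw [polar_sumQ, polar_QP, polar_binQ]
  rfl

theorem QMin_coe_sub (k : ℕ) (K : Subfield F) (a b : K)
    (w : (Fin k ⊕ Fin k) ⊕ Fin 2 → K) :
    ((QMin k K a b w : K) : F) = QMin k F (a : F) (b : F) (fun i => (w i : F)) := by
  rw [QMin_formula, QMin_formula]
  push_cast
  rfl

end

section
variable {K : Type*} [Field K] [Finite K]

set_option maxHeartbeats 1600000 in
/-- A non-degenerate quadratic form of dimension `2m` over a finite field is isometric to the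
standard hyperbolic form or to a standard elliptic form. -/
theorem even_model {m : ℕ} (Q0 : QuadraticForm K (Fin m ⊕ Fin m → K))
    (hQ0 : (QuadraticMap.polarBilin Q0).Nondegenerate) :
    (∃ T : (Fin m ⊕ Fin m → K) ≃ₗ[K] (Fin m ⊕ Fin m → K), ∀ u, Q0 (T u) = QP m K u) ∨
    (∃ (ζ : K) (T : ((Fin (m - 1) ⊕ Fin (m - 1)) ⊕ Fin 2 → K) ≃ₗ[K] (Fin m ⊕ Fin m → K)),
      (∀ t : K, t ^ 2 + t + ζ ≠ 0) ∧ ∀ u, Q0 (T u) = QMin (m - 1) K 1 ζ u) := by
  classical
  have hfr : Module.finrank K (Fin m ⊕ Fin m → K) = 2 * m := finrank_plus m K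
  rcases even_standard_basis hfr Q0 hQ0 with ⟨b, hb1, hb2, hb3⟩ | ⟨b, ζ, hζ, hb1, hb2, hb3, hb4, hb5, hb6, hb7⟩
  · left
    obtain ⟨T, hT⟩ : ∃ T : (Fin m ⊕ Fin m → K) ≃ₗ[K] (Fin m ⊕ Fin m → K),
        ∀ j, T (Pi.single j 1) = b j := by
      refine ⟨(Pi.basisFun K (Fin m ⊕ Fin m)).equiv b (Equiv.refl _), fun j => ?_⟩
      rw [← Pi.basisFun_apply, Module.Basis.equiv_apply]
      rfl
    refine ⟨T, ?_⟩
    have hcomp : Q0.comp T.toLinearMap = QP m K := by
      apply quad_ext_basis (Pi.basisFun K (Fin m ⊕ Fin m))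
      · intro j
        rw [QuadraticMap.comp_apply, Pi.basisFun_apply]
        show Q0 (T (Pi.single j 1)) = _
        rw [hT, QP_apply]
        rcases j with k | k
        · rw [(hb1 k).1]
          simp
        · rw [(hb1 k).2]
          simp
      · intro i j
        have e1 : QuadraticMap.polar (⇑(Q0.comp T.toLinearMap))
            (Pi.basisFun K (Fin m ⊕ Fin m) i) (Pi.basisFun K (Fin m ⊕ Fin m) j)
            = QuadraticMap.polar (⇑Q0) (b i) (b j) := by
          simp only [QuadraticMap.polar, QuadraticMap.comp_apply, Pi.basisFun_apply, ← map_add]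
          show Q0 (T _) - Q0 (T _) - Q0 (T _) = _
          rw [map_add, hT, hT]
        rw [e1, Pi.basisFun_apply, Pi.basisFun_apply]
        rcases i with k | k <;> rcases j with k' | k'
        · rw [(hb3 k k').1, polar_QP_single_inl]
          simp
        · rw [hb2, polar_QP_single_inl]
          rcases eq_or_ne k k' with rfl | hk
          · simp
          · simp [hk, hk.symm]
        · rw [QuadraticMap.polar_comm, hb2, polar_QP_single_inr]
          rcases eq_or_ne k' k with rfl | hk
          · simp
          · simp [hk, hk.symm]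
        · rw [(hb3 k k').2, polar_QP_single_inr]
          simp
    intro u
    have := congrArg (fun q : QuadraticForm K (Fin m ⊕ Fin m → K) => q u) hcomp
    exact this
  · right
    obtain ⟨T, hT⟩ : ∃ T : ((Fin (m - 1) ⊕ Fin (m - 1)) ⊕ Fin 2 → K) ≃ₗ[K] (Fin m ⊕ Fin m → K),
        ∀ j, T (Pi.single j 1) = b j := by
      refine ⟨(Pi.basisFun K ((Fin (m - 1) ⊕ Fin (m - 1)) ⊕ Fin 2)).equiv b (Equiv.refl _),
        fun j => ?_⟩
      rw [← Pi.basisFun_apply, Module.Basis.equiv_apply]
      rfl
    refine ⟨ζ, T, hζ, ?_⟩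
    have hcomp : Q0.comp T.toLinearMap = QMin (m - 1) K 1 ζ := by
      apply quad_ext_basis (Pi.basisFun K ((Fin (m - 1) ⊕ Fin (m - 1)) ⊕ Fin 2))
      · intro j
        rw [QuadraticMap.comp_apply, Pi.basisFun_apply]
        show Q0 (T (Pi.single j 1)) = _
        rw [hT, QMin_formula]
        rcases j with (k | k) | k
        · rw [(hb1 k).1]
          simp
        · rw [(hb1 k).2]
          simp
        · obtain rfl | rfl : k = 0 ∨ k = 1 := by fin_cases k <;> simp
          · rw [hb5]
            simp
          · rw [hb7]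
            simp
      · intro i j
        have e1 : QuadraticMap.polar (⇑(Q0.comp T.toLinearMap))
            (Pi.basisFun K ((Fin (m - 1) ⊕ Fin (m - 1)) ⊕ Fin 2) i)
            (Pi.basisFun K ((Fin (m - 1) ⊕ Fin (m - 1)) ⊕ Fin 2) j)
            = QuadraticMap.polar (⇑Q0) (b i) (b j) := by
          simp only [QuadraticMap.polar, QuadraticMap.comp_apply, Pi.basisFun_apply, ← map_add]
          show Q0 (T _) - Q0 (T _) - Q0 (T _) = _
          rw [map_add, hT, hT]
        rw [e1, Pi.basisFun_apply, Pi.basisFun_apply, polar_QMin_formula]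
        rcases i with (k | k) | k <;> rcases j with (k' | k') | k'
        · rw [(hb3 k k').1]
          simp
        · rw [hb2]
          rcases eq_or_ne k k' with rfl | hk
          · simp [Pi.single_apply]
          · simp [Pi.single_apply, hk, hk.symm]
        · rw [(hb4 k k').1]
          simp
        · rw [QuadraticMap.polar_comm, hb2]
          rcases eq_or_ne k' k with rfl | hk
          · simp [Pi.single_apply]
          · simp [Pi.single_apply, hk, hk.symm]
        · rw [(hb3 k k').2]
          simp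
        · rw [(hb4 k k').2]
          simp
        · rw [QuadraticMap.polar_comm, (hb4 k' k).1]
          simp
        · rw [QuadraticMap.polar_comm, (hb4 k' k).2]
          simp
        · obtain rfl | rfl : k = 0 ∨ k = 1 := by fin_cases k <;> simp
          · obtain rfl | rfl : k' = 0 ∨ k' = 1 := by fin_cases k' <;> simp
            · rw [QuadraticMap.polar_self, hb5]
              simp [two_smul]
              ring
            · rw [hb6]
              simp
          · obtain rfl | rfl : k' = 0 ∨ k' = 1 := by fin_cases k' <;> simp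
            · rw [QuadraticMap.polar_comm, hb6]
              simp
            · rw [QuadraticMap.polar_self, hb7]
              simp [two_smul]
              ring
    intro u
    have := congrArg (fun q : QuadraticForm K ((Fin (m - 1) ⊕ Fin (m - 1)) ⊕ Fin 2 → K) => q u)
      hcomp
    exact this

end

end Cfsg.Agent.H49
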