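import Mathlib
import Cfsg.Prelude.Def_SporadicB
import Cfsg.Agent.H49.Omega2
import Cfsg.Agent.H49.TSTrans
import Cfsg.Agent.H49.SumForm
import Cfsg.Agent.H49.Plus

set_option autoImplicit false

namespace Cfsg.Agent.H49

open Module Matrix

section
variable {ι : Type} [Fintype ι] [DecidableEq ι] {F : Type*} [Field F]

/-- An isometry `g` of a non-degenerate quadratic form with `rank (g - 1) = 1` is a reflection
(an orthogonal transvection in characteristic two). -/
theorem eq_reflG_of_rank_one (Q : QuadraticForm F (ι → F))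
    (hQ : (QuadraticMap.polarBilin Q).Nondegenerate) (g : ↥(Cfsg.isometryGroup F (⇑Q)))
    (hr : (((g : Matrix.GeneralLinearGroup ι F) : Matrix ι ι F) - 1).rank = 1) :
    ∃ v : ι → F, Q v ≠ 0 ∧ g = reflG Q v := by
  obtain ⟨M, hM⟩ : ∃ M : Matrix ι ι F,
      M = ((g : Matrix.GeneralLinearGroup ι F) : Matrix ι ι F) - 1 := ⟨_, rfl⟩
  rw [← hM] at hr
  have hg : ∀ x : ι → F,
      ((g : Matrix.GeneralLinearGroup ι F) : Matrix ι ι F) *ᵥ x = x + M *ᵥ x := by
    intro x
    rw [hM, Matrix.sub_mulVec, Matrix.one_mulVec]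
    abel
  rw [Matrix.rank] at hr
  obtain ⟨⟨a, haR⟩, ha0, hspan⟩ := finrank_eq_one_iff'.mp hr
  have ha0' : a ≠ 0 := fun h => ha0 (Subtype.ext h)
  have hc : ∀ x : ι → F, ∃ c : F, M *ᵥ x = c • a := by
    intro x
    obtain ⟨c, hc⟩ := hspan ⟨M *ᵥ x, LinearMap.mem_range.mpr ⟨x, rfl⟩⟩
    exact ⟨c, (congrArg Subtype.val hc).symm⟩
  obtain ⟨x₀, hx₀⟩ : ∃ x₀ : ι → F, M *ᵥ x₀ = a := by
    obtain ⟨x₀, h⟩ := LinearMap.mem_range.mp haR
    exact ⟨x₀, h⟩
  have hrel : ∀ (x : ι → F) (c : F), M *ᵥ x = c • a →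
      c * (c * Q a + QuadraticMap.polar (⇑Q) x a) = 0 := by
    intro x c hx
    have h1 := isometry_apply g x
    rw [hg, hx, Q_add', QuadraticMap.map_smul, QuadraticMap.polar_smul_right] at h1
    simp only [smul_eq_mul] at h1
    linear_combination h1
  have h2 := hrel x₀ 1 (by rw [one_smul]; exact hx₀)
  have hQa : Q a ≠ 0 := by
    intro hQa
    obtain ⟨y, hy⟩ : ∃ y : ι → F, QuadraticMap.polar (⇑Q) y a ≠ 0 := by
      by_contra hcon
      push Not at hcon
      exact ha0' (hQ.1 a (fun y => by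
        show QuadraticMap.polar (⇑Q) a y = 0
        rw [QuadraticMap.polar_comm]; exact hcon y))
    obtain ⟨c, hcy⟩ := hc y
    have h1 := hrel y c hcy
    rw [hQa, mul_zero, zero_add] at h1
    have hc0 : c = 0 := by
      rcases mul_eq_zero.mp h1 with h | h
      · exact h
      · exact absurd h hy
    rw [hQa] at h2
    have h2' : QuadraticMap.polar (⇑Q) x₀ a = 0 := by simpa using h2
    have h3 := hrel (x₀ + y) 1 (by
      rw [Matrix.mulVec_add, hx₀, hcy, hc0, zero_smul, add_zero, one_smul])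
    rw [hQa, QuadraticMap.polar_add_left, h2'] at h3
    exact hy (by simpa using h3)
  refine ⟨a, hQa, ?_⟩
  apply isometry_ext
  intro x
  rw [reflG_coe, reflectionMatrix_mulVec, hg]
  obtain ⟨c, hcx⟩ := hc x
  have hcval : c = -((Q a)⁻¹ * QuadraticMap.polar (⇑Q) a x) := by
    rw [QuadraticMap.polar_comm]
    by_cases hc0 : c = 0
    · have h3 := hrel (x + x₀) 1 (by
        rw [Matrix.mulVec_add, hcx, hc0, zero_smul, zero_add, hx₀, one_smul])
      rw [QuadraticMap.polar_add_left] at h3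
      have : QuadraticMap.polar (⇑Q) x a = 0 := by linear_combination h3 - h2
      rw [hc0, this]
      simp
    · have h1 := hrel x c hcx
      have : c * Q a + QuadraticMap.polar (⇑Q) x a = 0 := by
        rcases mul_eq_zero.mp h1 with h | h
        · exact absurd h hc0
        · exact h
      field_simp
      linear_combination this
  rw [hcx, hcval, neg_smul, sub_eq_add_neg]

/-- A reflection `r` of a non-degenerate form has `rank (r - 1) = 1`. -/
theorem rank_reflG_sub_one (Q : QuadraticForm F (ι → F))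
    (hQ : (QuadraticMap.polarBilin Q).Nondegenerate) (v : ι → F) (hv : Q v ≠ 0) :
    ((((reflG Q v : ↥(Cfsg.isometryGroup F (⇑Q))) : Matrix.GeneralLinearGroup ι F) :
      Matrix ι ι F) - 1).rank = 1 := by
  rw [reflG_coe, Matrix.rank]
  have hv0 : v ≠ 0 := by
    rintro rfl
    exact hv (QuadraticMap.map_zero Q)
  have hrange : LinearMap.range (Cfsg.reflectionMatrix (⇑Q) v - 1).mulVecLin
      = Submodule.span F {v} := by
    apply le_antisymm
    · rintro _ ⟨x, rfl⟩
      rw [Matrix.mulVecLin_apply, Matrix.sub_mulVec, Matrix.one_mulVec, reflectionMatrix_mulVec,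
        sub_sub_cancel_left]
      exact Submodule.neg_mem _ (Submodule.smul_mem _ _ (Submodule.mem_span_singleton_self v))
    · rw [Submodule.span_singleton_le_iff_mem]
      obtain ⟨y, hy⟩ : ∃ y : ι → F, QuadraticMap.polar (⇑Q) v y ≠ 0 := by
        by_contra hcon
        push Not at hcon
        exact hv0 (hQ.1 v hcon)
      refine ⟨(-(Q v) / QuadraticMap.polar (⇑Q) v y) • y, ?_⟩
      rw [Matrix.mulVecLin_apply, Matrix.sub_mulVec, Matrix.one_mulVec, reflectionMatrix_mulVec,
        sub_sub_cancel_left, QuadraticMap.polar_smul_right, smul_eq_mul, ← neg_smul]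
      have : -((Q v)⁻¹ * (-(Q v) / QuadraticMap.polar (⇑Q) v y * QuadraticMap.polar (⇑Q) v y))
          = 1 := by
        field_simp
      rw [this, one_smul]
  rw [hrange, finrank_span_singleton hv0]

theorem reflG_comm_of_orth (Q : QuadraticForm F (ι → F)) (u v : ι → F)
    (h : QuadraticMap.polar (⇑Q) u v = 0) :
    reflG Q u * reflG Q v = reflG Q v * reflG Q u := by
  have key := conj_reflG Q (reflG Q u) v
  rw [reflG_fix Q u v h] at key
  calc reflG Q u * reflG Q v = (reflG Q u * reflG Q v * (reflG Q u)⁻¹) * reflG Q u := by group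
    _ = reflG Q v * reflG Q u := by rw [key]

theorem reflG_inv' (Q : QuadraticForm F (ι → F)) (u : ι → F) : (reflG Q u)⁻¹ = reflG Q u :=
  inv_eq_of_mul_eq_one_right (reflG_mul_self Q u)

theorem reflG_mul_pow_three (Q : QuadraticForm F (ι → F)) (u v : ι → F) (hu : Q u ≠ 0)
    (huv : Q v = Q u) (hp : QuadraticMap.polar (⇑Q) u v = Q u) :
    (reflG Q u * reflG Q v) ^ 3 = 1 := by
  have h1 : reflG Q u * reflG Q v * reflG Q u = reflG Q (v - u) := by
    have key := conj_reflG Q (reflG Q u) v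
    rw [reflG_inv'] at key
    rw [key]
    congr 1
    rw [reflG_coe, reflectionMatrix_mulVec, hp, inv_mul_cancel₀ hu, one_smul]
  have h2 : reflG Q v * reflG Q u * reflG Q v = reflG Q (u - v) := by
    have key := conj_reflG Q (reflG Q v) u
    rw [reflG_inv'] at key
    rw [key]
    congr 1
    rw [reflG_coe, reflectionMatrix_mulVec, QuadraticMap.polar_comm, hp, huv,
      inv_mul_cancel₀ hu, one_smul]
  have h3 : reflG Q (u - v) = reflG Q (v - u) := by
    have key := reflG_smul Q (v - u) (c := -1) (by norm_num)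
    rw [← key]
    congr 1
    simp
  calc (reflG Q u * reflG Q v) ^ 3
      = (reflG Q u * reflG Q v * reflG Q u) * (reflG Q v * reflG Q u * reflG Q v) := by
        rw [pow_three]; group
    _ = reflG Q (v - u) * reflG Q (v - u) := by rw [h1, h2, h3]
    _ = 1 := reflG_mul_self Q _

/-- Over the field of two elements, the orthogonal transvections of a non-degenerate quadratic
form (not `O⁺₄(2)`) form a generating conjugacy class of 3-transpositions. -/
theorem three_transposition_class [Fintype F] (Q : QuadraticForm F (ι → F))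
    (hF : ∀ a : F, a ≠ 0 → a = 1) (h2 : (2 : F) = 0)
    (hQ : (QuadraticMap.polarBilin Q).Nondegenerate) {m : ℕ} (hV : finrank F (ι → F) = 2 * m)
    (hex : Fintype.card F ≠ 2 ∨ m ≠ 2) (hne : ∃ v : ι → F, Q v ≠ 0) :
    Cfsg.IsThreeTranspositionClass {g : ↥(Cfsg.isometryGroup F (⇑Q)) |
      (((g : Matrix.GeneralLinearGroup ι F) : Matrix ι ι F) - 1).rank = 1} := by
  have hD : {g : ↥(Cfsg.isometryGroup F (⇑Q)) |
      (((g : Matrix.GeneralLinearGroup ι F) : Matrix ι ι F) - 1).rank = 1} = reflSet Q := by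
    ext g
    constructor
    · intro hg
      obtain ⟨v, hv, rfl⟩ := eq_reflG_of_rank_one Q hQ g hg
      exact ⟨v, hv, rfl⟩
    · rintro ⟨v, hv, rfl⟩
      exact rank_reflG_sub_one Q hQ v hv
  rw [hD]
  refine ⟨⟨?_, ?_⟩, ?_, closure_reflSet_eq_top_two Q h2 hQ hV hex⟩
  · rintro d ⟨v, hv, rfl⟩
    apply orderOf_eq_prime
    · rw [pow_two]; exact reflG_mul_self Q v
    · intro h1
      have hr := rank_reflG_sub_one Q hQ v hv
      rw [h1] at hr
      have : (((1 : ↥(Cfsg.isometryGroup F (⇑Q))) : Matrix.GeneralLinearGroup ι F) :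
          Matrix ι ι F) - 1 = 0 := by
        show (1 : Matrix ι ι F) - 1 = 0
        rw [sub_self]
      rw [this, Matrix.rank_zero] at hr
      exact zero_ne_one hr
  · rintro d ⟨u, hu, rfl⟩ e ⟨v, hv, rfl⟩
    by_cases hp : QuadraticMap.polar (⇑Q) u v = 0
    · left
      rw [pow_two, mul_assoc, ← mul_assoc (reflG Q v), ← reflG_comm_of_orth Q u v hp, mul_assoc,
        reflG_mul_self, mul_one, reflG_mul_self]
    · right
      apply reflG_mul_pow_three Q u v hu
      · rw [hF _ hu, hF _ hv]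
      · rw [hF _ hu, hF _ hp]
  · obtain ⟨v₀, hv₀⟩ := hne
    refine ⟨reflG Q v₀, ⟨v₀, hv₀, rfl⟩, ?_⟩
    ext g
    show g ∈ reflSet Q ↔ IsConj (reflG Q v₀) g
    rw [isConj_iff]
    constructor
    · intro hg
      exact reflG_conj_two Q h2 hQ hV hex _ ⟨v₀, hv₀, rfl⟩ g hg
    · rintro ⟨c, rfl⟩
      rw [conj_reflG]
      exact ⟨_, by rw [isometry_apply c]; exact hv₀, rfl⟩

end

end Cfsg.Agent.H49
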